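import Cfsg.Agent.H29.CubeLam

/-!
The admissible last coordinates in the configurations with seven and with five rows.
-/

namespace Cfsg.Agent.H29.Cube

/-- A row. -/
abbrev Row := ℤ × ℤ × ℤ

/-- The integers of absolute value at most eight. -/
def small : List ℤ := (List.range 17).map fun t : ℕ => ((t : ℤ) - 8)

theorem mem_small {x : ℤ} (h : x * x ≤ 80) : x ∈ small := by
  have h1 : -8 ≤ x := by nlinarith
  have h2 : x ≤ 8 := by nlinarith
  simp only [small, List.mem_map, List.mem_range]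
  exact ⟨(x + 8).toNat, by omega, by omega⟩

/-- Some certificate excludes the rows. -/
def certified (sg : List Lam) (cg : List (ℤ × Lam)) (R : List Row) : Bool :=
  (sg.any fun l => (R.all fun x => decide (0 ≤ l.val x)) &&
    decide (l.ex ≤ 0 ∧ l.ey ≤ 0 ∧ l.ez ≤ 0 ∧ l.const < 134 * (R.map fun x => l.val x).sum)) ||
  (cg.any fun p => (R.all fun x => decide (p.2.val x = 0)) &&
    decide (p.1 ∣ p.2.ex ∧ p.1 ∣ p.2.ey ∧ p.1 ∣ p.2.ez ∧ ¬ p.1 ∣ p.2.const))

/-- The two exceptional choices in the configuration with seven rows. -/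
def special (cp cq e1 c1 e2 c2 : ℤ) : Bool :=
  decide (cp = -1 ∧ e1 = -1 ∧ e2 = -1 ∧
    ((cq = -1 ∧ ((c1 = 3 ∧ c2 = 5) ∨ (c1 = 5 ∧ c2 = 3))) ∨ (cq = 0 ∧ ((c1 = 3 ∧ c2 = 4) ∨ (c1 = 4 ∧ c2 = 3)))))

/-- The last row is forced by the linear relation. -/
def sevenAt (cp cq e1 c1 e2 : ℤ) : Bool :=
  let c2 := e2 * (-9 - 2 * cp + cq - e1 * c1)
  if 3 * (cp * cp + cq * cq + c1 * c1 + c2 * c2) + (9 - cp + cq) * (9 - cp + cq) ≤ 240 then
    special cp cq e1 c1 e2 c2 ||
      certified sevenSign sevenCong [(1, 2, cp), (-1, -1, cq), (0, e1, c1), (0, e2, c2)]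
  else true

theorem seven_all : (small.all fun cp => small.all fun cq => small.all fun c1 =>
    [(-1 : ℤ), 1].all fun e1 => [(-1 : ℤ), 1].all fun e2 => sevenAt cp cq e1 c1 e2) = true := by
  decide +kernel

/-- The rows with opposite signs fix the remaining ones. -/
def fiveAt (s : ℤ) (e : ℤ) (c1 c2 cy : ℤ) : Bool :=
  let A := 9 + c1 - e * c2 - s * cy
  let B := -9 + c1 - e * c2
  let cp := (A + B) / 3
  let cr := A - cp
  if (A + B) % 3 = 0 ∧ c1 * c1 + c2 * c2 + cy * cy + cp * cp + cr * cr ≤ 80 then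
    certified fiveSign fiveCong [(1, 2, cp), (1, -1, cr), (-1, -1, c1), (e, e, c2), (s, 0, cy)]
  else true

theorem five_all : (small.all fun c1 => small.all fun c2 => small.all fun cy =>
    [(-1 : ℤ), 1].all fun s => [(-1 : ℤ), 1].all fun e => fiveAt s e c1 c2 cy) = true := by
  decide +kernel

theorem seven_cases {cp cq e1 c1 e2 c2 : ℤ} (he1 : e1 = 1 ∨ e1 = -1) (he2 : e2 = 1 ∨ e2 = -1)
    (hlin : 2 * cp - cq + e1 * c1 + e2 * c2 = -9)
    (hsq : 3 * (cp * cp + cq * cq + c1 * c1 + c2 * c2) + (9 - cp + cq) * (9 - cp + cq) ≤ 240) :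
    special cp cq e1 c1 e2 c2 = true ∨
      certified sevenSign sevenCong [(1, 2, cp), (-1, -1, cq), (0, e1, c1), (0, e2, c2)] = true := by
  have hb := seven_all
  simp only [List.all_eq_true] at hb
  have h1 := mul_self_nonneg cp
  have h2 := mul_self_nonneg cq
  have h3 := mul_self_nonneg c1
  have h4 := mul_self_nonneg c2
  have h5 := mul_self_nonneg (9 - cp + cq)
  have hc2 : c2 = e2 * (-9 - 2 * cp + cq - e1 * c1) := by
    rcases he2 with rfl | rfl <;> linarith
  have h := hb cp (mem_small (by omega)) cq (mem_small (by omega)) c1 (mem_small (by omega)) e1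
    (by rcases he1 with rfl | rfl <;> simp) e2 (by rcases he2 with rfl | rfl <;> simp)
  simp only [sevenAt, ← hc2] at h
  rw [if_pos hsq, Bool.or_eq_true] at h
  exact h

theorem five_cases {s e cp cr c1 c2 cy : ℤ} (hs : s = 1 ∨ s = -1) (he : e = 1 ∨ e = -1)
    (h1 : cp + cr - c1 + e * c2 + s * cy = 9) (h2 : 2 * cp - cr - c1 + e * c2 = -9)
    (hsq : c1 * c1 + c2 * c2 + cy * cy + cp * cp + cr * cr ≤ 80) :
    certified fiveSign fiveCong [(1, 2, cp), (1, -1, cr), (-1, -1, c1), (e, e, c2), (s, 0, cy)] = true := by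
  have hb := five_all
  simp only [List.all_eq_true] at hb
  have k1 := mul_self_nonneg cp
  have k2 := mul_self_nonneg cr
  have k3 := mul_self_nonneg c1
  have k4 := mul_self_nonneg c2
  have k5 := mul_self_nonneg cy
  have h := hb c1 (mem_small (by omega)) c2 (mem_small (by omega)) cy (mem_small (by omega)) s
    (by rcases hs with rfl | rfl <;> simp) e (by rcases he with rfl | rfl <;> simp)
  simp only [fiveAt] at h
  have hA : (9 + c1 - e * c2 - s * cy) + (-9 + c1 - e * c2) = 3 * cp := by linarith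
  rw [hA, Int.mul_ediv_cancel_left _ (by norm_num : (3 : ℤ) ≠ 0)] at h
  have hcr : 9 + c1 - e * c2 - s * cy - cp = cr := by linarith
  rw [hcr] at h
  rw [if_pos ⟨by omega, hsq⟩] at h
  exact h

end Cfsg.Agent.H29.Cube
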