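import Cfsg.Agent.H29.CubeConfig
import Cfsg.Agent.H29.CubeCases

/-!
No system of rows satisfies the moment identities with a proper index.
-/

set_option linter.unusedSectionVars false

namespace Cfsg.Agent.H29.Cube

open Finset

/-- The data of the rows: pairs of multiplicities, last coordinate and degree. -/
structure RowData {ι : Type*} (S : Finset ι) (r : ι → Row) (d : ι → ℤ) (n i j k : ℤ) : Prop where
  nmod : n % 27 = 1
  nbig : 28 ≤ n
  ipos : 0 ≤ i
  jpos : 0 ≤ j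
  kpos : 0 ≤ k
  ne : ∀ χ ∈ S, ((r χ).1, (r χ).2.1) ≠ (0, 0)
  aa : ∑ χ ∈ S, (r χ).1 * (r χ).1 = 5
  bb : ∑ χ ∈ S, (r χ).2.1 * (r χ).2.1 = 7
  ab : ∑ χ ∈ S, (r χ).1 * (r χ).2.1 = 3
  ac : ∑ χ ∈ S, (r χ).1 * (r χ).2.2 = 9
  bc : ∑ χ ∈ S, (r χ).2.1 * (r χ).2.2 = -9
  cc : ∑ χ ∈ S, (r χ).2.2 * (r χ).2.2 ≤ 80
  dega : ∑ χ ∈ S, d χ * (r χ).1 = 0
  degb : ∑ χ ∈ S, d χ * (r χ).2.1 = 0
  dpos : ∀ χ ∈ S, 0 < d χ
  dmod : ∀ χ ∈ S, (27 : ℤ) ∣ d χ - ((r χ).2.2 + 9 * (r χ).1 + 9 * (r χ).2.1)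
  dsq : ∑ χ ∈ S, d χ * d χ ≤ 648 * n
  moments : Moments S r (fun χ => (648 * n : ℚ) / d χ) i j k

variable {ι : Type*} [DecidableEq ι] {S : Finset ι} {r : ι → Row} {d : ι → ℤ} {n i j k : ℤ}

theorem RowData.dle (h : RowData S r d n i j k) {χ : ι} (hχ : χ ∈ S) : d χ * d χ ≤ 648 * n :=
  le_trans (Finset.single_le_sum (f := fun χ => d χ * d χ) (fun x _ => mul_self_nonneg _) hχ) h.dsq

theorem RowData.weight_ge (h : RowData S r d n i j k) : ∀ χ ∈ S, (134 : ℚ) ≤ (648 * n : ℚ) / d χ := by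
  intro χ hχ
  have hd := h.dpos χ hχ
  have h1 : 134 * d χ ≤ 648 * n := by nlinarith [h.dle hχ, h.nbig]
  rw [le_div_iff₀ (by exact_mod_cast hd)]
  exact_mod_cast h1

/-- If a weight is an integer then it times the degree is the group order. -/
theorem RowData.weight_mul (h : RowData S r d n i j k) {χ : ι} (hχ : χ ∈ S) {w s : ℤ}
    (e : (s : ℚ) * ((648 * n : ℚ) / d χ) = w) : s * (648 * n) = w * d χ := by
  have hd : (d χ : ℚ) ≠ 0 := by exact_mod_cast (h.dpos χ hχ).ne'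
  rw [mul_div_assoc', div_eq_iff hd] at e
  exact_mod_cast e

theorem RowData.certified_false (h : RowData S r d n i j k) {R : Finset ι} (hRS : R ⊆ S)
    (sg : List Lam) (cg : List (ℤ × Lam)) (L : List Row) (hL : R.val.map r = (L : Multiset Row))
    (hsg : ∀ l ∈ sg, ∀ χ ∈ S, χ ∉ R → l.val (r χ) = 0)
    (hcg : ∀ p ∈ cg, ∀ χ ∈ S, χ ∉ R → p.2.val (r χ) = 0)
    (hc : certified sg cg L = true) : False := by
  have hmem : ∀ χ ∈ R, r χ ∈ L := fun χ hχ => by
    rw [← Multiset.mem_coe, ← hL]; exact Multiset.mem_map_of_mem r hχ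
  simp only [certified, Bool.or_eq_true, List.any_eq_true, Bool.and_eq_true, List.all_eq_true,
    decide_eq_true_eq] at hc
  rcases hc with ⟨l, hl, hpos, hx, hy, hz, hgt⟩ | ⟨p, hp, hzero, hx, hy, hz, hK⟩
  · refine h.moments.false_of_sign hRS h.weight_ge l (hsg l hl) (fun χ hχ => hpos _ (hmem χ hχ)) 0
      (by nlinarith [h.ipos, h.jpos, h.kpos]) ?_
    have e : (L.map fun x => l.val x).sum = ∑ χ ∈ R, l.val (r χ) := by
      rw [Finset.sum_eq_multiset_sum, ← Multiset.sum_coe, ← Multiset.map_coe, ← hL, Multiset.map_map]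
      rfl
    omega
  · exact h.moments.false_of_cong hRS p.2 p.1 (hcg p hp) (fun χ hχ => hzero _ (hmem χ hχ)) hx hy hz hK

section config

variable {L : List Pair} (hL : S.val.map (fun χ => ((r χ).1, (r χ).2.1)) = (L : Multiset Pair))
include hL

theorem mem_config {χ : ι} (hχ : χ ∈ S) : ((r χ).1, (r χ).2.1) ∈ L := by
  rw [← Multiset.mem_coe, ← hL]; exact Multiset.mem_map_of_mem (fun χ => ((r χ).1, (r χ).2.1)) hχ

theorem countP_config (p : Pair → Bool) :
    (S.filter fun χ => p ((r χ).1, (r χ).2.1) = true).card = L.countP p := by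
  have e := congrArg (Multiset.countP fun v => p v = true) hL
  rw [Multiset.countP_map, Multiset.coe_countP] at e
  simpa [Finset.card_def, Finset.filter_val] using e

theorem count_config (v : Pair) :
    (S.filter fun χ => ((r χ).1, (r χ).2.1) = v).card = L.count v := by
  rw [List.count_eq_countP, ← countP_config hL fun w => w == v]
  simp only [beq_iff_eq]

theorem exists_unique_config {v : Pair} (hv : L.count v = 1) :
    ∃ χ ∈ S, ((r χ).1, (r χ).2.1) = v ∧ ∀ χ' ∈ S, ((r χ').1, (r χ').2.1) = v → χ' = χ := by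
  obtain ⟨χ, hχ⟩ := Finset.card_eq_one.1 ((count_config hL v).trans hv)
  have := (Finset.mem_filter.1 (hχ ▸ Finset.mem_singleton_self χ : χ ∈ S.filter fun χ => ((r χ).1, (r χ).2.1) = v))
  refine ⟨χ, this.1, this.2, fun χ' h1 h2 => ?_⟩
  have h3 : χ' ∈ S.filter fun χ => ((r χ).1, (r χ).2.1) = v := Finset.mem_filter.2 ⟨h1, h2⟩
  rwa [hχ, Finset.mem_singleton] at h3

theorem RowData.degDead_false (h : RowData S r d n i j k) (hd : degDead L = true) : False := by
  simp only [degDead, List.any_eq_true, Bool.and_eq_true, List.all_eq_true, decide_eq_true_eq] at hd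
  obtain ⟨p, -, hnn, v, hv, hpos⟩ := hd
  have hv' : v ∈ (L : Multiset Pair) := Multiset.mem_coe.2 hv
  rw [← hL] at hv'
  obtain ⟨χ, hχ, rfl⟩ := Multiset.mem_map.1 hv'
  have hsum : ∑ x ∈ S, d x * (p.1 * (r x).1 + p.2 * (r x).2.1) = 0 := by
    have e : ∀ x, d x * (p.1 * (r x).1 + p.2 * (r x).2.1) = p.1 * (d x * (r x).1) + p.2 * (d x * (r x).2.1) :=
      fun x => by ring
    rw [Finset.sum_congr rfl fun x _ => e x, Finset.sum_add_distrib, ← Finset.mul_sum, ← Finset.mul_sum,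
      h.dega, h.degb]
    ring
  have hle := Finset.single_le_sum (f := fun x => d x * (p.1 * (r x).1 + p.2 * (r x).2.1))
    (fun x hx => mul_nonneg (h.dpos x hx).le (hnn _ (mem_config (r := r) hL hx))) hχ
  rw [hsum] at hle
  have := mul_pos (h.dpos χ hχ) hpos
  exact absurd hle (not_le.2 this)

theorem RowData.momDead_false (h : RowData S r d n i j k) (hd : momDead L = true) : False := by
  simp only [momDead, Lam.fits, List.any_eq_true, Bool.and_eq_true, List.all_eq_true, decide_eq_true_eq] at hd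
  have key : ∀ l : Lam, l.l4 = 0 ∧ l.l5 = 0 ∧ l.l6 = 0 ∧ l.l7 = 0 ∧ l.l8 = 0 →
      (∀ v ∈ L, 0 ≤ l.val (v.1, v.2, 0)) → ∀ B : ℤ, i * l.ex + j * l.ey + k * l.ez ≤ B →
      l.const + B < 134 * l.tot L → False := by
    rintro l ⟨h4, h5, h6, h7, h8⟩ hpos B hB hgt
    have hv : ∀ χ, l.val (r χ) = l.val ((r χ).1, (r χ).2.1, 0) := fun χ => by
      simp only [Lam.val, h4, h5, h6, h7, h8]; ring
    refine h.moments.false_of_sign (Subset.refl S) h.weight_ge l (fun χ hχ hn => absurd hχ hn)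
      (fun χ hχ => le_of_le_of_eq (hpos _ (mem_config (r := r) hL hχ)) (hv χ).symm) B hB ?_
    have e : l.tot L = ∑ χ ∈ S, l.val (r χ) := by
      rw [Lam.tot, Finset.sum_eq_multiset_sum, ← Multiset.sum_coe, ← Multiset.map_coe, ← hL, Multiset.map_map]
      exact congrArg _ (Multiset.map_congr rfl fun χ _ => (hv χ).symm)
    omega
  obtain ⟨⟨⟨l, -, ⟨h0, hpos⟩, hz, hgt⟩, ⟨l', -, ⟨h0', hpos'⟩, hx', hy', hz', hgt'⟩⟩,
    l'', -, ⟨h0'', hpos''⟩, hx'', hy'', hz'', hgt''⟩ := hd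
  rcases (show (i = 0 ∧ j = 0) ∨ 1 ≤ i ∨ 1 ≤ j by have := h.ipos; have := h.jpos; omega) with ⟨h1, h2⟩ | h1 | h1
  · exact key l h0 hpos 0 (by rw [h1, h2]; nlinarith [h.kpos]) (by omega)
  · exact key l' h0' hpos' l'.ex (by nlinarith [h.jpos, h.kpos]) hgt'
  · exact key l'' h0'' hpos'' l''.ey (by nlinarith [h.ipos, h.kpos]) hgt''

theorem RowData.five_false (h : RowData S r d n i j k) (hd : isFive L = true) : False := by
  simp only [isFive, Bool.and_eq_true, beq_iff_eq, List.all_eq_true, decide_eq_true_eq] at hd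
  obtain ⟨⟨⟨⟨⟨⟨hlen, hp⟩, hr⟩, hy⟩, hq⟩, hq1⟩, hall⟩ := hd
  obtain ⟨χp, hpS, hpv, -⟩ := exists_unique_config hL hp
  obtain ⟨χr, hrS, hrv, -⟩ := exists_unique_config hL hr
  obtain ⟨χy, hyS, hyv⟩ : ∃ χ ∈ S, (r χ).2.1 = 0 := by
    obtain ⟨χ, hχ⟩ := Finset.card_eq_one.1 ((countP_config hL fun v => v.2 == 0).trans hy)
    have := Finset.mem_filter.1 (hχ ▸ Finset.mem_singleton_self χ : χ ∈ S.filter _)
    exact ⟨χ, this.1, by simpa using this.2⟩
  have hQ := (countP_config hL fun v => v.1 == v.2).trans hq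
  obtain ⟨χa, haF⟩ : (S.filter fun χ => ((r χ).1, (r χ).2.1) = ((-1, -1) : Pair)).Nonempty := by
    rw [← Finset.card_pos, count_config hL]; omega
  obtain ⟨haS, hav⟩ := Finset.mem_filter.1 haF
  obtain ⟨χb, hb, hne⟩ := Finset.exists_mem_ne (by rw [countP_config hL fun v => v.1 == v.2, hq]; norm_num :
    1 < (S.filter fun χ => ((fun v : Pair => v.1 == v.2) ((r χ).1, (r χ).2.1)) = true).card) χa
  obtain ⟨hbS, hbv⟩ := Finset.mem_filter.1 hb
  replace hbv : (r χb).1 = (r χb).2.1 := by simpa using hbv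
  simp only [Prod.mk.injEq] at hpv hrv hav
  have hys : (r χy).1 = 1 ∨ (r χy).1 = -1 := by
    have := hall _ (mem_config hL hyS); simp [hyv] at this; exact this
  have hbe : (r χb).1 = 1 ∨ (r χb).1 = -1 := by
    have := hall _ (mem_config hL hbS); simp [← hbv] at this; omega
  have d1 : χp ≠ χr := fun e => by subst e; omega
  have d2 : χp ≠ χa := fun e => by subst e; omega
  have d3 : χp ≠ χb := fun e => by subst e; omega
  have d4 : χp ≠ χy := fun e => by subst e; omega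
  have d5 : χr ≠ χa := fun e => by subst e; omega
  have d6 : χr ≠ χb := fun e => by subst e; omega
  have d7 : χr ≠ χy := fun e => by subst e; omega
  have d8 : χa ≠ χy := fun e => by subst e; omega
  have d9 : χb ≠ χy := fun e => by subst e; omega
  have d0 : χa ≠ χb := Ne.symm hne
  have hS : S = {χp, χr, χa, χb, χy} := by
    symm
    refine Finset.eq_of_subset_of_card_le ?_ ?_
    · simp [Finset.insert_subset_iff, hpS, hrS, haS, hbS, hyS]
    · have : S.card = 5 := by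
        rw [← hlen, ← Multiset.coe_card, ← hL, Multiset.card_map]; rfl
      rw [this]
      simp [d1, d2, d3, d4, d5, d6, d7, d8, d9, d0]
  have hsum : ∀ f : ι → ℤ, ∑ χ ∈ S, f χ = f χp + f χr + f χa + f χb + f χy := by
    intro f
    rw [hS]
    simp [d1, d2, d3, d4, d5, d6, d7, d8, d9, d0]
    ring
  have hac := h.ac
  have hbc := h.bc
  have hcc := h.cc
  rw [hsum] at hac hbc hcc
  rw [hpv.1, hrv.1, hav.1] at hac
  rw [hpv.2, hrv.2, hav.2, hyv, ← hbv] at hbc
  have hc := five_cases hys hbe (c1 := (r χa).2.2) (c2 := (r χb).2.2) (cy := (r χy).2.2)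
    (cp := (r χp).2.2) (cr := (r χr).2.2) (by linarith) (by linarith) (by linarith)
  refine h.certified_false (Subset.refl S) fiveSign fiveCong _ ?_ (fun l _ χ hχ hn => absurd hχ hn)
    (fun p _ χ hχ hn => absurd hχ hn) hc
  have e : ∀ χ, r χ = ((r χ).1, (r χ).2.1, (r χ).2.2) := fun χ => rfl
  rw [hS]
  simp only [Finset.insert_val, Finset.singleton_val]
  simp [d1, d2, d3, d4, d5, d6, d7, d8, d9, d0]
  rw [e χp, e χr, e χa, e χb, e χy, hpv.1, hpv.2, hrv.1, hrv.2, hav.1, hav.2, hyv, ← hbv]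
  rfl

theorem RowData.seven_false (h : RowData S r d n i j k) (hd : isSeven L = true) : False := by
  simp only [isSeven, Bool.and_eq_true, beq_iff_eq, List.all_eq_true, decide_eq_true_eq] at hd
  obtain ⟨⟨⟨⟨hp, hq⟩, hz⟩, hy⟩, hall⟩ := hd
  obtain ⟨χp, hpS, hpv, hpu⟩ := exists_unique_config hL hp
  obtain ⟨χq, hqS, hqv, hqu⟩ := exists_unique_config hL hq
  obtain ⟨χ1, χ2, d0, hZ⟩ := Finset.card_eq_two.1 ((countP_config hL fun v => v.1 == 0).trans hz)
  have hY := (countP_config hL fun v => v.2 == 0).trans hy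
  set Y := S.filter fun χ => ((fun v : Pair => v.2 == 0) ((r χ).1, (r χ).2.1)) = true with hYdef
  have hkind : ∀ χ ∈ S, χ = χp ∨ χ = χq ∨ ((r χ).1 = 0 ∧ ((r χ).2.1 = 1 ∨ (r χ).2.1 = -1)) ∨
      ((r χ).2.1 = 0 ∧ ((r χ).1 = 1 ∨ (r χ).1 = -1)) := by
    intro χ hχ
    have := hall _ (mem_config hL hχ)
    simp only [List.mem_cons, List.not_mem_nil, or_false] at this
    rcases this with e | e | e | e | e | e
    · exact Or.inl (hpu χ hχ e)
    · exact Or.inr (Or.inl (hqu χ hχ e))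
    all_goals simp only [Prod.mk.injEq] at e; omega
  have h1 := Finset.mem_filter.1 (hZ ▸ Finset.mem_insert_self χ1 {χ2} : χ1 ∈ S.filter _)
  have h2 := Finset.mem_filter.1 (hZ ▸ Finset.mem_insert_of_mem (Finset.mem_singleton_self χ2) : χ2 ∈ S.filter _)
  obtain ⟨h1S, h1a⟩ := h1
  obtain ⟨h2S, h2a⟩ := h2
  replace h1a : (r χ1).1 = 0 := by simpa using h1a
  replace h2a : (r χ2).1 = 0 := by simpa using h2a
  simp only [Prod.mk.injEq] at hpv hqv
  have e1 : (r χ1).2.1 = 1 ∨ (r χ1).2.1 = -1 := by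
    rcases hkind χ1 h1S with rfl | rfl | hh | hh <;> omega
  have e2 : (r χ2).2.1 = 1 ∨ (r χ2).2.1 = -1 := by
    rcases hkind χ2 h2S with rfl | rfl | hh | hh <;> omega
  have d1 : χp ≠ χq := fun e => by subst e; omega
  have d2 : χp ≠ χ1 := fun e => by subst e; omega
  have d3 : χp ≠ χ2 := fun e => by subst e; omega
  have d4 : χq ≠ χ1 := fun e => by subst e; omega
  have d5 : χq ≠ χ2 := fun e => by subst e; omega
  set R : Finset ι := {χp, χq, χ1, χ2} with hR
  have hRS : R ⊆ S := by simp [hR, Finset.insert_subset_iff, hpS, hqS, h1S, h2S]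
  have hYR : S \ R = Y := by
    ext χ
    simp only [hR, hYdef, Finset.mem_sdiff, Finset.mem_insert, Finset.mem_singleton, Finset.mem_filter, beq_iff_eq]
    constructor
    · rintro ⟨hχ, hn⟩
      refine ⟨hχ, ?_⟩
      rcases hkind χ hχ with e | e | e | e
      · exact absurd (Or.inl e) hn
      · exact absurd (Or.inr (Or.inl e)) hn
      · have : χ ∈ S.filter fun χ => ((fun v : Pair => v.1 == 0) ((r χ).1, (r χ).2.1)) = true :=
          Finset.mem_filter.2 ⟨hχ, by simp [e.1]⟩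
        rw [hZ] at this
        simp only [Finset.mem_insert, Finset.mem_singleton] at this
        exact absurd (Or.inr (Or.inr this)) hn
      · exact e.1
    · rintro ⟨hχ, hn⟩
      refine ⟨hχ, ?_⟩
      rintro (rfl | rfl | rfl | rfl) <;> omega
  have hsum : ∀ f : ι → ℤ, ∑ χ ∈ S, f χ = f χp + f χq + f χ1 + f χ2 + ∑ χ ∈ Y, f χ := by
    intro f
    rw [← Finset.sum_sdiff hRS, hYR, hR]
    simp [d0, d1, d2, d3, d4, d5]
    ring
  have hYb : ∀ χ ∈ Y, (r χ).2.1 = 0 ∧ (r χ).1 * (r χ).1 = 1 := by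
    intro χ hχ
    rw [hYdef, Finset.mem_filter] at hχ
    have hb : (r χ).2.1 = 0 := by simpa using hχ.2
    rcases hkind χ hχ.1 with rfl | rfl | hh | ⟨-, hh | hh⟩
    · omega
    · omega
    · omega
    all_goals exact ⟨hb, by rw [hh]; norm_num⟩
  have hac := h.ac
  have hbc := h.bc
  have hcc := h.cc
  rw [hsum] at hac hbc hcc
  rw [hpv.1, hqv.1, h1a, h2a] at hac
  rw [hpv.2, hqv.2, Finset.sum_eq_zero fun χ hχ => by rw [(hYb χ hχ).1, zero_mul]] at hbc
  have hcs : (∑ χ ∈ Y, (r χ).1 * (r χ).2.2) * (∑ χ ∈ Y, (r χ).1 * (r χ).2.2) ≤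
      3 * ∑ χ ∈ Y, (r χ).2.2 * (r χ).2.2 := by
    have := sq_sum_le_card_mul_sum_sq (s := Y) (f := fun χ => (r χ).1 * (r χ).2.2)
    rw [hY, pow_two] at this
    refine this.trans (le_of_eq ?_)
    push_cast
    congr 1
    refine Finset.sum_congr rfl fun χ hχ => ?_
    rw [pow_two, mul_mul_mul_comm, (hYb χ hχ).2, one_mul]
  have hsy : ∑ χ ∈ Y, (r χ).1 * (r χ).2.2 = 9 - (r χp).2.2 + (r χq).2.2 := by linarith
  rw [hsy] at hcs
  have hoff : ∀ l : Lam, l.l0 = 0 → l.l4 = 0 → l.l7 = 0 → ∀ χ ∈ S, χ ∉ R → l.val (r χ) = 0 := by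
    intro l a0 a4 a7 χ hχ hn
    have := (hYb χ (hYR ▸ Finset.mem_sdiff.2 ⟨hχ, hn⟩)).1
    simp [Lam.val, a0, a4, a7, this]
  rcases seven_cases e1 e2 (cp := (r χp).2.2) (cq := (r χq).2.2) (c1 := (r χ1).2.2) (c2 := (r χ2).2.2)
      (by linarith) (by linarith) with hs | hc
  · simp only [special, decide_eq_true_eq] at hs
    obtain ⟨hcp, he1, he2, hs⟩ := hs
    have hw : ∀ l : Lam, l.l0 = 0 → l.l4 = 0 → l.l7 = 0 →
        (l.val (r χp) : ℚ) * ((648 * n : ℚ) / d χp) + (l.val (r χq) : ℚ) * ((648 * n : ℚ) / d χq) +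
          (l.val (r χ1) : ℚ) * ((648 * n : ℚ) / d χ1) + (l.val (r χ2) : ℚ) * ((648 * n : ℚ) / d χ2) =
          ((l.const + i * l.ex + j * l.ey + k * l.ez : ℤ) : ℚ) := by
      intro l a0 a4 a7
      rw [← h.moments.restrict hRS l (hoff l a0 a4 a7), hR]
      simp [d0, d1, d2, d3, d4, d5, add_assoc]
    have t0 := hw ⟨0, -1, 1, 0, 0, 0, 0, 0, 0⟩ rfl rfl rfl
    simp [Lam.val, Lam.const, Lam.ex, Lam.ey, Lam.ez, hpv.1, hpv.2, hqv.1, hqv.2, h1a, h2a] at t0
    rcases hs with ⟨hcq, hcases⟩ | ⟨hcq, hcases⟩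
    · have t1 := hw ⟨0, -3, 2, 0, 0, 1, 0, 0, 0⟩ rfl rfl rfl
      simp [Lam.val, Lam.const, Lam.ex, Lam.ey, Lam.ez, hpv.1, hpv.2, hqv.1, hqv.2, h1a, h2a, hcp, hcq] at t1
      have q1 : 0 = 864 * i + 864 * j - 36 * k := by
        have : ((0 : ℤ) : ℚ) = ((864 * i + 864 * j - 36 * k : ℤ) : ℚ) := by push_cast; linarith
        exact_mod_cast this
      obtain ⟨χz, hzS, hze, hzc, t2, t3⟩ : ∃ χz ∈ S, (r χz).2.1 = -1 ∧ (r χz).2.2 = 5 ∧
          ((0 : ℤ) : ℚ) = ((12960 * i + 4212 * j - 378 * k : ℤ) : ℚ) ∧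
          (2 : ℚ) * ((648 * n : ℚ) / d χz) = ((1728 * i + 108 * j - 18 * k : ℤ) : ℚ) ∧ (r χz).1 = 0 := by
        have t2 := hw ⟨0, -3, -21, 15, 0, 0, 8, 0, 1⟩ rfl rfl rfl
        have t3 := hw ⟨0, 2, -6, 3, 0, 0, 1, 0, 0⟩ rfl rfl rfl
        rcases hcases with ⟨c1', c2'⟩ | ⟨c1', c2'⟩
        · refine ⟨χ2, h2S, he2, c2', ?_, ?_, h2a⟩ <;>
            simp [Lam.val, Lam.const, Lam.ex, Lam.ey, Lam.ez, hpv.1, hpv.2, hqv.1, hqv.2, h1a, h2a, hcp, hcq,
              he1, he2, c1', c2'] at t2 t3 ⊢ <;> linarith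
        · refine ⟨χ1, h1S, he1, c1', ?_, ?_, h1a⟩ <;>
            simp [Lam.val, Lam.const, Lam.ex, Lam.ey, Lam.ez, hpv.1, hpv.2, hqv.1, hqv.2, h1a, h2a, hcp, hcq,
              he1, he2, c1', c2'] at t2 t3 ⊢ <;> linarith
      obtain ⟨t3, hza⟩ := t3
      have q2 : 0 = 12960 * i + 4212 * j - 378 * k := by exact_mod_cast t2
      have f0 := h.weight_mul hpS (s := 2) (w := 864 * i + 216 * j + 18 * k) (by push_cast; linarith)
      have f1 := h.weight_mul hzS (s := 2) (w := 1728 * i + 108 * j - 18 * k) (by push_cast at t3 ⊢; linarith)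
      obtain ⟨m, hm⟩ : (5 : ℤ) ∣ i := by omega
      have hjm : j = 4 * m := by omega
      have hkm : k = 216 * m := by omega
      subst hm hjm hkm
      have g0 : n = 7 * m * d χp := by
        have : 1296 * n = 1296 * (7 * m * d χp) := by linarith
        omega
      have g1 : n = 4 * m * d χz := by
        have : 1296 * n = 1296 * (4 * m * d χz) := by linarith
        omega
      have m0 := (ZMod.intCast_zmod_eq_zero_iff_dvd _ 27).2 (h.dmod χp hpS)
      have m1 := (ZMod.intCast_zmod_eq_zero_iff_dvd _ 27).2 (h.dmod χz hzS)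
      rw [hpv.1, hpv.2, hcp] at m0
      rw [hza, hze, hzc] at m1
      have hn1 : (n : ZMod 27) = 1 := by
        rw [← Int.cast_one, ZMod.intCast_eq_intCast_iff']; simpa using h.nmod
      push_cast at m0 m1
      rw [sub_eq_zero] at m0 m1
      have c0 := congrArg (Int.cast (R := ZMod 27)) g0
      have c1 := congrArg (Int.cast (R := ZMod 27)) g1
      push_cast at c0 c1
      rw [hn1, m0] at c0
      rw [hn1, m1] at c1
      have key : ∀ x : ZMod 27, ¬ ((1 : ZMod 27) = 7 * x * (-1 + 9 * 1 + 9 * 2) ∧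
          (1 : ZMod 27) = 4 * x * (5 + 9 * 0 + 9 * -1)) := by decide +kernel
      exact key _ ⟨c0, c1⟩
    · have t1 := hw ⟨0, -1, 1, 0, 0, 1, 0, 0, 0⟩ rfl rfl rfl
      simp [Lam.val, Lam.const, Lam.ex, Lam.ey, Lam.ez, hpv.1, hpv.2, hqv.1, hqv.2, h1a, h2a, hcp, hcq] at t1
      have q1 : 243 = 864 * i + 216 * j - 63 * k := by
        have : ((243 : ℤ) : ℚ) = ((864 * i + 216 * j - 63 * k : ℤ) : ℚ) := by push_cast; linarith
        exact_mod_cast this
      have f0 := h.weight_mul hpS (s := 2) (w := 864 * i + 216 * j + 18 * k) (by push_cast; linarith)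
      obtain ⟨q, hq3⟩ : (3 : ℤ) ∣ k := by omega
      have hw0 : 864 * i + 216 * j + 18 * k = 243 * (q + 1) := by omega
      rw [hw0, mul_assoc] at f0
      have hn1 := h.nmod
      have : (3 : ℤ) ∣ n := by
        generalize (q + 1) * d χp = t at f0
        omega
      omega
  · refine h.certified_false hRS sevenSign sevenCong _ ?_ (fun l hl => ?_) (fun p hp => ?_) hc
    · have e : ∀ χ, r χ = ((r χ).1, (r χ).2.1, (r χ).2.2) := fun χ => rfl
      rw [hR]
      simp only [Finset.insert_val, Finset.singleton_val]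
      simp [d0, d1, d2, d3, d4, d5]
      rw [e χp, e χq, e χ1, e χ2, hpv.1, hpv.2, hqv.1, hqv.2, h1a, h2a]
      rfl
    · have : sevenSign.all (fun l => decide (l.l0 = 0 ∧ l.l4 = 0 ∧ l.l7 = 0)) = true := by decide +kernel
      rw [List.all_eq_true] at this
      have h3 := of_decide_eq_true (this l hl)
      exact hoff l h3.1 h3.2.1 h3.2.2
    · have : sevenCong.all (fun p => decide (p.2.l0 = 0 ∧ p.2.l4 = 0 ∧ p.2.l7 = 0)) = true := by decide +kernel
      rw [List.all_eq_true] at this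
      have h3 := of_decide_eq_true (this p hp)
      exact hoff p.2 h3.1 h3.2.1 h3.2.2

theorem RowData.typeI_false (h : RowData S r d n i j k) (hd : isI L = true) : False := by
  simp only [isI, Bool.and_eq_true, beq_iff_eq, List.all_eq_true, decide_eq_true_eq] at hd
  obtain ⟨⟨hp, hm⟩, hall⟩ := hd
  obtain ⟨χ7, h7S, h7v, h7u⟩ := exists_unique_config hL hp
  obtain ⟨χ2, h2S, h2v, h2u⟩ := exists_unique_config hL hm
  have hkind : ∀ χ ∈ S, χ = χ7 ∨ χ = χ2 ∨
      ((r χ).2.1 = (r χ).1 ∧ ((r χ).1 = 1 ∨ (r χ).1 = -1)) ∨ (r χ).1 = 0 := by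
    intro χ hχ
    have := hall _ (mem_config hL hχ)
    simp only [List.mem_cons, List.not_mem_nil, or_false] at this
    rcases this with e | e | e | e | e | e
    · exact Or.inl (h7u χ hχ e)
    · exact Or.inr (Or.inl (h2u χ hχ e))
    all_goals simp only [Prod.mk.injEq] at e; omega
  simp only [Prod.mk.injEq] at h7v h2v
  have d0 : χ7 ≠ χ2 := fun e => by subst e; omega
  have hw : ∀ l : Lam, l.l3 = 0 → l.l6 = 0 → l.l8 = 0 → l.l0 + l.l1 + l.l2 = 0 → l.l4 + l.l5 = 0 →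
      l.l7 = 0 →
      (l.val (r χ7) : ℚ) * ((648 * n : ℚ) / d χ7) + (l.val (r χ2) : ℚ) * ((648 * n : ℚ) / d χ2) =
        ((l.const + i * l.ex + j * l.ey + k * l.ez : ℤ) : ℚ) := by
    intro l a3 a6 a8 s1 s2 a7
    rw [← h.moments.restrict (R := {χ7, χ2}) (by simp [Finset.insert_subset_iff, h7S, h2S]) l ?_,
      Finset.sum_pair d0]
    intro χ hχ hn
    simp only [Finset.mem_insert, Finset.mem_singleton, not_or] at hn
    rcases hkind χ hχ with e | e | ⟨eb, ea⟩ | e
    · exact absurd e hn.1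
    · exact absurd e hn.2
    · have s1' : l.l0 = -l.l1 - l.l2 := by omega
      have s2' : l.l4 = -l.l5 := by omega
      simp only [Lam.val, eb, a3, a6, a8, a7, s1', s2']
      ring
    · simp [Lam.val, e, a3, a6, a8]
  have z0 := hw ⟨0, 1, -1, 0, 0, 0, 0, 0, 0⟩ rfl rfl rfl rfl rfl rfl
  simp [Lam.val, Lam.const, Lam.ex, Lam.ey, Lam.ez, h7v.1, h7v.2, h2v.1, h2v.2] at z0
  have z0' : 864 * i + 216 * j + 18 * k = 0 := by
    have : ((864 * i + 216 * j + 18 * k : ℤ) : ℚ) = ((0 : ℤ) : ℚ) := by push_cast; linarith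
    exact_mod_cast this
  have hi := h.ipos
  have hj := h.jpos
  have hk := h.kpos
  obtain rfl : i = 0 := by omega
  obtain rfl : j = 0 := by omega
  obtain rfl : k = 0 := by omega
  have t1 := hw ⟨1, -1, 0, 0, 0, 0, 0, 0, 0⟩ rfl rfl rfl rfl rfl rfl
  have t2 := hw ⟨0, 0, 0, 0, 1, -1, 0, 0, 0⟩ rfl rfl rfl rfl rfl rfl
  simp [Lam.val, Lam.const, Lam.ex, Lam.ey, Lam.ez, h7v.1, h7v.2, h2v.1, h2v.2] at t1 t2
  have w7 := h.weight_ge χ7 h7S
  have w2 := h.weight_ge χ2 h2S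
  have hsq : d χ7 * d χ7 + d χ2 * d χ2 ≤ 648 * n := by
    refine le_trans ?_ h.dsq
    rw [← Finset.sum_pair (f := fun χ => d χ * d χ) d0]
    exact Finset.sum_le_sum_of_subset_of_nonneg (by simp [Finset.insert_subset_iff, h7S, h2S])
      fun x _ _ => mul_self_nonneg _
  have hcc : (r χ7).2.2 * (r χ7).2.2 + (r χ2).2.2 * (r χ2).2.2 ≤ 80 := by
    refine le_trans ?_ h.cc
    rw [← Finset.sum_pair (f := fun χ => (r χ).2.2 * (r χ).2.2) d0]
    exact Finset.sum_le_sum_of_subset_of_nonneg (by simp [Finset.insert_subset_iff, h7S, h2S])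
      fun x _ _ => mul_self_nonneg _
  have hd7 := h.dpos χ7 h7S
  have hd2 := h.dpos χ2 h2S
  have hm7 := h.dmod χ7 h7S
  have hm2 := h.dmod χ2 h2S
  rw [h7v.1, h7v.2] at hm7
  rw [h2v.1, h2v.2] at hm2
  have hn1 := h.nmod
  generalize hc7 : (r χ7).2.2 = a at hm7 hcc t2
  generalize hc2 : (r χ2).2.2 = b at hm2 hcc t2
  -- the two weights are determined
  have e7 : (((a + b : ℤ)) : ℚ) * ((648 * n : ℚ) / d χ7) = ((108 * (3 + b) : ℤ) : ℚ) := by
    push_cast; linear_combination t2 + (b : ℚ) * t1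
  have e2 : (((a + b : ℤ)) : ℚ) * ((648 * n : ℚ) / d χ2) = ((108 * (3 - a) : ℤ) : ℚ) := by
    push_cast; linear_combination t2 - (a : ℚ) * t1
  have f7 : (3 + b) * d χ7 = 6 * (a + b) * n := by linarith [h.weight_mul h7S e7]
  have f2 : (3 - a) * d χ2 = 6 * (a + b) * n := by linarith [h.weight_mul h2S e2]
  by_cases hab : a + b = 0
  · have hb3 : b = -3 := by
      rcases mul_eq_zero.1 (by rw [f7, hab]; ring : (3 + b) * d χ7 = 0) with hh | hh <;> omega
    have ha3 : a = 3 := by omega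
    subst hb3 ha3
    obtain ⟨p, hp'⟩ := hm7
    obtain ⟨q, hq'⟩ := hm2
    have e : (648 * n : ℚ) * ((d χ2 : ℚ) - d χ7) = 108 * (d χ7 * d χ2) := by
      have n7 : (d χ7 : ℚ) ≠ 0 := by exact_mod_cast hd7.ne'
      have n2 : (d χ2 : ℚ) ≠ 0 := by exact_mod_cast hd2.ne'
      have t1' : (648 * n : ℚ) / d χ7 - (648 * n : ℚ) / d χ2 = 108 := by linarith
      rw [div_sub_div _ _ n7 n2, div_eq_iff (mul_ne_zero n7 n2)] at t1'
      linarith
    have e' : 6 * n * (d χ2 - d χ7) = d χ7 * d χ2 := by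
      have : (648 * n) * (d χ2 - d χ7) = 108 * (d χ7 * d χ2) := by exact_mod_cast e
      linarith
    have hbnd : d χ2 - d χ7 ≤ 54 := by
      nlinarith [sq_nonneg (d χ2 - d χ7), mul_pos hd7 hd2]
    have hpos : 0 < d χ2 - d χ7 := by
      nlinarith [mul_pos hd7 hd2, h.nbig]
    have hd7e : d χ7 = 3 * (9 * p + 4) := by linarith
    have hd2e : d χ2 = 3 * (9 * q + 5 - 9) := by linarith
    have e'' : 2 * n * (9 * q - 4 - (9 * p + 4)) = (9 * p + 4) * (9 * q - 4) := by
      have h9 : 9 * (2 * n * (9 * q - 4 - (9 * p + 4))) = 9 * ((9 * p + 4) * (9 * q - 4)) := by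
        rw [hd7e, hd2e] at e'
        linarith
      omega
    have hw' : 9 * q - 4 - (9 * p + 4) = 1 ∨ 9 * q - 4 - (9 * p + 4) = 10 := by omega
    have hn27 : (n : ZMod 27) = 1 := by
      rw [← Int.cast_one, ZMod.intCast_eq_intCast_iff']; simpa using h.nmod
    have key : ∀ x : ZMod 27, x.val % 9 = 4 → ¬ (2 * 1 * 1 = x * (x + 1) ∨ 2 * 1 * 10 = x * (x + 10)) := by
      decide +kernel
    refine key ((9 * p + 4 : ℤ) : ZMod 27) ?_ ?_
    · have h9 : (((9 * p + 4 : ℤ) : ZMod 27).val : ℤ) = (9 * p + 4) % 27 := ZMod.val_intCast _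
      omega
    · rcases hw' with hw' | hw'
      · left
        rw [hw', show 9 * q - 4 = 9 * p + 4 + 1 by omega] at e''
        have := congrArg (Int.cast (R := ZMod 27)) e''
        push_cast at this ⊢
        rw [hn27] at this
        exact this
      · right
        rw [hw', show 9 * q - 4 = 9 * p + 4 + 10 by omega] at e''
        have := congrArg (Int.cast (R := ZMod 27)) e''
        push_cast at this ⊢
        rw [hn27] at this
        exact this
  · -- finitely many values remain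
    have key : (small.all fun a => small.all fun b => decide (a + b = 0 ∨ 80 < a * a + b * b ∨
        (0 < a + b ∧ (108 * (3 + b) < 134 * (a + b) ∨ 108 * (3 - a) < 134 * (a + b))) ∨
        (a + b < 0 ∧ (134 * (a + b) < 108 * (3 + b) ∨ 134 * (a + b) < 108 * (3 - a))) ∨
        ¬ (∃ p ∈ ([0, 1, 2] : List ℤ), ((3 + b) * (a + 9 + 27 * p) - 6 * (a + b)) % 81 ∈
              ([0, 27, 54] : List ℤ) ∧
            ∃ q ∈ ([0, 1, 2] : List ℤ), ∃ s ∈ ([0, 1, 2] : List ℤ),
              ((3 + b) * (a + 9 + 27 * p) - 6 * (a + b) * (1 + 27 * s)) % 81 = 0 ∧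
              ((3 - a) * (b - 9 + 27 * q) - 6 * (a + b) * (1 + 27 * s)) % 81 = 0))) = true := by
      decide +kernel
    simp only [List.all_eq_true, decide_eq_true_eq] at key
    have q1 := mul_self_nonneg a
    have q2 := mul_self_nonneg b
    rcases key a (mem_small (by omega)) b (mem_small (by omega)) with hh | hh | ⟨hs, hh⟩ | ⟨hs, hh⟩ | hh
    · exact hab hh
    · omega
    · have hq : (0 : ℚ) ≤ ((a + b : ℤ) : ℚ) := by exact_mod_cast hs.le
      rcases hh with hh | hh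
      · have := mul_le_mul_of_nonneg_left w7 hq
        rw [e7] at this
        have h' : (a + b) * 134 ≤ 108 * (3 + b) := by exact_mod_cast this
        omega
      · have := mul_le_mul_of_nonneg_left w2 hq
        rw [e2] at this
        have h' : (a + b) * 134 ≤ 108 * (3 - a) := by exact_mod_cast this
        omega
    · have hq : ((a + b : ℤ) : ℚ) ≤ 0 := by exact_mod_cast hs.le
      rcases hh with hh | hh
      · have := mul_le_mul_of_nonpos_left w7 hq
        rw [e7] at this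
        have h' : 108 * (3 + b) ≤ (a + b) * 134 := by exact_mod_cast this
        omega
      · have := mul_le_mul_of_nonpos_left w2 hq
        rw [e2] at this
        have h' : 108 * (3 - a) ≤ (a + b) * 134 := by exact_mod_cast this
        omega
    · apply hh
      obtain ⟨p, hp'⟩ := hm7
      obtain ⟨q, hq'⟩ := hm2
      have hn3 : n = 1 + 27 * (n / 27) := by omega
      have g7 : ((3 + b) * (a + 9 + 27 * (p % 3)) - 6 * (a + b) * (1 + 27 * (n / 27 % 3))) % 81 = 0 := by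
        refine Int.emod_eq_zero_of_dvd ⟨-((3 + b) * (p / 3)) + 6 * (a + b) * (n / 27 / 3), ?_⟩
        have e1 : d χ7 = a + 9 + 27 * (p % 3) + 81 * (p / 3) := by omega
        have e3 : n = 1 + 27 * (n / 27 % 3) + 81 * (n / 27 / 3) := by omega
        rw [e1] at f7
        rw [e3] at f7
        linarith
      have g2 : ((3 - a) * (b - 9 + 27 * (q % 3)) - 6 * (a + b) * (1 + 27 * (n / 27 % 3))) % 81 = 0 := by
        refine Int.emod_eq_zero_of_dvd ⟨-((3 - a) * (q / 3)) + 6 * (a + b) * (n / 27 / 3), ?_⟩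
        have e1 : d χ2 = b - 9 + 27 * (q % 3) + 81 * (q / 3) := by omega
        have e3 : n = 1 + 27 * (n / 27 % 3) + 81 * (n / 27 / 3) := by omega
        rw [e1] at f2
        rw [e3] at f2
        linarith
      refine ⟨p % 3, by simp; omega, ?_, q % 3, by simp; omega, n / 27 % 3, by simp; omega, g7, g2⟩
      have h81 : ((3 + b) * (a + 9 + 27 * (p % 3)) - 6 * (a + b)) % 81 =
          (162 * ((a + b) * (n / 27 % 3))) % 81 := by
        have : (3 + b) * (a + 9 + 27 * (p % 3)) - 6 * (a + b) * (1 + 27 * (n / 27 % 3)) =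
            (3 + b) * (a + 9 + 27 * (p % 3)) - 6 * (a + b) - 162 * ((a + b) * (n / 27 % 3)) := by ring
        rw [this] at g7
        omega
      rw [h81]
      simp; omega

end config

theorem no_rows (h : RowData S r d n i j k) : False := by
  have hne : ∀ v ∈ S.val.map (fun χ => ((r χ).1, (r χ).2.1)), 1 ≤ v.1 * v.1 + v.2 * v.2 := by
    intro v hv
    obtain ⟨χ, hχ, rfl⟩ := Multiset.mem_map.1 hv
    by_contra hlt
    change ¬ 1 ≤ (r χ).1 * (r χ).1 + (r χ).2.1 * (r χ).2.1 at hlt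
    have h1 := mul_self_nonneg (r χ).1
    have h2 := mul_self_nonneg (r χ).2.1
    have z1 : (r χ).1 * (r χ).1 = 0 := by omega
    have z2 : (r χ).2.1 * (r χ).2.1 = 0 := by omega
    exact h.ne χ hχ (Prod.ext (mul_self_eq_zero.1 z1) (mul_self_eq_zero.1 z2))
  have hmem : ∀ v ∈ S.val.map (fun χ => ((r χ).1, (r χ).2.1)), v ∈ pairs := by
    intro v hv
    obtain ⟨χ, hχ, rfl⟩ := Multiset.mem_map.1 hv
    refine pairs_complete _ (h.ne χ hχ) ?_ ?_
    · exact le_of_le_of_eq (Finset.single_le_sum (f := fun χ => (r χ).1 * (r χ).1)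
        (fun x _ => mul_self_nonneg _) hχ) h.aa
    · exact le_of_le_of_eq (Finset.single_le_sum (f := fun χ => (r χ).2.1 * (r χ).2.1)
        (fun x _ => mul_self_nonneg _) hχ) h.bb
  obtain ⟨L, hL, hgood⟩ := explore_sound pairs 5 7 3 [] explore_all (by norm_num) (by norm_num)
    (S.val.map (fun χ => ((r χ).1, (r χ).2.1))) hmem hne
    (by rw [Multiset.map_map, ← h.aa]; rfl) (by rw [Multiset.map_map, ← h.bb]; rfl)
    (by rw [Multiset.map_map, ← h.ab]; rfl)
  simp only [Multiset.coe_nil, add_zero] at hL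
  simp only [good, Bool.or_eq_true] at hgood
  rcases hgood with (((hh | hh) | hh) | hh) | hh
  · exact h.typeI_false hL.symm hh
  · exact h.seven_false hL.symm hh
  · exact h.five_false hL.symm hh
  · exact h.degDead_false hL.symm hh
  · exact h.momDead_false hL.symm hh

end Cfsg.Agent.H29.Cube
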