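import Cfsg.Agent.H29.CubeLam

/-!
The possible pairs of virtual character multiplicities with the prescribed norms.
-/

namespace Cfsg.Agent.H29.Cube

/-- Pairs of multiplicities. -/
abbrev Pair := ℤ × ℤ

/-- The nonzero pairs with both squares small. -/
def pairs : List Pair :=
  [(-2, -2), (-2, -1), (-2, 0), (-2, 1), (-2, 2), (-1, -2), (-1, -1), (-1, 0), (-1, 1), (-1, 2), (0, -2), (0, -1),
    (0, 1), (0, 2), (1, -2), (1, -1), (1, 0), (1, 1), (1, 2), (2, -2), (2, -1), (2, 0), (2, 1), (2, 2)]

/-- Three rows of one kind, one pair of opposite rows of another, and four of a third. -/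
def isI (L : List Pair) : Bool :=
  L.count (1, 0) == 1 && L.count (-1, 0) == 1 &&
    L.all fun v => decide (v ∈ [((1 : ℤ), (0 : ℤ)), (-1, 0), (1, 1), (-1, -1), (0, 1), (0, -1)])

/-- Seven rows. -/
def isSeven (L : List Pair) : Bool :=
  L.count (1, 2) == 1 && L.count (-1, -1) == 1 && L.countP (fun v => v.1 == 0) == 2 &&
    L.countP (fun v => v.2 == 0) == 3 &&
    L.all fun v => decide (v ∈ [((1 : ℤ), (2 : ℤ)), (-1, -1), (0, 1), (0, -1), (1, 0), (-1, 0)])

/-- Five rows. -/
def isFive (L : List Pair) : Bool :=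
  L.length == 5 && L.count (1, 2) == 1 && L.count (1, -1) == 1 && L.countP (fun v => v.2 == 0) == 1 &&
    L.countP (fun v => v.1 == v.2) == 2 && decide (1 ≤ L.count (-1, -1)) &&
    L.all fun v => decide (v ∈ [((1 : ℤ), (2 : ℤ)), (1, -1), (1, 0), (-1, 0), (1, 1), (-1, -1)])

/-- A degree certificate. -/
def degDead (L : List Pair) : Bool :=
  degDirs.any fun p => L.all (fun v => decide (0 ≤ p.1 * v.1 + p.2 * v.2)) &&
    L.any (fun v => decide (0 < p.1 * v.1 + p.2 * v.2))

/-- The sum of the values of a multiplier on the rows. -/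
def Lam.tot (l : Lam) (L : List Pair) : ℤ := (L.map fun v => l.val (v.1, v.2, 0)).sum

/-- The multiplier applies: it ignores the last coordinate and is non-negative on the rows. -/
def Lam.fits (l : Lam) (L : List Pair) : Bool :=
  decide (l.l4 = 0 ∧ l.l5 = 0 ∧ l.l6 = 0 ∧ l.l7 = 0 ∧ l.l8 = 0) &&
    L.all fun v => decide (0 ≤ l.val (v.1, v.2, 0))

/-- Contradiction in each of the three cases for the excess counts. -/
def momDead (L : List Pair) : Bool :=
  (configLams.any fun l => l.fits L && decide (l.ez ≤ 0 ∧ l.const < 134 * l.tot L)) &&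
  (configLams.any fun l => l.fits L &&
    decide (l.ex ≤ 0 ∧ l.ey ≤ 0 ∧ l.ez ≤ 0 ∧ l.const + l.ex < 134 * l.tot L)) &&
  (configLams.any fun l => l.fits L &&
    decide (l.ex ≤ 0 ∧ l.ey ≤ 0 ∧ l.ez ≤ 0 ∧ l.const + l.ey < 134 * l.tot L))

/-- All configurations to be dealt with. -/
def good (L : List Pair) : Bool := isI L || isSeven L || isFive L || degDead L || momDead L

/-- Enumerate the multisets with the prescribed moments. -/
def explore : List Pair → ℤ → ℤ → ℤ → List Pair → Bool
  | [], A, B, C, cur => if A = 0 ∧ B = 0 ∧ C = 0 then good cur else true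
  | v :: vs, A, B, C, cur =>
    if A = 0 ∧ B = 0 then (if C = 0 then good cur else true)
    else if A + B < 2 * C ∨ A + B < -2 * C then true
    else (List.range 8).all fun m =>
      if (m : ℤ) * (v.1 * v.1) ≤ A ∧ (m : ℤ) * (v.2 * v.2) ≤ B then
        explore vs (A - m * (v.1 * v.1)) (B - m * (v.2 * v.2)) (C - m * (v.1 * v.2))
          (List.replicate m v ++ cur)
      else true

theorem explore_all : explore pairs 5 7 3 [] = true := by decide +kernel

theorem pairs_complete : ∀ v : Pair, v ≠ (0, 0) → v.1 * v.1 ≤ 5 → v.2 * v.2 ≤ 7 → v ∈ pairs := by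
  rintro ⟨a, b⟩ hne ha hb
  have ha' : -2 ≤ a ∧ a ≤ 2 := by constructor <;> nlinarith
  have hb' : -2 ≤ b ∧ b ≤ 2 := by constructor <;> nlinarith
  obtain ⟨h1, h2⟩ := ha'
  obtain ⟨h3, h4⟩ := hb'
  simp only [ne_eq] at hne
  interval_cases a <;> interval_cases b <;> first | (exact absurd rfl hne) | decide

theorem explore_sound : ∀ (vs : List Pair) (A B C : ℤ) (cur : List Pair), explore vs A B C cur = true →
    A < 8 → B < 8 →
    ∀ M : Multiset Pair, (∀ v ∈ M, v ∈ vs) → (∀ v ∈ M, 1 ≤ v.1 * v.1 + v.2 * v.2) →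
      (M.map fun v => v.1 * v.1).sum = A → (M.map fun v => v.2 * v.2).sum = B →
      (M.map fun v => v.1 * v.2).sum = C →
      ∃ L : List Pair, (L : Multiset Pair) = M + (cur : Multiset Pair) ∧ good L = true := by
  intro vs
  induction vs with
  | nil =>
    intro A B C cur hgood _ _ M hM _ hA hB hC
    have : M = 0 := Multiset.eq_zero_of_forall_notMem fun v hv => by simpa using hM v hv
    subst this
    simp at hA hB hC
    refine ⟨cur, by simp, ?_⟩
    rw [explore] at hgood
    simpa [← hA, ← hB, ← hC] using hgood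
  | cons v vs ih =>
    intro A B C cur hgood hA8 hB8 M hM hne hA hB hC
    set m := M.count v with hm
    set M' := M.filter (fun x => v ≠ x) with hM'
    have hsplit : M = Multiset.replicate m v + M' := by
      rw [← Multiset.filter_eq, hM', Multiset.filter_add_not]
    have eA : A = m * (v.1 * v.1) + (M'.map fun v => v.1 * v.1).sum := by
      rw [← hA, hsplit, Multiset.map_add, Multiset.sum_add, Multiset.map_replicate, Multiset.sum_replicate]
      simp
    have eB : B = m * (v.2 * v.2) + (M'.map fun v => v.2 * v.2).sum := by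
      rw [← hB, hsplit, Multiset.map_add, Multiset.sum_add, Multiset.map_replicate, Multiset.sum_replicate]
      simp
    have eC : C = m * (v.1 * v.2) + (M'.map fun v => v.1 * v.2).sum := by
      rw [← hC, hsplit, Multiset.map_add, Multiset.sum_add, Multiset.map_replicate, Multiset.sum_replicate]
      simp
    have hA' : 0 ≤ (M'.map fun v => v.1 * v.1).sum :=
      Multiset.sum_nonneg fun x hx => by
        obtain ⟨w, -, rfl⟩ := Multiset.mem_map.1 hx; exact mul_self_nonneg _
    have hB' : 0 ≤ (M'.map fun v => v.2 * v.2).sum :=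
      Multiset.sum_nonneg fun x hx => by
        obtain ⟨w, -, rfl⟩ := Multiset.mem_map.1 hx; exact mul_self_nonneg _
    have hnn : ∀ N : Multiset Pair, (∀ x ∈ N, 1 ≤ x.1 * x.1 + x.2 * x.2) →
        (N.card : ℤ) ≤ (N.map fun v => v.1 * v.1).sum + (N.map fun v => v.2 * v.2).sum ∧
          2 * (N.map fun v => v.1 * v.2).sum ≤ (N.map fun v => v.1 * v.1).sum + (N.map fun v => v.2 * v.2).sum ∧
          -2 * (N.map fun v => v.1 * v.2).sum ≤ (N.map fun v => v.1 * v.1).sum + (N.map fun v => v.2 * v.2).sum := by
      intro N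
      induction N using Multiset.induction_on with
      | empty => simp
      | cons x N ihN =>
        intro hN
        obtain ⟨i1, i2, i3⟩ := ihN fun y hy => hN y (Multiset.mem_cons_of_mem hy)
        have h1 := hN x (Multiset.mem_cons_self _ _)
        simp only [Multiset.card_cons, Multiset.map_cons, Multiset.sum_cons, Nat.cast_add, Nat.cast_one]
        refine ⟨by omega, ?_, ?_⟩
        · nlinarith [mul_self_nonneg (x.1 - x.2)]
        · nlinarith [mul_self_nonneg (x.1 + x.2)]
    obtain ⟨hcard, hC1, hC2⟩ := hnn M hne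
    rw [hA, hB] at hcard
    rw [hA, hB, hC] at hC1 hC2
    rw [explore] at hgood
    by_cases hzero : A = 0 ∧ B = 0
    · have hM0 : M = 0 := Multiset.card_eq_zero.1 (by omega)
      rw [if_pos hzero] at hgood
      refine ⟨cur, by rw [hM0, zero_add], ?_⟩
      rwa [if_pos (by omega)] at hgood
    rw [if_neg hzero, if_neg (by omega), List.all_eq_true] at hgood
    by_cases hbig : m < 8
    · have h1 := hgood m (List.mem_range.2 hbig)
      rw [if_pos ⟨by omega, by omega⟩] at h1
      have n1 := mul_nonneg (Int.natCast_nonneg m) (mul_self_nonneg v.1)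
      have n2 := mul_nonneg (Int.natCast_nonneg m) (mul_self_nonneg v.2)
      obtain ⟨L, hL, hLg⟩ := ih _ _ _ _ h1 (by omega) (by omega) M'
        (fun x hx => by
          rw [hM', Multiset.mem_filter] at hx
          exact (List.mem_cons.1 (hM x hx.1)).resolve_left (fun e => hx.2 e.symm))
        (fun x hx => hne x (Multiset.mem_of_mem_filter hx)) (by omega) (by omega) (by omega)
      refine ⟨L, ?_, hLg⟩
      rw [hL, hsplit, ← Multiset.coe_add, Multiset.coe_replicate]
      abel
    · have hv : 1 ≤ v.1 * v.1 + v.2 * v.2 := hne v (Multiset.count_pos.1 (by omega))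
      exfalso
      have n1 := mul_nonneg (Int.natCast_nonneg m) (mul_self_nonneg v.1)
      have n2 := mul_nonneg (Int.natCast_nonneg m) (mul_self_nonneg v.2)
      rcases (mul_self_nonneg v.1).eq_or_lt with h | h
      · have : (m : ℤ) * 1 ≤ m * (v.2 * v.2) := mul_le_mul_of_nonneg_left (by omega) (by omega)
        omega
      · have : (m : ℤ) * 1 ≤ m * (v.1 * v.1) := mul_le_mul_of_nonneg_left (by omega) (by omega)
        omega

end Cfsg.Agent.H29.Cube
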