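import Cfsg.Agent.H29.CubeModel
import Cfsg.Agent.H42.ClassMult
import Cfsg.Agent.H56.Triangle

/-!
The coordinates of the local hypotheses, and the class multiplication counts inside `J`.
-/

namespace Cfsg.Agent.H29.Cube

variable {G : Type*} [Group G] [Finite G]

theorem three_sum : ∀ u : V, u + u + u = 0 := by decide +kernel

theorem wt_range : ∀ u : V, u ≠ 0 → 1 ≤ wt u ∧ wt u ≤ 3 := by decide +kernel

theorem unit_ne_zero : (![1, 0, 0] : V) ≠ 0 := by decide +kernel

theorem wt_zero : wt (0 : V) = 0 := by decide +kernel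

theorem exists_coords (H : Subgroup G) (e : ↥H ≃* ↥(Subgroup.closure cubeGens)) (J : Subgroup G)
    (hJ : J = (Cfsg.pCore 3 ↥H).map H.subtype)
    (hC : ∀ j ∈ J, j ≠ 1 → Subgroup.centralizer ({j} : Set G) ≤ H) (hsc : Cfsg.IsStronglyClosed J H) :
    ∃ v : V → G, Coords J v ∧ (Nat.card G = 648 → H = ⊤) := by
  classical
  haveI : Fact (Nat.Prime 3) := ⟨Nat.prime_three⟩
  choose tu tL htL hte using fun h : H => exists_aff (e h).2
  have hmk : ∀ (h : H) (u : V) (L : Lin),
      (∀ i, ((e h : ↥(Subgroup.closure cubeGens)) : Equiv.Perm (Fin 9)) i = affFun u L i) → tu h = u ∧ tL h = L :=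
    fun h u L hh => affFun_inj (htL h) fun i => by rw [← hte h i, hh i]
  have hmul : ∀ a b : H, tu (a * b) = tu a + act (tL a) (tu b) ∧ tL (a * b) = lcomp (tL a) (tL b) := by
    intro a b
    refine hmk _ _ _ fun i => ?_
    rw [map_mul, Subgroup.coe_mul, Equiv.Perm.mul_apply, hte b, hte a, affFun_comp (htL a)]
  let w : V → H := fun u => e.symm ⟨trWord u, trWord_mem u⟩
  have hw : ∀ u, tu (w u) = u ∧ tL (w u) = lone := fun u => hmk _ _ _ fun i => by
    rw [e.apply_symm_apply]; exact trWord_apply u i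
  have hext : ∀ a b : H, tu a = tu b → tL a = tL b → a = b := fun a b h1 h2 =>
    e.injective (Subtype.ext (Equiv.ext fun i => by rw [hte a, hte b, h1, h2]))
  have hwof : ∀ a : H, tL a = lone → a = w (tu a) := fun a ha =>
    hext _ _ (hw _).1.symm (by rw [ha, (hw _).2])
  have hact_one : ∀ u, act lone u = u := by decide +kernel
  have hlone_l : ∀ L : Lin, lcomp lone L = L := fun L => by
    simp [lcomp, lone]
  have hlone_r : ∀ L : Lin, lcomp L lone = L := fun L => by
    simp [lcomp, lone]
  have hwadd : ∀ u u', w (u + u') = w u * w u' := fun u u' => by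
    refine hext _ _ ?_ ?_
    · rw [(hw _).1, (hmul _ _).1, (hw u).1, (hw u').1, (hw u).2, hact_one]
    · rw [(hw _).2, (hmul _ _).2, (hw u).2, (hw u').2, hlone_l]
  have hone : tu (1 : H) = 0 ∧ tL (1 : H) = lone := hmk _ _ _ fun i => by
    rw [map_one, Subgroup.coe_one]; exact (affFun_one i).symm
  have hconj : ∀ (h : H) u, h * w u * h⁻¹ = w (act (tL h) u) := by
    intro h u
    rw [mul_inv_eq_iff_eq_mul]
    refine hext _ _ ?_ ?_
    · rw [(hmul _ _).1, (hmul _ _).1, (hw u).1, (hw _).1, (hw _).2, hact_one, add_comm]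
    · rw [(hmul _ _).2, (hmul _ _).2, (hw u).2, (hw _).2, hlone_l, hlone_r]
  have hpow : ∀ (h : H) (m : ℕ), tL (h ^ m) = lpow (tL h) m := by
    intro h m
    induction m with
    | zero => rw [pow_zero]; exact hone.2
    | succ m ih => rw [pow_succ', (hmul _ _).2, ih]; rfl
  -- the 3-core consists of the translations
  have hcore : ∀ h : H, h ∈ Cfsg.pCore 3 ↥H ↔ tL h = lone := by
    intro h
    constructor
    · intro hh
      by_contra hne
      have hP := H19.pCore_isPGroup (G := ↥H) 3
      have h9 : ∀ x ∈ Cfsg.pCore 3 ↥H, lpow (tL x) 9 = lone := by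
        intro x hx
        obtain ⟨m, hm⟩ := hP ⟨x, hx⟩
        replace hm : x ^ 3 ^ m = 1 := by simpa using congrArg Subtype.val hm
        obtain ⟨o, ho, ho'⟩ := (Nat.dvd_prime_pow Nat.prime_three).1 (orderOf_dvd_of_pow_eq_one hm)
        have h27 : tL (x ^ (3 ^ o % 12)) = lone := by
          have e1 : x ^ (3 ^ o) = 1 := by rw [← ho']; exact pow_orderOf_eq_one x
          have e2 : tL (x ^ (3 ^ o % 12)) = tL (x ^ (3 ^ o)) := by
            conv_rhs => rw [← Nat.mod_add_div (3 ^ o) 12, pow_add, (hmul _ _).2, pow_mul, hpow _ (3 ^ o / 12)]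
            have h12 : tL (x ^ 12) = lone := by rw [hpow, lpow_twelve _ (htL x)]
            have hrep : ∀ t : ℕ, lpow lone t = lone := fun t => by
              induction t with
              | zero => rfl
              | succ t ih => rw [lpow, ih, hlone_l]
            rw [h12, hrep, hlone_r]
          rw [e2, e1, hone.2]
        have hcases : 3 ^ o % 12 = 1 ∨ 3 ^ o % 12 = 3 ∨ 3 ^ o % 12 = 9 := by
          clear h27 ho' hm
          induction o with
          | zero => simp
          | succ o ih => rw [pow_succ, Nat.mul_mod]; rcases ih (by omega) with e | e | e <;> rw [e] <;> norm_num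
        have e9 : tL (x ^ 9) = lone := by
          rcases hcases with e | e | e <;> rw [e] at h27
          · rw [show (9 : ℕ) = 1 + 1 + 1 + 1 + 1 + 1 + 1 + 1 + 1 from rfl]
            simp only [pow_add, (hmul _ _).2, h27, hlone_l]
          · rw [show (9 : ℕ) = 3 + 3 + 3 from rfl]
            simp only [pow_add, (hmul _ _).2, h27, hlone_l]
          · exact h27
        rw [← hpow]; exact e9
      obtain ⟨M, hM, M', hM', L', hL', hMM, hLL, hbad⟩ := no_small_kernel _ (htL h) hne (h9 h hh)
      have hlift : ∀ N ∈ lins, ∃ g : H, tL g = N := by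
        intro N hN
        simp only [lins, List.mem_toFinset, List.mem_map] at hN
        obtain ⟨l, -, rfl⟩ := hN
        obtain ⟨σ, hσ, u, hu⟩ := exists_word l
        exact ⟨e.symm ⟨σ, hσ⟩, (hmk _ u _ fun i => by rw [e.apply_symm_apply]; exact hu i).2⟩
      obtain ⟨g, rfl⟩ := hlift M hM
      have hinvL : ∀ (x : H) (N : Lin), lcomp (tL x) N = lone → N ∈ lins → tL x⁻¹ = N := by
        intro x N hN hNl
        have hn := (hlift N hNl)
        obtain ⟨y, rfl⟩ := hn
        have h1 : tL x⁻¹ = lcomp (tL x⁻¹) (lcomp (tL x) (tL y)) := by rw [hN, hlone_r]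
        rw [h1, ← (hmul _ _).2, ← (hmul _ _).2, inv_mul_cancel_left]
      have hx : g * h * g⁻¹ * h⁻¹ ∈ Cfsg.pCore 3 ↥H :=
        mul_mem ((H19.pCore_normal 3 ↥H).conj_mem h hh g) (inv_mem hh)
      have := h9 _ hx
      rw [(hmul _ _).2, (hmul _ _).2, (hmul _ _).2, hinvL g M' hMM hM', hinvL h L' hLL hL'] at this
      exact hbad this
    · intro hh
      let T : Subgroup H :=
        { carrier := {x | tL x = lone}
          one_mem' := hone.2
          mul_mem' := fun {a b} ha hb => by
            show tL (a * b) = lone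
            rw [(hmul _ _).2, show tL a = lone from ha, show tL b = lone from hb, hlone_l]
          inv_mem' := fun {a} ha => by
            show tL a⁻¹ = lone
            have h1 : tL a⁻¹ = lcomp (tL a⁻¹) (tL a) := by rw [show tL a = lone from ha, hlone_r]
            rw [h1, ← (hmul _ _).2, inv_mul_cancel, hone.2] }
      have hn : T.Normal := ⟨fun x (hx : tL x = lone) g => by
        show tL (g * x * g⁻¹) = lone
        rw [(hmul _ _).2, (hmul _ _).2, hx, hlone_r, ← (hmul _ _).2, mul_inv_cancel, hone.2]⟩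
      have hp : IsPGroup 3 T := fun x => ⟨1, by
        refine Subtype.ext ?_
        show (x : H) ^ 3 ^ 1 = 1
        rw [pow_one, hwof x x.2, pow_succ, pow_succ, pow_one, ← hwadd, ← hwadd]
        rw [three_sum, hwof 1 hone.2, hone.1]⟩
      exact H19.le_pCore hn hp (show h ∈ T from hh)
  let v : V → G := fun u => (w u : G)
  have hmemJ : ∀ u, v u ∈ J := fun u => by
    rw [hJ]; exact Subgroup.mem_map_of_mem _ ((hcore _).2 (hw u).2)
  have hsurj : ∀ x ∈ J, ∃ u, v u = x := by
    intro x hx
    rw [hJ, Subgroup.mem_map] at hx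
    obtain ⟨h, hh, rfl⟩ := hx
    exact ⟨tu h, by show ((w (tu h) : H) : G) = _; rw [← hwof h ((hcore h).1 hh)]; rfl⟩
  have hinj : Function.Injective v := fun u u' hu => by
    have := Subtype.ext (p := (· ∈ H)) (a1 := w u) (a2 := w u') hu
    rw [← (hw u).1, ← (hw u').1, this]
  have hv0 : v 0 = 1 := by
    show ((w 0 : H) : G) = 1
    rw [← hone.1, ← hwof 1 hone.2]; rfl
  have hne1 : ∀ u, u ≠ 0 → v u ≠ 1 := fun u hu hh => hu (hinj (hh.trans hv0.symm))
  have hlift : ∀ N ∈ lins, ∃ g : H, tL g = N := by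
    intro N hN
    simp only [lins, List.mem_toFinset, List.mem_map] at hN
    obtain ⟨l, -, rfl⟩ := hN
    obtain ⟨σ, hσ, u, hu⟩ := exists_word l
    exact ⟨e.symm ⟨σ, hσ⟩, (hmk _ u _ fun i => by rw [e.apply_symm_apply]; exact hu i).2⟩
  -- the group of order 648
  have hpairs : ∀ (P : Lin → Prop) [DecidablePred P],
      Nat.card {h : H // P (tL h)} = 27 * (lins.filter P).card := by
    intro P _
    have hf : ∀ L : {L // L ∈ lins.filter P}, ∃ g : H, tL g = L.1 := fun L =>
      hlift _ (Finset.mem_filter.1 L.2).1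
    choose g hg using hf
    let f : {h : H // P (tL h)} → V × {L // L ∈ lins.filter P} := fun h =>
      (tu h.1, ⟨tL h.1, Finset.mem_filter.2 ⟨htL _, h.2⟩⟩)
    have hbij : Function.Bijective f := by
      constructor
      · intro a b hab
        obtain ⟨h1, h2⟩ := Prod.ext_iff.1 hab
        exact Subtype.ext (hext _ _ h1 (congrArg Subtype.val h2))
      · rintro ⟨u, L⟩
        have e1 : tu (w (u - tu (g L)) * g L) = u ∧ tL (w (u - tu (g L)) * g L) = L.1 := by
          rw [(hmul _ _).1, (hmul _ _).2, (hw _).1, (hw _).2, hact_one, hlone_l, hg, sub_add_cancel]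
          exact ⟨rfl, rfl⟩
        refine ⟨⟨w (u - tu (g L)) * g L, by rw [e1.2]; exact (Finset.mem_filter.1 L.2).2⟩, ?_⟩
        exact Prod.ext e1.1 (Subtype.ext e1.2)
    rw [Nat.card_congr (Equiv.ofBijective f hbij), Nat.card_prod, Nat.card_eq_fintype_card,
      Nat.card_eq_fintype_card, Fintype.card_coe, Fintype.card_fun, ZMod.card, Fintype.card_fin]
    norm_num
  have hHcard : Nat.card H = 648 := by
    have h1 := hpairs fun _ => True
    rw [Finset.filter_true, lins_card] at h1
    rw [Nat.card_congr (Equiv.subtypeUnivEquiv fun _ => trivial)] at h1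
    omega
  have hcw : ∀ u, u ≠ 0 → Nat.card (Subgroup.centralizer ({v u} : Set G)) =
      if wt u = 1 then 108 else if wt u = 2 then 54 else 81 := by
    intro u hu
    rw [← card_fix u hu, ← hpairs fun L => act L u = u]
    refine Nat.card_congr
      { toFun := fun x => ⟨⟨x.1, hC _ (hmemJ u) (hne1 u hu) x.2⟩, ?_⟩
        invFun := fun h => ⟨(h.1 : G), ?_⟩
        left_inv := fun x => rfl
        right_inv := fun h => rfl }
    · have h1 := hconj ⟨x.1, hC _ (hmemJ u) (hne1 u hu) x.2⟩ u
      apply hinj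
      show ((w _ : H) : G) = _
      rw [← h1]
      show (x : G) * v u * (x : G)⁻¹ = v u
      rw [Subgroup.mem_centralizer_singleton_iff.1 x.2, mul_inv_cancel_right]
    · rw [Subgroup.mem_centralizer_singleton_iff]
      have h1 := congrArg (fun z : H => (z : G)) (hconj h.1 u)
      simp only [h.2, Subgroup.coe_mul, Subgroup.coe_inv] at h1
      exact mul_inv_eq_iff_eq_mul.1 h1
  have hclosed : ∀ z ∈ J, ∀ x : G, IsConj z x → x ∈ H → x ∈ J := by
    intro z hz x hzx hxH
    obtain ⟨y, rfl⟩ := isConj_iff.1 hzx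
    exact hsc.2 z hz y hxH
  have hiff : ∀ u u', u ≠ 0 → (IsConj (v u) (v u') ↔ wt u = wt u') := by
    intro u u' hu
    constructor
    · intro hc
      obtain ⟨y, hy⟩ := isConj_iff.1 hc
      have hu' : u' ≠ 0 := fun h0 => hu (hinj (by
        rw [h0, hv0, conj_eq_one_iff] at hy; exact hy.trans hv0.symm))
      have hcard : Nat.card (Subgroup.centralizer ({v u} : Set G)) =
          Nat.card (Subgroup.centralizer ({v u'} : Set G)) := by
        rw [← hy]
        refine Nat.card_congr ((MulAut.conj y).toEquiv.subtypeEquiv fun x => ?_)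
        simp only [Subgroup.mem_centralizer_singleton_iff, MulEquiv.toEquiv_eq_coe, EquivLike.coe_coe,
          MulAut.conj_apply]
        constructor <;> intro hh
        · calc y * x * y⁻¹ * (y * v u * y⁻¹) = y * (x * v u) * y⁻¹ := by group
            _ = y * (v u * x) * y⁻¹ := by rw [hh]
            _ = _ := by group
        · calc x * v u = y⁻¹ * (y * x * y⁻¹ * (y * v u * y⁻¹)) * y := by group
            _ = y⁻¹ * (y * v u * y⁻¹ * (y * x * y⁻¹)) * y := by rw [hh]
            _ = _ := by group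
      rw [hcw u hu, hcw u' hu'] at hcard
      have := wt_range u hu
      have := wt_range u' hu'
      split_ifs at hcard <;> omega
    · intro hwt
      obtain ⟨L, hL, hLu⟩ := act_transitive u u' hwt
      obtain ⟨g, rfl⟩ := hlift L hL
      refine isConj_iff.2 ⟨(g : G), ?_⟩
      have h1 := congrArg (fun z : H => (z : G)) (hconj g u)
      rw [hLu] at h1
      exact h1
  have hti : ∀ u, u ≠ 0 → ∀ y : G, y * v u * y⁻¹ ∈ H → y ∈ H := by
    intro u hu y hy
    obtain ⟨u', hu'⟩ := hsurj _ (hclosed _ (hmemJ u) _ (isConj_iff.2 ⟨y, rfl⟩) hy)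
    obtain ⟨L, hL, hLu⟩ := act_transitive u u' ((hiff u u' hu).1 (isConj_iff.2 ⟨y, hu'.symm⟩))
    obtain ⟨g, rfl⟩ := hlift L hL
    have h1 : (g : G) * v u * (g : G)⁻¹ = v u' := by
      have h2 := congrArg (fun z : H => (z : G)) (hconj g u)
      rw [hLu] at h2
      exact h2
    have h3 : (g : G)⁻¹ * y ∈ Subgroup.centralizer ({v u} : Set G) := by
      rw [Subgroup.mem_centralizer_singleton_iff]
      calc (g : G)⁻¹ * y * v u = (g : G)⁻¹ * (y * v u * y⁻¹) * y := by group
        _ = (g : G)⁻¹ * ((g : G) * v u * (g : G)⁻¹) * y := by rw [h1, hu']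
        _ = v u * ((g : G)⁻¹ * y) := by group
    simpa using H.mul_mem g.2 (hC _ (hmemJ u) (hne1 u hu) h3)
  have hindex : H.index % 27 = 1 := by
    have hJc : Nat.card J = 27 := by
      rw [← Nat.card_congr (Equiv.ofBijective (fun u => (⟨v u, hmemJ u⟩ : J))
        ⟨fun a b hab => hinj (congrArg (fun t : J => (t : G)) hab), fun x => by
          obtain ⟨u, hu⟩ := hsurj x x.2; exact ⟨u, Subtype.ext hu⟩⟩)]
      simp
    let Ω := G ⧸ H
    haveI := Fintype.ofFinite Ω
    haveI := Fintype.ofFinite (MulAction.fixedPoints J Ω)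
    have hfix : MulAction.fixedPoints J Ω = {((1 : G) : Ω)} := by
      ext q
      induction q using QuotientGroup.induction_on with | _ y =>
      simp only [MulAction.mem_fixedPoints, Set.mem_singleton_iff]
      constructor
      · intro hy
        have h1 := hy ⟨v ![1, 0, 0], hmemJ _⟩
        have h2 : ((v ![1, 0, 0] * y : G) : Ω) = (y : Ω) := h1
        rw [QuotientGroup.eq] at h2
        have h3 : y⁻¹ * v ![1, 0, 0] * y⁻¹⁻¹ ∈ H := by simpa [mul_assoc] using H.inv_mem h2
        rw [QuotientGroup.eq, mul_one]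
        exact hti _ unit_ne_zero _ h3
      · intro hy t
        rw [hy]
        show (((t : G) * 1 : G) : Ω) = _
        rw [mul_one, QuotientGroup.eq, mul_one]
        exact H.inv_mem (hsc.1 t.2)
    have hp : IsPGroup 3 J := IsPGroup.of_card (n := 3) (by rw [hJc]; norm_num)
    -- every other orbit is regular
    rw [Subgroup.index_eq_card, Nat.card_congr (MulAction.selfEquivSigmaOrbits J Ω)]
    haveI := Fintype.ofFinite (MulAction.orbitRel.Quotient J Ω)
    rw [Nat.card_sigma]
    have hreg : ∀ o : MulAction.orbitRel.Quotient J Ω, o ≠ Quotient.mk'' ((1 : G) : Ω) →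
        Nat.card (MulAction.orbit J o.out) = 27 := by
      intro o ho
      rw [Nat.card_congr (MulAction.orbitEquivQuotientStabilizer J o.out), ← Subgroup.index_eq_card,
        show MulAction.stabilizer J o.out = ⊥ from (Subgroup.eq_bot_iff_forall _).2 ?_, Subgroup.index_bot, hJc]
      intro t ht
      by_contra ht1
      apply ho
      induction hq : o.out using QuotientGroup.induction_on with | _ y =>
      rw [MulAction.mem_stabilizer_iff, hq] at ht
      have h2 : (((t : G) * y : G) : Ω) = (y : Ω) := ht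
      rw [QuotientGroup.eq] at h2
      have h3 : y⁻¹ * (t : G) * y⁻¹⁻¹ ∈ H := by simpa [mul_assoc] using H.inv_mem h2
      obtain ⟨u, hu⟩ := hsurj _ t.2
      rw [← hu] at h3
      have hu0 : u ≠ 0 := fun h0 => ht1 (Subtype.ext (by rw [← hu, h0, hv0]; rfl))
      have hy : y⁻¹ ∈ H := hti u hu0 _ h3
      rw [← Quotient.out_eq o, hq]
      exact congrArg Quotient.mk'' (QuotientGroup.eq.2 (by simpa using hy))
    have hout : Nat.card (MulAction.orbit J
        (Quotient.out (Quotient.mk'' ((1 : G) : Ω) : MulAction.orbitRel.Quotient J Ω))) = 1 := by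
      set x₀ : Ω := ((1 : G) : Ω)
      have hx₀ : ∀ t : J, t • x₀ = x₀ :=
        MulAction.mem_fixedPoints.1 (hfix.symm ▸ Set.mem_singleton x₀)
      obtain ⟨t, ht⟩ := Quotient.exact (Quotient.out_eq (Quotient.mk'' x₀ : MulAction.orbitRel.Quotient J Ω))
      simp only at ht
      rw [← ht, hx₀, show MulAction.orbit J x₀ = {x₀} by
        ext z; simp [MulAction.mem_orbit_iff, hx₀, eq_comm]]
      simp
    rw [← Finset.add_sum_erase _ _ (Finset.mem_univ (Quotient.mk'' ((1 : G) : Ω))), hout,
      Finset.sum_congr rfl fun o ho => hreg o (Finset.ne_of_mem_erase ho), Finset.sum_const, smul_eq_mul]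
    omega
  refine ⟨v, ⟨hinj, fun u u' => congrArg (fun z : H => (z : G)) (hwadd u u'), hmemJ, hsurj, hiff, hcw, ?_, ?_,
    H.index, ?_, hindex⟩, fun hG => ?_⟩
  · intro u hu s hs hsu
    have hu0 : u ≠ 0 := fun h0 => by
      rw [h0, wt_zero] at hu; omega
    have hsH : s ∈ H := hC _ (hmemJ u) (hne1 u hu0) (Subgroup.mem_centralizer_singleton_iff.2 hsu)
    rw [hJ]
    refine ⟨⟨s, hsH⟩, (hcore _).2 (fix_three _ (htL _) ?_ u hu ?_), rfl⟩
    · rw [← hpow, show (⟨s, hsH⟩ : H) ^ 3 = 1 from Subtype.ext (by simpa using hs)]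
      exact hone.2
    · have h1 := congrArg (fun z : H => (z : G)) (hconj ⟨s, hsH⟩ u)
      have h1' : s * v u * s⁻¹ = v (act (tL ⟨s, hsH⟩) u) := h1
      rw [hsu, mul_inv_cancel_right] at h1'
      exact (hinj h1').symm
  · intro t ht ht1 x hx z hz hzx
    exact hclosed z hz x hzx (hC t ht ht1 (Subgroup.mem_centralizer_singleton_iff.2 hx))
  · rw [← Subgroup.card_mul_index H, hHcard]
  · exact Subgroup.eq_top_of_card_eq H (hHcard.trans hG.symm)

variable {J : Subgroup G} {v : V → G}

theorem Coords.map_zero (h : Coords J v) : v 0 = 1 := by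
  have := h.add 0 0
  rw [add_zero] at this
  exact mul_left_cancel (a := v 0) (by rw [← this, mul_one])

theorem Coords.cube (h : Coords J v) {x : G} {u : V} (hx : IsConj x (v u)) : x ^ 3 = 1 := by
  obtain ⟨c, hc⟩ := isConj_iff.1 hx
  have hz : ∀ u : V, u + u + u = 0 := by decide +kernel
  have h3 : v u ^ 3 = 1 := by rw [pow_succ, pow_succ, pow_one, ← h.add, ← h.add, hz, h.map_zero]
  rw [← hc, conj_pow] at h3
  simpa using h3

/-- Outside one exceptional pattern, pairs with product in `J` lie in `J`. -/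
theorem Coords.pair_mem (h : Coords J v) {a b : G} {u u' z : V} (hu : u ≠ 0) (hu' : u' ≠ 0) (hz : z ≠ 0)
    (hne : ¬ (wt u = wt u' ∧ wt u = wt z)) (ha : IsConj a (v u)) (hb : IsConj b (v u')) (hab : a * b = v z) :
    a ∈ J ∧ b ∈ J := by
  have h1 : ∀ {w : V}, w ≠ 0 → v w ≠ 1 := fun hw hh => hw (h.inj (hh.trans h.map_zero.symm))
  rcases H56.triangle_three a b (h.cube ha) (h.cube hb) (by rw [hab]; exact h.cube (IsConj.refl _)) with
    ⟨s, hs1, hs3, hsa, hsb⟩ | ⟨he1, he2⟩
  · have hfin : a * b = b * a → a ∈ J ∧ b ∈ J := by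
      intro hcomm
      have haz : a * v z = v z * a := by rw [← hab]; conv_rhs => rw [mul_assoc, ← hcomm]
      have haJ := h.abs_cent _ (h.mem z) (h1 hz) a haz _ (h.mem u) ha.symm
      exact ⟨haJ, by rw [show b = a⁻¹ * v z by rw [← hab]; group]; exact J.mul_mem (J.inv_mem haJ) (h.mem z)⟩
    have hkey : ∀ (w : V) (x : G), (wt w = 1 ∨ wt w = 2) → IsConj x (v w) → Commute s x → a * b = b * a := by
      intro w x hw hxw hsx
      obtain ⟨c, hc⟩ := isConj_iff.1 hxw
      have hsJ : c * s * c⁻¹ ∈ J := h.small_cent w hw _ (by rw [conj_pow, hs3]; simp) (by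
        rw [← hc]
        calc c * s * c⁻¹ * (c * x * c⁻¹) = c * (s * x) * c⁻¹ := by group
          _ = c * (x * s) * c⁻¹ := by rw [hsx.eq]
          _ = c * x * c⁻¹ * (c * s * c⁻¹) := by group)
      have hin : ∀ (y : G) (p : V), IsConj y (v p) → Commute s y → c * y * c⁻¹ ∈ J := by
        intro y p hy hsy
        refine h.abs_cent _ hsJ (by simpa using hs1) _ ?_ _ (h.mem p) (hy.symm.trans (isConj_iff.2 ⟨c, rfl⟩))
        calc c * y * c⁻¹ * (c * s * c⁻¹) = c * (y * s) * c⁻¹ := by group
          _ = c * (s * y) * c⁻¹ := by rw [hsy.eq]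
          _ = c * s * c⁻¹ * (c * y * c⁻¹) := by group
      obtain ⟨p, hp⟩ := h.surj _ (hin a u ha hsa)
      obtain ⟨q, hq⟩ := h.surj _ (hin b u' hb hsb)
      have hco : v p * v q = v q * v p := by rw [← h.add, ← h.add, add_comm]
      rw [hp, hq] at hco
      refine mul_left_cancel (a := c) (mul_right_cancel (b := c⁻¹) ?_)
      calc c * (a * b) * c⁻¹ = c * a * c⁻¹ * (c * b * c⁻¹) := by group
        _ = c * b * c⁻¹ * (c * a * c⁻¹) := hco
        _ = c * (b * a) * c⁻¹ := by group
    have hb' : ∀ w : V, w ≠ 0 → wt w = 1 ∨ wt w = 2 ∨ wt w = 3 := by decide +kernel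
    rcases hb' u hu with hw | hw | hw
    · exact hfin (hkey u a (Or.inl hw) ha hsa)
    · exact hfin (hkey u a (Or.inr hw) ha hsa)
    rcases hb' u' hu' with hw' | hw' | hw'
    · exact hfin (hkey u' b (Or.inl hw') hb hsb)
    · exact hfin (hkey u' b (Or.inr hw') hb hsb)
    rcases hb' z hz with hwz | hwz | hwz
    · exact hfin (hkey z (a * b) (Or.inl hwz) (by rw [hab]) (hsa.mul_right hsb))
    · exact hfin (hkey z (a * b) (Or.inr hwz) (by rw [hab]) (hsa.mul_right hsb))
    · exact absurd ⟨hw.trans hw'.symm, hw.trans hwz.symm⟩ hne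
  · refine absurd ⟨(h.conj_iff u u' hu).1 ((ha.symm.trans he1).trans hb), ?_⟩ hne
    have h2 : IsConj (v z) (v (u + u)) := by
      rw [← hab, h.add]
      refine he2.trans ?_
      obtain ⟨c, hc⟩ := isConj_iff.1 ha
      exact isConj_iff.2 ⟨c, by rw [← hc]; group⟩
    have hw : ∀ u : V, wt (u + u) = wt u := by decide +kernel
    exact (((h.conj_iff z (u + u) hz).1 h2).trans (hw u)).symm

end Cfsg.Agent.H29.Cube
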