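import Cfsg.Agent.H29.CubeCertData

/-!
Evaluation of certificates, and the contradiction each kind of certificate gives.
-/

namespace Cfsg.Agent.H29.Cube

namespace Lam

/-- The value of the cubic form. -/
def val (l : Lam) (r : ℤ × ℤ × ℤ) : ℤ :=
  l.l0 * (r.1 * r.1 * r.1) + l.l1 * (r.1 * r.1 * r.2.1) + l.l2 * (r.1 * r.2.1 * r.2.1) +
    l.l3 * (r.2.1 * r.2.1 * r.2.1) + l.l4 * (r.1 * r.1 * r.2.2) + l.l5 * (r.1 * r.2.1 * r.2.2) +
    l.l6 * (r.2.1 * r.2.1 * r.2.2) + l.l7 * (r.1 * r.2.2 * r.2.2) + l.l8 * (r.2.1 * r.2.2 * r.2.2)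

/-- The constant term of the identity. -/
def const (l : Lam) : ℤ :=
  -135 * l.l0 - 243 * l.l1 - 243 * l.l2 + 189 * l.l3 + 81 * l.l4 - 243 * l.l5 - 1539 * l.l6 +
    729 * l.l7 + 3645 * l.l8

/-- Coefficient of the first excess count. -/
def ex (l : Lam) : ℤ := 432 * (l.l0 + 2 * l.l1 + 4 * l.l2 + 8 * l.l3)

/-- Coefficient of the second excess count. -/
def ey (l : Lam) : ℤ := 108 * (-8 * l.l0 - 4 * l.l1 - 2 * l.l2 - l.l3)

/-- Coefficient of the third excess count. -/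
def ez (l : Lam) : ℤ :=
  9 * (l.l0 - l.l1 + l.l2 - l.l3 + 9 * l.l4 - 9 * l.l5 + 9 * l.l6 + 81 * l.l7 - 81 * l.l8)

end Lam

open Finset

/-- The moment identities for the rows `(a, b, c)` with weights `U`. -/
def Moments {ι : Type*} (S : Finset ι) (r : ι → ℤ × ℤ × ℤ) (U : ι → ℚ) (i j k : ℤ) : Prop :=
  ∀ l : Lam, ∑ χ ∈ S, (l.val (r χ) : ℚ) * U χ =
    ((l.const + i * l.ex + j * l.ey + k * l.ez : ℤ) : ℚ)

variable {ι : Type*} {S : Finset ι} {r : ι → ℤ × ℤ × ℤ} {U : ι → ℚ} {i j k : ℤ}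

theorem Moments.restrict (h : Moments S r U i j k) {R : Finset ι} (hRS : R ⊆ S) (l : Lam)
    (h0 : ∀ χ ∈ S, χ ∉ R → l.val (r χ) = 0) :
    ∑ χ ∈ R, (l.val (r χ) : ℚ) * U χ = ((l.const + i * l.ex + j * l.ey + k * l.ez : ℤ) : ℚ) := by
  rw [← h l]
  exact Finset.sum_subset hRS fun χ hχ hχR => by rw [h0 χ hχ hχR]; simp

/-- A sign certificate. -/
theorem Moments.false_of_sign (h : Moments S r U i j k) {R : Finset ι} (hRS : R ⊆ S)
    (hU : ∀ χ ∈ S, 134 ≤ U χ) (l : Lam) (h0 : ∀ χ ∈ S, χ ∉ R → l.val (r χ) = 0)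
    (hpos : ∀ χ ∈ R, 0 ≤ l.val (r χ)) (B : ℤ) (hB : i * l.ex + j * l.ey + k * l.ez ≤ B)
    (hgt : l.const + B < 134 * ∑ χ ∈ R, l.val (r χ)) : False := by
  have h1 := h.restrict hRS l h0
  have h2 : ((134 * ∑ χ ∈ R, l.val (r χ) : ℤ) : ℚ) ≤ ∑ χ ∈ R, (l.val (r χ) : ℚ) * U χ := by
    push_cast
    rw [Finset.mul_sum]
    refine Finset.sum_le_sum fun χ hχ => ?_
    rw [mul_comm]
    exact mul_le_mul_of_nonneg_left (hU χ (hRS hχ)) (by exact_mod_cast hpos χ hχ)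
  rw [h1] at h2
  have h3 : 134 * ∑ χ ∈ R, l.val (r χ) ≤ l.const + i * l.ex + j * l.ey + k * l.ez := by exact_mod_cast h2
  omega

/-- A congruence certificate. -/
theorem Moments.false_of_cong (h : Moments S r U i j k) {R : Finset ι} (hRS : R ⊆ S) (l : Lam) (M : ℤ)
    (h0 : ∀ χ ∈ S, χ ∉ R → l.val (r χ) = 0) (hzero : ∀ χ ∈ R, l.val (r χ) = 0)
    (hx : M ∣ l.ex) (hy : M ∣ l.ey) (hz : M ∣ l.ez) (hK : ¬ M ∣ l.const) : False := by
  have h1 := h.restrict hRS l h0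
  rw [Finset.sum_eq_zero fun χ hχ => by rw [hzero χ hχ]; simp] at h1
  have h2 : l.const + i * l.ex + j * l.ey + k * l.ez = 0 := by exact_mod_cast h1.symm
  apply hK
  have : l.const = -(i * l.ex + j * l.ey + k * l.ez) := by omega
  rw [this]
  exact (dvd_add (dvd_add (hx.mul_left i) (hy.mul_left j)) (hz.mul_left k)).neg_right

end Cfsg.Agent.H29.Cube
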