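import Cfsg.Prelude.Def_TwoFusion
import Cfsg.Prelude.Def_Solvable
import Cfsg.Agent.H19.Cores
import Mathlib

/-!
The subgroup of the symmetric group of degree 9 of order 648: its normal elementary abelian subgroup of
order 27, the monomial action on it, and the consequences of the two local hypotheses.
-/

namespace Cfsg.Agent.H29.Cube

/-- Vectors of length three over the field with three elements. -/
abbrev V : Type := Fin 3 → ZMod 3

/-- The weight of a vector. -/
def wt (u : V) : ℕ := (Finset.univ.filter fun k => u k ≠ 0).card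

/-- A monomial map: where each coordinate goes, and its sign. -/
abbrev Lin : Type := (Fin 3 → Fin 3) × V

/-- Composition of monomial maps. -/
def lcomp (a b : Lin) : Lin := (fun k => a.1 (b.1 k), fun k => a.2 (b.1 k) * b.2 k)

/-- The trivial monomial map. -/
def lone : Lin := (id, fun _ => 1)

/-- The action on vectors. -/
def act (L : Lin) (u : V) : V := fun m => ∑ j, if L.1 j = m then L.2 j * u j else 0

/-- Powers of a monomial map. -/
def lpow (L : Lin) : ℕ → Lin
  | 0 => lone
  | n + 1 => lcomp L (lpow L n)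

/-- The linear parts of the three generators outside the translations. -/
def linGen : Fin 3 → Lin :=
  ![(![1, 2, 0], ![1, 1, 1]), (![0, 1, 2], ![2, 2, 1]), (![1, 0, 2], ![1, 1, 2])]

/-- Words for the twenty-four linear parts. -/
def linWords : List (List (Fin 3)) :=
  [[], [0], [1], [2], [0, 0], [1, 0], [2, 0], [0, 1], [2, 1], [0, 2], [1, 0, 0], [2, 0, 0], [0, 1, 0], [2, 1, 0],
    [0, 2, 0], [0, 0, 1], [1, 0, 1], [2, 0, 1], [0, 2, 1], [0, 0, 2], [1, 0, 2], [0, 1, 0, 0], [0, 0, 1, 0],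
    [1, 0, 2, 0]]

/-- The value of a word. -/
def evalWord : List (Fin 3) → Lin
  | [] => lone
  | i :: w => lcomp (linGen i) (evalWord w)

/-- The linear parts. -/
def lins : Finset Lin := (linWords.map evalWord).toFinset

theorem lins_card : lins.card = 24 := by decide +kernel

theorem lone_mem : lone ∈ lins := by decide +kernel

theorem linGen_mem : ∀ i, linGen i ∈ lins := by decide +kernel

theorem lins_comp : ∀ a ∈ lins, ∀ b ∈ lins, lcomp a b ∈ lins := by decide +kernel

theorem wt_act : ∀ L ∈ lins, ∀ u : V, wt (act L u) = wt u := by decide +kernel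

theorem act_transitive : ∀ u u' : V, wt u = wt u' → ∃ L ∈ lins, act L u = u' := by decide +kernel

theorem card_fix : ∀ u : V, u ≠ 0 → 27 * (lins.filter fun L => act L u = u).card =
    (if wt u = 1 then 108 else if wt u = 2 then 54 else 81) := by
  decide +kernel

theorem lpow_twelve : ∀ L ∈ lins, lpow L 12 = lone := by decide +kernel

theorem no_small_kernel : ∀ L ∈ lins, L ≠ lone → lpow L 9 = lone →
    ∃ M ∈ lins, ∃ M' ∈ lins, ∃ L' ∈ lins, lcomp M M' = lone ∧ lcomp L L' = lone ∧
      lpow (lcomp (lcomp (lcomp M L) M') L') 9 ≠ lone := by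
  decide +kernel

/-- An element of order dividing three fixing a vector of weight at most two is trivial. -/
theorem fix_three : ∀ L ∈ lins, lpow L 3 = lone → ∀ u : V, (wt u = 1 ∨ wt u = 2) → act L u = u → L = lone := by
  decide +kernel

theorem lin_inverse : ∀ L ∈ lins, ∀ M ∈ lins, lcomp L M = lone → lcomp M L = lone := by decide +kernel

/-- `Fin 3` as integers modulo three. -/
def toZ (r : Fin 3) : ZMod 3 := r

/-- Integers modulo three as `Fin 3`. -/
def ofZ (x : ZMod 3) : Fin 3 := x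

theorem toZ_ofZ (x : ZMod 3) : toZ (ofZ x) = x := rfl

/-- A monomial affine map of nine points in three blocks. -/
def affFun (u : V) (L : Lin) (i : Fin 9) : Fin 9 :=
  finProdFinEquiv (L.1 (finProdFinEquiv.symm i : Fin 3 × Fin 3).1,
    ofZ (L.2 (finProdFinEquiv.symm i : Fin 3 × Fin 3).1 * toZ (finProdFinEquiv.symm i : Fin 3 × Fin 3).2
      + u (L.1 (finProdFinEquiv.symm i : Fin 3 × Fin 3).1)))

theorem affFun_comp {L : Lin} (hL : L ∈ lins) (u u' : V) (L' : Lin) (i : Fin 9) :
    affFun u L (affFun u' L' i) = affFun (u + act L u') (lcomp L L') i := by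
  unfold affFun
  rw [Equiv.symm_apply_apply]
  refine congrArg (fun z => finProdFinEquiv (_, ofZ z)) ?_
  have hinj : ∀ L ∈ lins, ∀ (w : V) (j : Fin 3), act L w (L.1 j) = L.2 j * w j := by decide +kernel
  simp only [toZ_ofZ, lcomp, Pi.add_apply, hinj L hL]
  ring

theorem affFun_one : ∀ i, affFun 0 lone i = i := by decide +kernel

theorem affFun_inj {u u' : V} {L L' : Lin} (hL : L ∈ lins) (e : ∀ i, affFun u L i = affFun u' L' i) :
    u = u' ∧ L = L' := by
  have h0 : ∀ (k : Fin 3) (r : Fin 3), L.1 k = L'.1 k ∧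
      L.2 k * toZ r + u (L.1 k) = L'.2 k * toZ r + u' (L'.1 k) := by
    intro k r
    have h1 := e (finProdFinEquiv (k, r))
    simp only [affFun, Equiv.symm_apply_apply] at h1
    have h2 := finProdFinEquiv.injective h1
    exact ⟨congrArg Prod.fst h2, congrArg (fun p : Fin 3 × Fin 3 => toZ p.2) h2⟩
  have hu : ∀ k, u (L.1 k) = u' (L.1 k) := fun k => by
    have := (h0 k 0).2
    rw [show toZ 0 = 0 from rfl, ← (h0 k 0).1] at this
    simpa using this
  have hs : ∀ k, L.2 k = L'.2 k := fun k => by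
    have := (h0 k 1).2
    rw [show toZ 1 = 1 from rfl, ← (h0 k 1).1, hu k] at this
    simpa using this
  refine ⟨funext fun m => ?_, Prod.ext (funext fun k => (h0 k 0).1) (funext hs)⟩
  have hsurj : ∀ L ∈ lins, ∀ m : Fin 3, ∃ k, L.1 k = m := by decide +kernel
  obtain ⟨k, rfl⟩ := hsurj L hL m
  exact hu k

/-- The generating set. -/
def cubeGens : Set (Equiv.Perm (Fin 9)) :=
  {Equiv.swap (0 : Fin 9) 1 * Equiv.swap 1 2,
    Equiv.swap (0 : Fin 9) 3 * Equiv.swap 3 6 * (Equiv.swap (1 : Fin 9) 4 * Equiv.swap 4 7) *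
      (Equiv.swap (2 : Fin 9) 5 * Equiv.swap 5 8),
    Equiv.swap (0 : Fin 9) 1 * Equiv.swap 3 4,
    Equiv.swap (0 : Fin 9) 3 * Equiv.swap 1 4 * Equiv.swap 2 5 * Equiv.swap 6 7}

theorem exists_aff {σ : Equiv.Perm (Fin 9)} (hσ : σ ∈ Subgroup.closure cubeGens) :
    ∃ u : V, ∃ L ∈ lins, ∀ i, σ i = affFun u L i := by
  have hσ' : σ ∈ Submonoid.closure cubeGens := by
    rw [← Subgroup.closure_toSubmonoid_of_finite]; exact hσ
  clear hσ
  induction hσ' using Submonoid.closure_induction with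
  | mem x hx =>
    rcases hx with rfl | rfl | rfl | rfl
    · exact ⟨![1, 0, 0], lone, lone_mem, by decide +kernel⟩
    · exact ⟨0, linGen 0, linGen_mem 0, by decide +kernel⟩
    · exact ⟨![1, 1, 0], linGen 1, linGen_mem 1, by decide +kernel⟩
    · exact ⟨![0, 0, 1], linGen 2, linGen_mem 2, by decide +kernel⟩
  | one => exact ⟨0, lone, lone_mem, fun i => (affFun_one i).symm⟩
  | mul x y _ _ hx hy =>
    obtain ⟨u, L, hL, hx⟩ := hx
    obtain ⟨u', L', hL', hy⟩ := hy
    exact ⟨u + act L u', lcomp L L', lins_comp L hL L' hL', fun i => by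
      rw [Equiv.Perm.mul_apply, hy, hx, affFun_comp hL]⟩

/-- The translations. -/
def trWord (u : V) : Equiv.Perm (Fin 9) :=
  let a := Equiv.swap (0 : Fin 9) 1 * Equiv.swap 1 2
  let b := Equiv.swap (0 : Fin 9) 3 * Equiv.swap 3 6 * (Equiv.swap (1 : Fin 9) 4 * Equiv.swap 4 7) *
      (Equiv.swap (2 : Fin 9) 5 * Equiv.swap 5 8)
  a ^ (u 0).val * (b * a ^ (u 1).val * b⁻¹) * (b * b * a ^ (u 2).val * (b * b)⁻¹)

theorem trWord_apply : ∀ u i, trWord u i = affFun u lone i := by decide +kernel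

theorem trWord_mem (u : V) : trWord u ∈ Subgroup.closure cubeGens := by
  have ha : Equiv.swap (0 : Fin 9) 1 * Equiv.swap 1 2 ∈ Subgroup.closure cubeGens :=
    Subgroup.subset_closure (Set.mem_insert _ _)
  have hb : Equiv.swap (0 : Fin 9) 3 * Equiv.swap 3 6 * (Equiv.swap (1 : Fin 9) 4 * Equiv.swap 4 7) *
      (Equiv.swap (2 : Fin 9) 5 * Equiv.swap 5 8) ∈ Subgroup.closure cubeGens :=
    Subgroup.subset_closure (Set.mem_insert_of_mem _ (Set.mem_insert _ _))
  exact mul_mem (mul_mem (pow_mem ha _) (mul_mem (mul_mem hb (pow_mem ha _)) (inv_mem hb)))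
    (mul_mem (mul_mem (mul_mem hb hb) (pow_mem ha _)) (inv_mem (mul_mem hb hb)))

theorem exists_word : ∀ w : List (Fin 3), ∃ σ ∈ Subgroup.closure cubeGens,
    ∃ u, ∀ i, σ i = affFun u (evalWord w) i := by
  intro w
  induction w with
  | nil => exact ⟨1, one_mem _, 0, fun i => (affFun_one i).symm⟩
  | cons j w ih =>
    obtain ⟨σ, hσ, u, hu⟩ := ih
    obtain ⟨τ, hτ, u', hu'⟩ : ∃ τ ∈ Subgroup.closure cubeGens, ∃ u, ∀ i, τ i = affFun u (linGen j) i := by
      fin_cases j
      · exact ⟨_, Subgroup.subset_closure (Set.mem_insert_of_mem _ (Set.mem_insert _ _)), 0, by decide +kernel⟩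
      · exact ⟨_, Subgroup.subset_closure (Set.mem_insert_of_mem _ (Set.mem_insert_of_mem _ (Set.mem_insert _ _))),
          ![1, 1, 0], by decide +kernel⟩
      · exact ⟨_, Subgroup.subset_closure (Set.mem_insert_of_mem _ (Set.mem_insert_of_mem _
          (Set.mem_insert_of_mem _ rfl))), ![0, 0, 1], by decide +kernel⟩
    exact ⟨τ * σ, mul_mem hτ hσ, u' + act (linGen j) u, fun i => by
      rw [Equiv.Perm.mul_apply, hu, hu', affFun_comp (linGen_mem j)]; rfl⟩

/-- Coordinates on `J`, and what the hypotheses say in them. -/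
structure Coords {G : Type*} [Group G] (J : Subgroup G) (v : V → G) : Prop where
  inj : Function.Injective v
  add : ∀ u u', v (u + u') = v u * v u'
  mem : ∀ u, v u ∈ J
  surj : ∀ x ∈ J, ∃ u, v u = x
  conj_iff : ∀ u u', u ≠ 0 → (IsConj (v u) (v u') ↔ wt u = wt u')
  weight : ∀ u, u ≠ 0 → Nat.card (Subgroup.centralizer ({v u} : Set G)) =
    if wt u = 1 then 108 else if wt u = 2 then 54 else 81
  small_cent : ∀ u, (wt u = 1 ∨ wt u = 2) → ∀ s, s ^ 3 = 1 → s * v u = v u * s → s ∈ J
  abs_cent : ∀ t ∈ J, t ≠ 1 → ∀ x : G, x * t = t * x → ∀ z ∈ J, IsConj z x → x ∈ J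
  index : ∃ n : ℕ, Nat.card G = 648 * n ∧ n % 27 = 1

end Cfsg.Agent.H29.Cube
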