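import Cfsg.Agent.H29.CubeCoords
import Cfsg.Agent.H29.CubeArith
import Cfsg.Agent.H42.DegreeBound
import Cfsg.Agent.H43.IntCong
import Cfsg.Agent.H57.VChar

/-!
The rows of the character table on `J`, and the conclusion that the index is one.
-/

open scoped ComplexConjugate

namespace Cfsg.Agent.H29.Cube

/-- A coefficient of the expansion in the values. -/
def Lam.cAAA (l : Lam) : ℤ := (1 : ℤ) * l.l0 + (2 : ℤ) * l.l1 + (4 : ℤ) * l.l2 + (8 : ℤ) * l.l3

/-- A coefficient of the expansion in the values. -/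
def Lam.cAAB (l : Lam) : ℤ := (-6 : ℤ) * l.l0 + (-9 : ℤ) * l.l1 + (-12 : ℤ) * l.l2 + (-12 : ℤ) * l.l3

/-- A coefficient of the expansion in the values. -/
def Lam.cAAC (l : Lam) : ℤ := (3 : ℤ) * l.l0 + (3 : ℤ) * l.l1 + (-12 : ℤ) * l.l3 + (9 : ℤ) * l.l4 + (18 : ℤ) * l.l5 + (36 : ℤ) * l.l6

/-- A coefficient of the expansion in the values. -/
def Lam.cABB (l : Lam) : ℤ := (12 : ℤ) * l.l0 + (12 : ℤ) * l.l1 + (9 : ℤ) * l.l2 + (6 : ℤ) * l.l3

/-- A coefficient of the expansion in the values. -/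
def Lam.cABC (l : Lam) : ℤ := (-12 : ℤ) * l.l0 + (-6 : ℤ) * l.l1 + (6 : ℤ) * l.l2 + (12 : ℤ) * l.l3 + (-36 : ℤ) * l.l4 + (-45 : ℤ) * l.l5 + (-36 : ℤ) * l.l6

/-- A coefficient of the expansion in the values. -/
def Lam.cACC (l : Lam) : ℤ := (3 : ℤ) * l.l0 + (-3 : ℤ) * l.l2 + (6 : ℤ) * l.l3 + (18 : ℤ) * l.l4 + (9 : ℤ) * l.l5 + (-36 : ℤ) * l.l6 + (81 : ℤ) * l.l7 + (162 : ℤ) * l.l8

/-- A coefficient of the expansion in the values. -/
def Lam.cBBB (l : Lam) : ℤ := (-8 : ℤ) * l.l0 + (-4 : ℤ) * l.l1 + (-2 : ℤ) * l.l2 + (-1 : ℤ) * l.l3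

/-- A coefficient of the expansion in the values. -/
def Lam.cBBC (l : Lam) : ℤ := (12 : ℤ) * l.l0 + (-3 : ℤ) * l.l2 + (-3 : ℤ) * l.l3 + (36 : ℤ) * l.l4 + (18 : ℤ) * l.l5 + (9 : ℤ) * l.l6

/-- A coefficient of the expansion in the values. -/
def Lam.cBCC (l : Lam) : ℤ := (-6 : ℤ) * l.l0 + (3 : ℤ) * l.l1 + (-3 : ℤ) * l.l3 + (-36 : ℤ) * l.l4 + (9 : ℤ) * l.l5 + (18 : ℤ) * l.l6 + (-162 : ℤ) * l.l7 + (-81 : ℤ) * l.l8

/-- A coefficient of the expansion in the values. -/
def Lam.cCCC (l : Lam) : ℤ := (1 : ℤ) * l.l0 + (-1 : ℤ) * l.l1 + (1 : ℤ) * l.l2 + (-1 : ℤ) * l.l3 + (9 : ℤ) * l.l4 + (-9 : ℤ) * l.l5 + (9 : ℤ) * l.l6 + (81 : ℤ) * l.l7 + (-81 : ℤ) * l.l8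

theorem Lam.expand (l : Lam) (A B C a b : ℤ) (ha : 9 * a = A - 2 * B + C) (hb : 9 * b = 2 * A - B - C) :
    729 * l.val (a, b, C) = l.cAAA * (A * A * A) + l.cAAB * (A * A * B) + l.cAAC * (A * A * C) + l.cABB * (A * B * B) + l.cABC * (A * B * C) + l.cACC * (A * C * C) + l.cBBB * (B * B * B) + l.cBBC * (B * B * C) + l.cBCC * (B * C * C) + l.cCCC * (C * C * C) := by
  have e : 729 * l.val (a, b, C) = l.l0 * ((9 * a) * (9 * a) * (9 * a)) + l.l1 * ((9 * a) * (9 * a) * (9 * b)) +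
      l.l2 * ((9 * a) * (9 * b) * (9 * b)) + l.l3 * ((9 * b) * (9 * b) * (9 * b)) +
      9 * (l.l4 * ((9 * a) * (9 * a) * C) + l.l5 * ((9 * a) * (9 * b) * C) + l.l6 * ((9 * b) * (9 * b) * C)) +
      81 * (l.l7 * ((9 * a) * C * C) + l.l8 * ((9 * b) * C * C)) := by
    simp only [Lam.val]; ring
  rw [e, ha, hb]
  simp only [Lam.cAAA, Lam.cAAB, Lam.cAAC, Lam.cABB, Lam.cABC, Lam.cACC, Lam.cBBB, Lam.cBBC, Lam.cBCC, Lam.cCCC]
  ring

/-- Representatives of the three classes. -/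
def uA : V := ![1, 0, 0]

/-- A vector of weight two. -/
def uB : V := ![1, 1, 0]

/-- A vector of weight three. -/
def uC : V := ![1, 1, 1]

theorem wt_cases : ∀ u : V, u ≠ 0 → wt u = wt uA ∨ wt u = wt uB ∨ wt u = wt uC := by decide +kernel

theorem rep_ne : uA ≠ 0 ∧ uB ≠ 0 ∧ uC ≠ 0 := by decide +kernel

theorem rep_wt : wt uA = 1 ∧ wt uB = 2 ∧ wt uC = 3 := by decide +kernel

theorem double_eq_neg : ∀ u : V, u + u = -u := by decide +kernel

theorem wt_neg : ∀ u : V, wt (-u) = wt u := by decide +kernel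

/-- The number of pairs inside `J`. -/
def inner (u u' z : V) : ℕ := Fintype.card {w : V // wt u = wt w ∧ wt u' = wt (z - w)}

theorem inner_values : inner uA uA uA = 1 ∧ inner uA uA uB = 2 ∧ inner uA uA uC = 0 ∧ inner uA uB uB = 2 ∧
    inner uA uB uC = 3 ∧ inner uA uC uC = 3 ∧ inner uB uB uB = 5 ∧ inner uB uB uC = 6 ∧ inner uB uC uC = 3 ∧
    inner uC uC uC = 1 := by
  decide +kernel

variable {G : Type*} [Group G] [Fintype G] {J : Subgroup G} {v : V → G}

theorem Coords.ne_one (h : Coords J v) {u : V} (hu : u ≠ 0) : v u ≠ 1 :=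
  fun hh => hu (h.inj (hh.trans h.map_zero.symm))

theorem Coords.sub_eq (h : Coords J v) (z w : V) : (v w)⁻¹ * v z = v (z - w) := by
  rw [inv_mul_eq_iff_eq_mul, ← h.add, add_sub_cancel]

/-- The pairs of conjugates split into those in `J` and a set on which `J` acts freely. -/
theorem Coords.pairCount_eq (h : Coords J v) {u u' z : V} (hu : u ≠ 0) (hu' : u' ≠ 0) (hz : z ≠ 0) :
    ∃ k : ℕ, H42.pairCount (v u) (v u') (v z) = inner u u' z + k ∧
      (¬ (wt u = wt u' ∧ wt u = wt z) → k = 0) ∧ (wt z ≠ 3 → 27 ∣ k) := by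
  classical
  let P : Finset G := Finset.univ.filter fun x => IsConj x (v u) ∧ IsConj (x⁻¹ * v z) (v u')
  have hP : H42.pairCount (v u) (v u') (v z) = P.card := by
    rw [H42.pairCount, Nat.card_eq_fintype_card, Fintype.card_subtype]
  have hin : (P.filter fun x => x ∈ J).card = inner u u' z := by
    rw [inner, Fintype.card_subtype]
    refine (Finset.card_bij (fun w _ => v w) ?_ (fun a _ b _ e => h.inj e) ?_).symm
    · intro w hw
      simp only [Finset.mem_filter, Finset.mem_univ, true_and, P] at hw ⊢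
      refine ⟨⟨((h.conj_iff u w hu).2 hw.1).symm, ?_⟩, h.mem w⟩
      rw [h.sub_eq]; exact ((h.conj_iff u' _ hu').2 hw.2).symm
    · intro x hx
      simp only [Finset.mem_filter, Finset.mem_univ, true_and, P] at hx
      obtain ⟨w, rfl⟩ := h.surj x hx.2
      refine ⟨w, ?_, rfl⟩
      simp only [Finset.mem_filter, Finset.mem_univ, true_and]
      refine ⟨(h.conj_iff u w hu).1 hx.1.1.symm, (h.conj_iff u' _ hu').1 ?_⟩
      rw [← h.sub_eq]; exact hx.1.2.symm
  refine ⟨(P.filter fun x => x ∉ J).card, ?_, fun hne => ?_, fun _ => ?_⟩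
  · rw [hP, ← hin, Finset.card_filter_add_card_filter_not]
  · rw [Finset.card_eq_zero, Finset.filter_eq_empty_iff]
    intro x hx hxJ
    simp only [Finset.mem_filter, Finset.mem_univ, true_and, P] at hx
    exact hxJ (h.pair_mem hu hu' hz hne hx.1 hx.2 (mul_inv_cancel_left x _)).1
  · -- `J` permutes the pairs outside `J` without fixed points
    have hJc : Nat.card J = 27 := by
      rw [← Nat.card_congr (Equiv.ofBijective (fun u => (⟨v u, h.mem u⟩ : J))
        ⟨fun a b hab => h.inj (congrArg (fun t : J => (t : G)) hab), fun x => by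
          obtain ⟨w, hw⟩ := h.surj x x.2; exact ⟨w, Subtype.ext hw⟩⟩)]
      simp
    have hstab : ∀ t ∈ J, ∀ x ∈ P.filter (fun x => x ∉ J), t * x * t⁻¹ ∈ P.filter (fun x => x ∉ J) := by
      intro t ht x hx
      simp only [Finset.mem_filter, Finset.mem_univ, true_and, P] at hx ⊢
      refine ⟨⟨(isConj_iff.2 ⟨t, rfl⟩ : IsConj x (t * x * t⁻¹)).symm.trans hx.1.1, ?_⟩, fun hh => hx.2 ?_⟩
      · refine ((isConj_iff.2 ⟨t, ?_⟩ : IsConj (x⁻¹ * v z) _)).symm.trans hx.1.2
        obtain ⟨w, rfl⟩ := h.surj t ht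
        have hcz : (v w)⁻¹ * v z = v z * (v w)⁻¹ := by
          rw [inv_mul_eq_iff_eq_mul, ← mul_assoc, eq_mul_inv_iff_mul_eq, ← h.add, ← h.add, add_comm]
        calc v w * (x⁻¹ * v z) * (v w)⁻¹ = v w * x⁻¹ * (v z * (v w)⁻¹) := by group
          _ = v w * x⁻¹ * ((v w)⁻¹ * v z) := by rw [hcz]
          _ = (v w * x * (v w)⁻¹)⁻¹ * v z := by group
      · have := J.mul_mem (J.mul_mem (J.inv_mem ht) hh) ht
        simpa [mul_assoc] using this
    let X := {x : G // x ∈ P.filter fun x => x ∉ J}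
    letI : MulAction J X :=
      { smul := fun t x => ⟨(t : G) * x.1 * (t : G)⁻¹, hstab _ t.2 _ x.2⟩
        one_smul := fun x => Subtype.ext (show ((1 : J) : G) * x.1 * ((1 : J) : G)⁻¹ = x.1 by simp)
        mul_smul := fun a b x => Subtype.ext (show ((a * b : J) : G) * x.1 * ((a * b : J) : G)⁻¹ =
          (a : G) * ((b : G) * x.1 * (b : G)⁻¹) * (a : G)⁻¹ by simp [mul_assoc]) }
    have hfree : ∀ x : X, MulAction.stabilizer J x = ⊥ := by
      intro x
      refine (Subgroup.eq_bot_iff_forall _).2 fun t ht => ?_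
      by_contra ht1
      have hx := x.2
      simp only [Finset.mem_filter, Finset.mem_univ, true_and, P] at hx
      refine hx.2 (h.abs_cent _ t.2 (fun e => ht1 (Subtype.ext e)) x.1 ?_ _ (h.mem u) hx.1.1.symm)
      have e : (t : G) * x.1 * (t : G)⁻¹ = x.1 := congrArg Subtype.val (MulAction.mem_stabilizer_iff.1 ht)
      exact (mul_inv_eq_iff_eq_mul.1 e).symm
    rw [← Fintype.card_coe, ← Nat.card_eq_fintype_card,
      Nat.card_congr (MulAction.selfEquivSigmaOrbits J X), Nat.card_sigma]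
    refine Finset.dvd_sum fun o _ => ?_
    rw [Nat.card_congr (MulAction.orbitEquivQuotientStabilizer J o.out), ← Subgroup.index_eq_card, hfree,
      Subgroup.index_bot, hJc]

/-- The centraliser order of a vector. -/
def wgt (u : V) : ℕ := if wt u = 1 then 108 else if wt u = 2 then 54 else 81

theorem rep_wgt : wgt uA = 108 ∧ wgt uB = 54 ∧ wgt uC = 81 := by decide +kernel

theorem Coords.int_values (h : Coords J v) (χ : Cfsg.IrrCharacter G) (u : V) :
    ∃ n : ℤ, χ.1 (v u) = n := by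
  obtain ⟨d, -, hd⟩ := H57.irr_degree χ.2
  by_cases hu : u = 0
  · exact ⟨d, by rw [hu, h.map_zero, hd]; simp⟩
  have hval : χ.1 (v (-u)) = χ.1 (v u) :=
    H26.irr_eq_of_isConj χ ((h.conj_iff u (-u) hu).2 (wt_neg u).symm).symm
  obtain ⟨m, hm⟩ := H42.exists_nat_sum_subgroup χ (Subgroup.zpowers (v u))
  have hu3 : v u ^ 3 = 1 := h.cube (IsConj.refl _)
  have hord : orderOf (v u) = 3 := by
    have : Fact (Nat.Prime 3) := ⟨Nat.prime_three⟩
    exact orderOf_eq_prime hu3 (h.ne_one hu)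
  rw [Nat.card_zpowers, hord] at hm
  have hneg : v (-u) = v u ^ 2 := by rw [pow_two, ← h.add, double_eq_neg]
  have hsum : ∑ y : Subgroup.zpowers (v u), χ.1 (y : G) = χ.1 1 + χ.1 (v u) + χ.1 (v u ^ 2) := by
    rw [← Equiv.sum_comp (finEquivZPowers (isOfFinOrder_of_finite (v u)))]
    simp only [finEquivZPowers_apply]
    rw [Finset.sum_fin_eq_sum_range, hord]
    simp [Finset.sum_range_succ]
  rw [hsum, ← hneg, hval, hd] at hm
  have hq : χ.1 (v u) = (((3 * m - d : ℤ) : ℚ) / 2 : ℚ) := by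
    push_cast
    linear_combination hm / 2
  have hI : IsIntegral ℤ (χ.1 (v u)) := by
    obtain ⟨_, ρ, -, e⟩ := χ.2
    rw [← e]
    exact H25.isIntegral_char ρ _
  rw [hq] at hI
  obtain ⟨n, hn⟩ := H43.exists_int_of_isIntegral hI
  exact ⟨n, by rw [hq, ← hn]; simp⟩

/-- Weighted count of a set of vectors by class. -/
theorem sum_by_weight (f : V → ℤ) (hf : ∀ u, u ≠ 0 → f u = if wt u = 1 then f uA else if wt u = 2 then f uB else f uC)
    (q : V → Bool) :
    ∑ u ∈ Finset.univ.filter (fun u => q u = true), f u =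
      (if q 0 then f 0 else 0) + (Finset.univ.filter fun u => q u = true ∧ wt u = 1).card * f uA +
        (Finset.univ.filter fun u => q u = true ∧ wt u = 2).card * f uB +
        (Finset.univ.filter fun u => q u = true ∧ wt u = 3).card * f uC := by
  have h0 : ∀ u : V, wt u = 0 → u = 0 := by decide +kernel
  have hb : ∀ u : V, u ≠ 0 → wt u = 1 ∨ wt u = 2 ∨ wt u = 3 := by decide +kernel
  have hzero : (if q 0 = true then f 0 else 0) = ∑ u : V, if q u = true ∧ u = 0 then f 0 else 0 := by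
    rw [Finset.sum_eq_single (0 : V) (fun b _ hb => by simp [hb]) (by simp)]
    simp
  rw [hzero, Finset.sum_filter, Finset.card_filter, Finset.card_filter, Finset.card_filter]
  push_cast
  simp only [Finset.sum_mul, ← Finset.sum_add_distrib]
  refine Finset.sum_congr rfl fun u _ => ?_
  by_cases hu : u = 0
  · subst hu
    have : wt (0 : V) = 0 := wt_zero
    simp [this]
  · cases q u
    · simp
    · rw [hf u hu]
      rcases hb u hu with e | e | e <;> simp [e, hu]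

/-- The kernel of a functional. -/
def plane (lam : V) : V → Bool := fun u => decide (lam 0 * u 0 + lam 1 * u 1 + lam 2 * u 2 = 0)

theorem plane_add : ∀ lam u u', plane lam u = true → plane lam u' = true → plane lam (u + u') = true := by
  intro lam u u' h1 h2
  simp only [plane, decide_eq_true_eq] at *
  simp only [Pi.add_apply]
  linear_combination h1 + h2

theorem plane_counts :
    ([uA, uB, uC].map fun lam => ((Finset.univ.filter fun u => plane lam u = true).card,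
      (Finset.univ.filter fun u => plane lam u = true ∧ wt u = 1).card,
      (Finset.univ.filter fun u => plane lam u = true ∧ wt u = 2).card,
      (Finset.univ.filter fun u => plane lam u = true ∧ wt u = 3).card)) =
      [(9, 4, 4, 0), (9, 2, 2, 4), (9, 0, 6, 2)] := by
  decide +kernel

theorem top_counts :
    (Finset.univ.filter fun u : V => (fun _ => true) u = true).card = 27 ∧
      (Finset.univ.filter fun u : V => (fun _ => true) u = true ∧ wt u = 1).card = 6 ∧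
      (Finset.univ.filter fun u : V => (fun _ => true) u = true ∧ wt u = 2).card = 12 ∧
      (Finset.univ.filter fun u : V => (fun _ => true) u = true ∧ wt u = 3).card = 8 := by
  decide +kernel

/-- The index is one. -/
theorem Coords.card_eq (h : Coords J v) : Nat.card G = 648 := by
  classical
  obtain ⟨n, hG, hn⟩ := h.index
  by_contra hne
  have hn28 : 28 ≤ n := by
    rcases Nat.lt_or_ge n 28 with hlt | hge
    · have : n = 1 := by omega
      subst this; omega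
    · exact hge
  choose c hc using fun (χ : Cfsg.IrrCharacter G) u => h.int_values χ u
  have hcl : ∀ χ u, u ≠ 0 → c χ u = if wt u = 1 then c χ uA else if wt u = 2 then c χ uB else c χ uC := by
    intro χ u hu
    have key : ∀ w, wt u = wt w → c χ u = c χ w := fun w hw => by
      have e := H26.irr_eq_of_isConj χ ((h.conj_iff u w hu).2 hw)
      rw [hc, hc] at e
      exact_mod_cast e
    rcases wt_cases u hu with e | e | e
    · rw [if_pos (e.trans rep_wt.1)]; exact key _ e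
    · rw [if_neg (by rw [e, rep_wt.2.1]; decide), if_pos (e.trans rep_wt.2.1)]; exact key _ e
    · rw [if_neg (by rw [e, rep_wt.2.2]; decide), if_neg (by rw [e, rep_wt.2.2]; decide)]; exact key _ e
  set d : Cfsg.IrrCharacter G → ℤ := fun χ => c χ 0 with hdef
  set A : Cfsg.IrrCharacter G → ℤ := fun χ => c χ uA with hA
  set B : Cfsg.IrrCharacter G → ℤ := fun χ => c χ uB with hB
  set C : Cfsg.IrrCharacter G → ℤ := fun χ => c χ uC with hC
  have hone : ∀ χ : Cfsg.IrrCharacter G, χ.1 1 = (c χ 0 : ℂ) := fun χ => by rw [← hc, h.map_zero]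
  have hdpos : ∀ χ, 0 < d χ := by
    intro χ
    obtain ⟨m, hm, e⟩ := H57.irr_degree χ.2
    rw [hone] at e
    have : c χ 0 = (m : ℤ) := by exact_mod_cast e
    show 0 < c χ 0
    omega
  -- sums over subgroups of `J`
  have hsub : ∀ (q : V → Bool) (N : ℕ), q 0 = true → (∀ u u', q u = true → q u' = true → q (u + u') = true) →
      (Finset.univ.filter fun u => q u = true).card = N →
      ∀ χ, (N : ℤ) ∣ ∑ u ∈ Finset.univ.filter (fun u => q u = true), c χ u := by
    intro q N q0 qadd hN χ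
    let K : Subgroup G :=
      { carrier := {x | ∃ u, q u = true ∧ v u = x}
        one_mem' := ⟨0, q0, h.map_zero⟩
        mul_mem' := fun {a b} ha hb => by
          obtain ⟨u, hu, rfl⟩ := ha
          obtain ⟨u', hu', rfl⟩ := hb
          exact ⟨u + u', qadd _ _ hu hu', h.add u u'⟩
        inv_mem' := fun {a} ha => by
          obtain ⟨u, hu, rfl⟩ := ha
          refine ⟨u + u, qadd _ _ hu hu, eq_inv_of_mul_eq_one_left ?_⟩
          rw [← h.add, three_sum, h.map_zero] }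
    let e : {u // q u = true} ≃ K := Equiv.ofBijective (fun u => ⟨v u.1, u.1, u.2, rfl⟩)
      ⟨fun a b hab => Subtype.ext (h.inj (congrArg (fun t : K => (t : G)) hab)),
        fun ⟨x, u, hu, hux⟩ => ⟨⟨u, hu⟩, Subtype.ext hux⟩⟩
    have hK : Nat.card K = N := by
      rw [← Nat.card_congr e, Nat.card_eq_fintype_card, Fintype.card_subtype, hN]
    obtain ⟨m, hm⟩ := H42.exists_nat_sum_subgroup χ K
    rw [hK, ← Equiv.sum_comp e] at hm
    refine ⟨m, ?_⟩
    rw [Finset.sum_subtype (p := fun u => q u = true) _ (fun u => by simp)]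
    replace hm : ∑ u : {u // q u = true}, χ.1 (v u.1) = (N : ℂ) * m := hm
    rw [Finset.sum_congr rfl (fun u _ => hc χ u.1)] at hm
    exact_mod_cast hm
  have hplane : ∀ χ, (9 : ℤ) ∣ A χ - 2 * B χ + C χ ∧ (9 : ℤ) ∣ 2 * A χ - B χ - C χ ∧
      (27 : ℤ) ∣ d χ + 6 * A χ + 12 * B χ + 8 * C χ := by
    intro χ
    have hp := plane_counts
    simp only [List.map_cons, List.map_nil, List.cons.injEq, Prod.mk.injEq, and_true] at hp
    obtain ⟨⟨a0, a1, a2, a3⟩, ⟨b0, b1, b2, b3⟩, c0, c1, c2, c3⟩ := hp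
    obtain ⟨t0, t1, t2, t3⟩ := top_counts
    have p0 : ∀ lam, plane lam 0 = true := fun lam => by simp [plane]
    have e1 := hsub (plane uA) 9 (p0 _) (plane_add uA) a0 χ
    have e2 := hsub (plane uB) 9 (p0 _) (plane_add uB) b0 χ
    have e3 := hsub (plane uC) 9 (p0 _) (plane_add uC) c0 χ
    have e4 := hsub (fun _ => true) 27 rfl (fun _ _ _ _ => rfl) t0 χ
    rw [sum_by_weight (c χ) (hcl χ), p0, a1, a2, a3] at e1
    rw [sum_by_weight (c χ) (hcl χ), p0, b1, b2, b3] at e2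
    rw [sum_by_weight (c χ) (hcl χ), p0, c1, c2, c3] at e3
    rw [sum_by_weight (c χ) (hcl χ), t1, t2, t3] at e4
    simp only [if_true, Nat.cast_ofNat, Nat.cast_zero, zero_mul, add_zero, ← hA, ← hB, ← hC, ← hdef] at e1 e2 e3 e4
    simp only [hA, hB, hC, hdef]
    omega
  choose a ha using fun χ => (hplane χ).1
  choose b hb using fun χ => (hplane χ).2.1
  have h9a : ∀ χ, 9 * a χ = A χ - 2 * B χ + C χ := fun χ => (ha χ).symm
  have h9b : ∀ χ, 9 * b χ = 2 * A χ - B χ - C χ := fun χ => (hb χ).symm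
  -- orthogonality
  have horth : ∀ u u', u ≠ 0 → u' ≠ 0 → ∑ χ, c χ u * c χ u' = if wt u = wt u' then (wgt u' : ℤ) else 0 := by
    intro u u' hu hu'
    have e := H26.column_orthogonality (v u) (v u')
    simp only [hc, H26.classIndicator] at e
    rw [show Nat.card (Subgroup.centralizer ({v u'} : Set G)) = wgt u' from h.weight u' hu'] at e
    simp only [map_intCast] at e
    have hiff : IsConj (v u) (v u') ↔ wt u = wt u' := h.conj_iff u u' hu
    by_cases hR : wt u = wt u'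
    · rw [if_pos hR]
      rw [if_pos (by simpa [isConj_comm] using hiff.2 hR)] at e
      have e' : ((∑ χ, c χ u * c χ u' : ℤ) : ℂ) = ((wgt u' : ℤ) : ℂ) := by push_cast; simpa using e
      exact_mod_cast e'
    · rw [if_neg hR]
      rw [if_neg (fun hh => hR (hiff.1 (by simpa [isConj_comm] using hh)))] at e
      have e' : ((∑ χ, c χ u * c χ u' : ℤ) : ℂ) = ((0 : ℤ) : ℂ) := by push_cast; simpa using e
      exact_mod_cast e'
  obtain ⟨nA, nB, nC⟩ := rep_ne
  obtain ⟨wA, wB, wC⟩ := rep_wt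
  obtain ⟨gA, gB, gC⟩ := rep_wgt
  have oAA : ∑ χ, A χ * A χ = 108 := by rw [hA, horth uA uA nA nA, if_pos rfl, gA]; rfl
  have oBB : ∑ χ, B χ * B χ = 54 := by rw [hB, horth uB uB nB nB, if_pos rfl, gB]; rfl
  have oCC : ∑ χ, C χ * C χ = 81 := by rw [hC, horth uC uC nC nC, if_pos rfl, gC]; rfl
  have oAB : ∑ χ, A χ * B χ = 0 := by rw [hA, hB, horth uA uB nA nB, if_neg (by omega)]
  have oAC : ∑ χ, A χ * C χ = 0 := by rw [hA, hC, horth uA uC nA nC, if_neg (by omega)]
  have oBC : ∑ χ, B χ * C χ = 0 := by rw [hB, hC, horth uB uC nB nC, if_neg (by omega)]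
  have odeg : ∀ u, u ≠ 0 → ∑ χ, d χ * c χ u = 0 := by
    intro u hu
    have e := H26.column_orthogonality (v 0) (v u)
    simp only [hc, H26.classIndicator, map_intCast] at e
    rw [if_neg (fun hh => h.ne_one hu (by rw [h.map_zero] at hh; simpa [eq_comm] using hh)), mul_zero] at e
    exact_mod_cast e
  -- class multiplication
  have hburn : ∀ u u' z, u ≠ 0 → u' ≠ 0 → z ≠ 0 →
      (H42.pairCount (v u) (v u') (v z) : ℚ) * ((wgt u : ℚ) * (wgt u' : ℚ)) =
        ∑ χ, ((c χ u * c χ u' * c χ z : ℤ) : ℚ) * ((648 * n : ℚ) / (d χ : ℚ)) := by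
    intro u u' z hu hu' hz
    have e := H42.pairCount_formula (v u) (v u') (v z)
    have hI : ∀ x, x ≠ 0 → ((Subgroup.centralizer ({v x} : Set G)).index : ℂ) * (wgt x : ℂ) = (Nat.card G : ℂ) := by
      intro x hx
      rw [wgt, ← h.weight x hx, ← Subgroup.card_mul_index (Subgroup.centralizer ({v x} : Set G))]
      push_cast; ring
    have hne0 : (Nat.card G : ℂ) ≠ 0 := Nat.cast_ne_zero.2 Nat.card_pos.ne'
    simp only [hc, map_intCast, hone] at e
    apply Rat.cast_injective (α := ℂ)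
    push_cast
    rw [e]
    have i1 := hI u hu
    have i2 := hI u' hu'
    have hGc : (Nat.card G : ℂ) = 648 * (n : ℂ) := by rw [hG]; push_cast; ring
    generalize ((Subgroup.centralizer ({v u} : Set G)).index : ℂ) = I at *
    generalize ((Subgroup.centralizer ({v u'} : Set G)).index : ℂ) = I' at *
    calc I * I' * (Nat.card G : ℂ)⁻¹ * (∑ χ : Cfsg.IrrCharacter G, (c χ u : ℂ) * (c χ u' : ℂ) * (c χ z : ℂ) / (c χ 0 : ℂ)) *
          ((wgt u : ℂ) * (wgt u' : ℂ))
        = (I * (wgt u : ℂ)) * (I' * (wgt u' : ℂ)) * (Nat.card G : ℂ)⁻¹ *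
          (∑ χ : Cfsg.IrrCharacter G, (c χ u : ℂ) * (c χ u' : ℂ) * (c χ z : ℂ) / (c χ 0 : ℂ)) := by ring
      _ = (Nat.card G : ℂ) *
          (∑ χ : Cfsg.IrrCharacter G, (c χ u : ℂ) * (c χ u' : ℂ) * (c χ z : ℂ) / (c χ 0 : ℂ)) := by
          rw [i1, i2]; field_simp
      _ = _ := by
          rw [hGc, Finset.mul_sum]
          refine Finset.sum_congr rfl fun χ _ => ?_
          simp only [hdef]; ring
  obtain ⟨vAAA, vAAB, vAAC, vABB, vABC, vACC, vBBB, vBBC, vBCC, vCCC⟩ := inner_values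
  have hexact : ∀ u u' z, u ≠ 0 → u' ≠ 0 → z ≠ 0 → ¬ (wt u = wt u' ∧ wt u = wt z) →
      ((inner u u' z : ℕ) : ℚ) * ((wgt u : ℚ) * (wgt u' : ℚ)) =
        ∑ χ, ((c χ u * c χ u' * c χ z : ℤ) : ℚ) * ((648 * n : ℚ) / (d χ : ℚ)) := by
    intro u u' z hu hu' hz hne'
    obtain ⟨k, hk, hk0, -⟩ := h.pairCount_eq hu hu' hz
    rw [← hburn u u' z hu hu' hz, hk, hk0 hne', add_zero]
  obtain ⟨kA, hkA, -, hkA'⟩ := h.pairCount_eq nA nA nA
  obtain ⟨kB, hkB, -, hkB'⟩ := h.pairCount_eq nB nB nB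
  obtain ⟨kC, hkC, -, -⟩ := h.pairCount_eq nC nC nC
  obtain ⟨i, rfl⟩ := hkA' (by omega)
  obtain ⟨j, rfl⟩ := hkB' (by omega)
  let U : Cfsg.IrrCharacter G → ℚ := fun χ => (648 * n : ℚ) / (d χ : ℚ)
  have sAAA : ∑ χ, ((A χ * A χ * A χ : ℤ) : ℚ) * U χ = (1 + 27 * (i : ℚ)) * 11664 := by
    rw [← hburn uA uA uA nA nA nA, hkA, vAAA, gA]; push_cast; ring
  have sBBB : ∑ χ, ((B χ * B χ * B χ : ℤ) : ℚ) * U χ = (5 + 27 * (j : ℚ)) * 2916 := by
    rw [← hburn uB uB uB nB nB nB, hkB, vBBB, gB]; push_cast; ring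
  have sCCC : ∑ χ, ((C χ * C χ * C χ : ℤ) : ℚ) * U χ = (1 + (kC : ℚ)) * 6561 := by
    rw [← hburn uC uC uC nC nC nC, hkC, vCCC, gC]; push_cast; ring
  have sAAB : ∑ χ, ((A χ * A χ * B χ : ℤ) : ℚ) * U χ = 23328 := by
    rw [← hexact uA uA uB nA nA nB (by omega), vAAB, gA]; norm_num
  have sAAC : ∑ χ, ((A χ * A χ * C χ : ℤ) : ℚ) * U χ = 0 := by
    rw [← hexact uA uA uC nA nA nC (by omega), vAAC, gA]; norm_num
  have sABB : ∑ χ, ((A χ * B χ * B χ : ℤ) : ℚ) * U χ = 11664 := by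
    rw [← hexact uA uB uB nA nB nB (by omega), vABB, gA, gB]; norm_num
  have sABC : ∑ χ, ((A χ * B χ * C χ : ℤ) : ℚ) * U χ = 17496 := by
    rw [← hexact uA uB uC nA nB nC (by omega), vABC, gA, gB]; norm_num
  have sACC : ∑ χ, ((A χ * C χ * C χ : ℤ) : ℚ) * U χ = 26244 := by
    rw [← hexact uA uC uC nA nC nC (by omega), vACC, gA, gC]; norm_num
  have sBBC : ∑ χ, ((B χ * B χ * C χ : ℤ) : ℚ) * U χ = 17496 := by
    rw [← hexact uB uB uC nB nB nC (by omega), vBBC, gB]; norm_num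
  have sBCC : ∑ χ, ((B χ * C χ * C χ : ℤ) : ℚ) * U χ = 13122 := by
    rw [← hexact uB uC uC nB nC nC (by omega), vBCC, gB, gC]; norm_num
  -- the support
  let S : Finset (Cfsg.IrrCharacter G) := Finset.univ.filter fun χ => (a χ, b χ) ≠ (0, 0)
  let r : Cfsg.IrrCharacter G → Row := fun χ => (a χ, b χ, C χ)
  have hout : ∀ χ, χ ∉ S → a χ = 0 ∧ b χ = 0 := by
    intro χ hχ
    simpa [S] using hχ
  have hall : ∀ f : Cfsg.IrrCharacter G → ℤ, (∀ χ, a χ = 0 → b χ = 0 → f χ = 0) → ∑ χ ∈ S, f χ = ∑ χ, f χ :=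
    fun f hf => Finset.sum_subset (Finset.subset_univ S) fun χ _ hχ => hf χ (hout χ hχ).1 (hout χ hχ).2
  refine no_rows (S := S) (r := r) (d := d) (n := n) (i := i) (j := j) (k := kC)
    { nmod := by omega, nbig := by omega, ipos := by omega, jpos := by omega, kpos := by omega,
      ne := fun χ hχ => (Finset.mem_filter.1 hχ).2, aa := ?_, bb := ?_, ab := ?_, ac := ?_, bc := ?_,
      cc := ?_, dega := ?_, degb := ?_, dpos := fun χ _ => hdpos χ, dmod := ?_, dsq := ?_, moments := ?_ }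
  · show ∑ χ ∈ S, a χ * a χ = 5
    rw [hall _ fun χ e _ => by rw [e]; ring]
    have e : 81 * ∑ χ, a χ * a χ = ∑ χ, A χ * A χ + 4 * ∑ χ, B χ * B χ + ∑ χ, C χ * C χ -
        4 * ∑ χ, A χ * B χ + 2 * ∑ χ, A χ * C χ - 4 * ∑ χ, B χ * C χ := by
      simp only [Finset.mul_sum, ← Finset.sum_add_distrib, ← Finset.sum_sub_distrib]
      exact Finset.sum_congr rfl fun χ _ => by linear_combination (9 * a χ + A χ - 2 * B χ + C χ) * h9a χ
    rw [oAA, oBB, oCC, oAB, oAC, oBC] at e; omega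
  · show ∑ χ ∈ S, b χ * b χ = 7
    rw [hall _ fun χ _ e => by rw [e]; ring]
    have e : 81 * ∑ χ, b χ * b χ = 4 * ∑ χ, A χ * A χ + ∑ χ, B χ * B χ + ∑ χ, C χ * C χ -
        4 * ∑ χ, A χ * B χ - 4 * ∑ χ, A χ * C χ + 2 * ∑ χ, B χ * C χ := by
      simp only [Finset.mul_sum, ← Finset.sum_add_distrib, ← Finset.sum_sub_distrib]
      exact Finset.sum_congr rfl fun χ _ => by linear_combination (9 * b χ + 2 * A χ - B χ - C χ) * h9b χ
    rw [oAA, oBB, oCC, oAB, oAC, oBC] at e; omega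
  · show ∑ χ ∈ S, a χ * b χ = 3
    rw [hall _ fun χ e _ => by rw [e]; ring]
    have e : 81 * ∑ χ, a χ * b χ = 2 * ∑ χ, A χ * A χ + 2 * ∑ χ, B χ * B χ - ∑ χ, C χ * C χ -
        5 * ∑ χ, A χ * B χ + ∑ χ, A χ * C χ + ∑ χ, B χ * C χ := by
      simp only [Finset.mul_sum, ← Finset.sum_add_distrib, ← Finset.sum_sub_distrib]
      exact Finset.sum_congr rfl fun χ _ => by
        linear_combination (9 * b χ) * h9a χ + (A χ - 2 * B χ + C χ) * h9b χ
    rw [oAA, oBB, oCC, oAB, oAC, oBC] at e; omega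
  · show ∑ χ ∈ S, a χ * C χ = 9
    rw [hall _ fun χ e _ => by rw [e]; ring]
    have e : 9 * ∑ χ, a χ * C χ = ∑ χ, A χ * C χ - 2 * ∑ χ, B χ * C χ + ∑ χ, C χ * C χ := by
      simp only [Finset.mul_sum, ← Finset.sum_add_distrib, ← Finset.sum_sub_distrib]
      exact Finset.sum_congr rfl fun χ _ => by linear_combination (C χ) * h9a χ
    rw [oCC, oAC, oBC] at e; omega
  · show ∑ χ ∈ S, b χ * C χ = -9
    rw [hall _ fun χ _ e => by rw [e]; ring]
    have e : 9 * ∑ χ, b χ * C χ = 2 * ∑ χ, A χ * C χ - ∑ χ, B χ * C χ - ∑ χ, C χ * C χ := by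
      simp only [Finset.mul_sum, ← Finset.sum_sub_distrib]
      exact Finset.sum_congr rfl fun χ _ => by linear_combination (C χ) * h9b χ
    rw [oCC, oAC, oBC] at e; omega
  · show ∑ χ ∈ S, C χ * C χ ≤ 80
    have h1 : ∀ u, c (H26.oneIrr G) u = 1 := fun u => by
      have e := hc (H26.oneIrr G) u
      rw [H26.oneIrr_val] at e
      exact_mod_cast e.symm
    have hnot : H26.oneIrr G ∉ S := by
      have e1 := h9a (H26.oneIrr G)
      have e2 := h9b (H26.oneIrr G)
      simp only [hA, hB, hC, h1] at e1 e2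
      simp [S]; omega
    have e : ∑ χ ∈ insert (H26.oneIrr G) S, C χ * C χ ≤ 81 := by
      rw [← oCC]
      exact Finset.sum_le_sum_of_subset_of_nonneg (Finset.subset_univ _) fun x _ _ => mul_self_nonneg _
    rw [Finset.sum_insert hnot, show C (H26.oneIrr G) = 1 from h1 _] at e
    linarith
  · show ∑ χ ∈ S, d χ * a χ = 0
    rw [hall _ fun χ e _ => by rw [e]; ring]
    have e : 9 * ∑ χ, d χ * a χ = ∑ χ, d χ * c χ uA - 2 * ∑ χ, d χ * c χ uB + ∑ χ, d χ * c χ uC := by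
      simp only [Finset.mul_sum, ← Finset.sum_add_distrib, ← Finset.sum_sub_distrib]
      exact Finset.sum_congr rfl fun χ _ => by linear_combination (d χ) * h9a χ
    rw [odeg _ nA, odeg _ nB, odeg _ nC] at e; omega
  · show ∑ χ ∈ S, d χ * b χ = 0
    rw [hall _ fun χ _ e => by rw [e]; ring]
    have e : 9 * ∑ χ, d χ * b χ = 2 * ∑ χ, d χ * c χ uA - ∑ χ, d χ * c χ uB - ∑ χ, d χ * c χ uC := by
      simp only [Finset.mul_sum, ← Finset.sum_sub_distrib]
      exact Finset.sum_congr rfl fun χ _ => by linear_combination (d χ) * h9b χ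
    rw [odeg _ nA, odeg _ nB, odeg _ nC] at e; omega
  · intro χ _
    show (27 : ℤ) ∣ d χ - (C χ + 9 * a χ + 9 * b χ)
    have h3 := (hplane χ).2.2
    have e1 := h9a χ
    have e2 := h9b χ
    omega
  · show ∑ χ ∈ S, d χ * d χ ≤ 648 * (n : ℤ)
    have e := H26.sum_sq_degrees (G := G)
    simp only [hone, pow_two] at e
    have e' : ∑ χ, d χ * d χ = (Nat.card G : ℤ) := by simp only [hdef]; exact_mod_cast e
    rw [hG] at e'
    push_cast at e'
    rw [← e']
    exact Finset.sum_le_sum_of_subset_of_nonneg (Finset.subset_univ _) fun x _ _ => mul_self_nonneg _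
  · intro l
    show ∑ χ ∈ S, (l.val (r χ) : ℚ) * U χ = _
    rw [Finset.sum_subset (Finset.subset_univ S) fun χ _ hχ => by
      rw [show l.val (r χ) = 0 by simp [Lam.val, r, hout χ hχ]]; simp]
    have e : ∀ χ, 729 * ((l.val (r χ) : ℚ) * U χ) = (l.cAAA : ℚ) * (((A χ * A χ * A χ : ℤ) : ℚ) * U χ) + (l.cAAB : ℚ) * (((A χ * A χ * B χ : ℤ) : ℚ) * U χ) + (l.cAAC : ℚ) * (((A χ * A χ * C χ : ℤ) : ℚ) * U χ) + (l.cABB : ℚ) * (((A χ * B χ * B χ : ℤ) : ℚ) * U χ) + (l.cABC : ℚ) * (((A χ * B χ * C χ : ℤ) : ℚ) * U χ) + (l.cACC : ℚ) * (((A χ * C χ * C χ : ℤ) : ℚ) * U χ) + (l.cBBB : ℚ) * (((B χ * B χ * B χ : ℤ) : ℚ) * U χ) + (l.cBBC : ℚ) * (((B χ * B χ * C χ : ℤ) : ℚ) * U χ) + (l.cBCC : ℚ) * (((B χ * C χ * C χ : ℤ) : ℚ) * U χ) + (l.cCCC : ℚ) * (((C χ * C χ * C χ : ℤ) : ℚ) * U χ) := by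
      intro χ
      have e0 : ((729 * l.val (a χ, b χ, C χ) : ℤ) : ℚ) = _ :=
        congrArg _ (l.expand (A χ) (B χ) (C χ) (a χ) (b χ) (h9a χ) (h9b χ))
      push_cast at e0 ⊢
      rw [← mul_assoc, e0]
      ring
    have e2 := Finset.sum_congr rfl (fun χ (_ : χ ∈ Finset.univ) => e χ)
    simp only [Finset.sum_add_distrib, ← Finset.mul_sum, sAAA, sAAB, sAAC, sABB, sABC, sACC, sBBB, sBBC, sBCC, sCCC] at e2
    simp only [Lam.const, Lam.ex, Lam.ey, Lam.ez, Lam.cAAA, Lam.cAAB, Lam.cAAC, Lam.cABB, Lam.cABC, Lam.cACC, Lam.cBBB, Lam.cBBC, Lam.cBCC, Lam.cCCC] at e2 ⊢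
    push_cast at e2 ⊢
    linear_combination e2 / 729

end Cfsg.Agent.H29.Cube
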