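import Cfsg.Agent.H29.NineCharBound

/-!
An automizer of order four generated by two reflections does not occur in a group with more than four
conjugates of the Sylow subgroup.
-/

namespace Cfsg.Agent.H29.DihNineVFour

open NineCharBound

/-- Three classes: the two axes and the rest. -/
def RThree (u u' : V2) : Prop :=
  u ≠ 0 ∧ u' ≠ 0 ∧ (u.1 = 0 ↔ u'.1 = 0) ∧ (u.2 = 0 ↔ u'.2 = 0)

instance : DecidableRel RThree := fun u u' => by unfold RThree; infer_instance

/-- The centraliser orders. -/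
def wgt3 (u : V2) : ℕ := if u.1 = 0 ∨ u.2 = 0 then 18 else 9

theorem counts :
    Fintype.card {z : V2 // RThree (1, 0) z ∧ RThree (1, 0) ((1, 1) - z)} = 0 ∧
    Fintype.card {z : V2 // RThree (1, 0) z ∧ RThree (1, 0) ((0, 1) - z)} = 0 ∧
    Fintype.card {z : V2 // RThree (0, 1) z ∧ RThree (0, 1) ((1, 1) - z)} = 0 ∧
    Fintype.card {z : V2 // RThree (0, 1) z ∧ RThree (0, 1) ((1, 0) - z)} = 0 ∧
    Fintype.card {z : V2 // RThree (1, 0) z ∧ RThree (0, 1) ((1, 1) - z)} = 1 ∧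
    Fintype.card {z : V2 // RThree (1, 0) z ∧ RThree (1, 1) ((1, 1) - z)} = 1 ∧
    Fintype.card {z : V2 // RThree (0, 1) z ∧ RThree (1, 1) ((1, 1) - z)} = 1 := by decide +kernel

theorem side_zero {P Q R : ℤ} {c : ℚ} (hsum : P + Q + R = 0) (hQ : Q ≠ 0) (hP : P ≠ 0) (hR : R ≠ 0)
    (hc : c ≠ 0) (h : c / (P : ℚ) + c / (R : ℚ) = 0) : False := by
  have hP' : (P : ℚ) ≠ 0 := by exact_mod_cast hP
  have hR' : (R : ℚ) ≠ 0 := by exact_mod_cast hR
  field_simp at h
  have h2 : ((P + R : ℤ) : ℚ) = 0 := by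
    push_cast
    rcases mul_eq_zero.1 (show c * ((R : ℚ) + P) = 0 by linear_combination h) with h | h
    · exact absurd h hc
    · linarith
  have h3 : P + R = 0 := by exact_mod_cast h2
  omega

theorem side_cases {zp zq zr P Q R : ℤ} (hz : zp + zq + zr = -3) (hsum : P + Q + R = 0) (hP : P ≠ 0)
    (hQ : Q ≠ 0) (hR : R ≠ 0) (hzp : zp = -2 ∨ zp = -1)
    (hq : (zp = -2 → zq * zq + zr * zr ≤ 3) ∧ (zp = -1 → zq * zq + zr * zr ≤ 5))
    (h : ((zp : ℚ) + 3) * ((zp : ℚ) + 3) / P + (zq : ℚ) * zq / Q + (zr : ℚ) * zr / R = 0) :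
    zp = -1 ∧ zq = -1 ∧ zr = -1 ∧ Q = R ∧ P = -2 * R := by
  obtain rfl : zr = -3 - zp - zq := by omega
  rcases hzp with rfl | rfl
  · have hb := hq.1 rfl
    have h1 : -2 ≤ zq := by nlinarith
    have h2 : zq ≤ 1 := by nlinarith
    exfalso
    interval_cases zq
    · norm_num at hb
    · exact side_zero (c := 1) (by linarith : P + R + Q = 0) hR hP hQ one_ne_zero (by norm_num at h ⊢; linarith)
    · exact side_zero (c := 1) hsum hQ hP hR one_ne_zero (by norm_num at h ⊢; linarith)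
    · norm_num at hb
  · have hb := hq.2 rfl
    have h1 : -2 ≤ zq := by nlinarith
    have h2 : zq ≤ 0 := by nlinarith
    interval_cases zq
    · exact (side_zero (c := 4) (by linarith : P + R + Q = 0) hR hP hQ (by norm_num)
        (by norm_num at h ⊢; linarith)).elim
    · refine ⟨rfl, rfl, rfl, ?_⟩
      have hP' : (P : ℚ) ≠ 0 := by exact_mod_cast hP
      have hQ' : (Q : ℚ) ≠ 0 := by exact_mod_cast hQ
      have hR' : (R : ℚ) ≠ 0 := by exact_mod_cast hR
      norm_num at h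
      field_simp at h
      have e : 4 * (Q * R) + R * P + Q * P = 0 := by
        have : ((4 * (Q * R) + R * P + Q * P : ℤ) : ℚ) = 0 := by push_cast; linear_combination h
        exact_mod_cast this
      obtain rfl : P = -Q - R := by omega
      have : (Q - R) * (Q - R) = 0 := by linear_combination -e
      have := mul_self_eq_zero.1 this
      omega
    · exact (side_zero (c := 4) hsum hQ hP hR (by norm_num) (by norm_num at h ⊢; linarith)).elim

theorem arith {zp zq zr zs zt P Q R S T : ℤ} {g : ℕ} {E : ℚ}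
    (hza : zp + zq + zr = -3) (hzb : zp + zs + zt = -3) (hda : P + Q + R = 0) (hdb : P + S + T = 0)
    (hP : P ≠ 0) (hQ : Q ≠ 0) (hR : R ≠ 0) (hS : S ≠ 0) (hT : T ≠ 0)
    (hsq : zp * zp + zq * zq + zr * zr + zs * zs + zt * zt ≤ 8) (hres : R % 9 = (zr + 3) % 9)
    (hb : P * P ≤ g)
    (hA : ((zp : ℚ) + 3) * ((zp : ℚ) + 3) / P + (zq : ℚ) * zq / Q + (zr : ℚ) * zr / R = 0)
    (hB : ((zp : ℚ) + 3) * ((zp : ℚ) + 3) / P + (zs : ℚ) * zs / S + (zt : ℚ) * zt / T = 0)
    (hxyz : (g : ℚ) * (E + 3 * ((zp : ℚ) * zp / P + (zq : ℚ) * zq / Q + (zr : ℚ) * zr / R) +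
      3 * ((zp : ℚ) * zp / P + (zs : ℚ) * zs / S + (zt : ℚ) * zt / T) + 9 * ((zp : ℚ) / P)) = 324)
    (hxzz : (g : ℚ) * (E + 3 * ((zp : ℚ) * zp / P + (zq : ℚ) * zq / Q + (zr : ℚ) * zr / R)) = 162)
    (hyzz : (g : ℚ) * (E + 3 * ((zp : ℚ) * zp / P + (zs : ℚ) * zs / S + (zt : ℚ) * zt / T)) = 162) :
    g ≤ 36 := by
  have hzp : zp = -2 ∨ zp = -1 := by
    have h1 : -2 ≤ zp := by nlinarith [mul_self_nonneg (zq + zr), mul_self_nonneg (zs + zt)]
    have h2 : zp ≤ 2 := by nlinarith [mul_self_nonneg zq, mul_self_nonneg zr, mul_self_nonneg zs, mul_self_nonneg zt]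
    interval_cases zp
    · left; rfl
    · right; rfl
    all_goals
      exfalso
      nlinarith [mul_self_nonneg (zq - zr), mul_self_nonneg (zs - zt)]
  have hsides : ∀ u v : ℤ, zp + u + v = -3 → (zp = -2 → 1 ≤ u * u + v * v) ∧ (zp = -1 → 2 ≤ u * u + v * v) := by
    intro u v huv
    constructor <;> intro e <;> nlinarith [mul_self_nonneg (u - v)]
  obtain ⟨ha1, ha2⟩ := hsides zq zr hza
  obtain ⟨hb1, hb2⟩ := hsides zs zt hzb
  obtain ⟨rfl, rfl, rfl, hQR, hPR⟩ := side_cases hza hda hP hQ hR hzp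
    ⟨fun e => by have := hb1 e; rw [e] at hsq; omega, fun e => by have := hb2 e; rw [e] at hsq; omega⟩ hA
  obtain ⟨-, rfl, rfl, hST, hPT⟩ := side_cases hzb hdb hP hS hT hzp
    ⟨fun e => by norm_num at e, fun e => by norm_num at hsq ⊢; omega⟩ hB
  have hg : (g : ℚ) ≠ 0 := by intro e; rw [e] at hxzz; norm_num at hxzz
  subst hQR
  subst hPR
  have hSQ : S = Q := by omega
  have hTQ : T = Q := by omega
  rw [hSQ, hTQ] at hxyz hyzz
  have hT' : (Q : ℚ) ≠ 0 := by exact_mod_cast hQ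
  push_cast at hxyz hxzz hyzz
  have hgQ : (g : ℚ) * (9 / (Q : ℚ)) = 162 := by
    ring_nf at hxyz hxzz ⊢
    linarith
  have hgS : (g : ℚ) = 18 * Q := by
    field_simp at hgQ
    linarith
  have hgS' : (g : ℤ) = 18 * Q := by exact_mod_cast hgS
  have hSpos : 0 < Q := by omega
  have hS4 : Q ≤ 4 := by nlinarith
  have : Q = 2 := by omega
  omega

theorem unit_sq {e : ℤ} (he : e = 1 ∨ e = -1) (w d : ℚ) :
    (e : ℚ) * (w * w) / d = ((e : ℚ) * w) * ((e : ℚ) * w) / ((e : ℚ) * d) := by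
  rcases he with rfl | rfl <;> simp [neg_div_neg_eq] <;> ring

theorem unit_lin {e : ℤ} (he : e = 1 ∨ e = -1) (w d : ℚ) :
    (e : ℚ) * (e : ℚ) * w / d = ((e : ℚ) * w) / ((e : ℚ) * d) := by
  rcases he with rfl | rfl <;> simp [neg_div_neg_eq]

theorem unit_shift {e : ℤ} (he : e = 1 ∨ e = -1) (w : ℚ) : (e : ℚ) * (w + 3 * (e : ℚ)) = (e : ℚ) * w + 3 := by
  rcases he with rfl | rfl <;> norm_num <;> ring

theorem unit_cast_sq {e : ℤ} (he : e = 1 ∨ e = -1) : e * e = 1 := by rcases he with rfl | rfl <;> norm_num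

variable {G : Type*} [Group G] [Fintype G] {T : Subgroup G} {v : V2 → G}

set_option maxHeartbeats 2000000 in
/-- The order bound with three classes. -/
theorem card_le_of_three_classes (h : Coords T v RThree)
    (hcent : ∀ u, u ≠ 0 → Nat.card (Subgroup.centralizer ({v u} : Set G)) = wgt3 u) : Nat.card G ≤ 36 := by
  classical
  obtain ⟨c, hc1, hd, hR, h3, h9, horth, hdeg, hbd, hform⟩ := h.exists_rows wgt3 hcent
  set o := H26.oneIrr G with ho
  choose a ha using fun χ => (show (3 : ℤ) ∣ c χ (1, 0) - c χ (1, 1) by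
    have := h3 χ (1, 0); have := h3 χ (1, 1); omega)
  choose b hb using fun χ => (show (3 : ℤ) ∣ c χ (0, 1) - c χ (1, 1) by
    have := h3 χ (0, 1); have := h3 χ (1, 1); omega)
  set z := fun χ => c χ (1, 1) with hzdef
  have hx : ∀ χ, c χ (1, 0) = z χ + 3 * a χ := fun χ => by have := ha χ; simp only [z]; omega
  have hy : ∀ χ, c χ (0, 1) = z χ + 3 * b χ := fun χ => by have := hb χ; simp only [z]; omega
  have ha0 : a o = 0 := by have := ha o; rw [hc1, hc1] at this; omega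
  have hb0 : b o = 0 := by have := hb o; rw [hc1, hc1] at this; omega
  have hres : ∀ χ, (9 : ℤ) ∣ c χ 0 - (z χ + 3 * a χ + 3 * b χ) := by
    intro χ
    have e : ∑ u, c χ u = c χ 0 + 2 * c χ (1, 0) + 2 * c χ (0, 1) + 4 * c χ (1, 1) := by
      rw [sum_V2, show ((0 : ZMod 3), (0 : ZMod 3)) = (0 : V2) from rfl,
        ← hR χ (0, 1) (0, 2) (by decide) (by decide), ← hR χ (1, 0) (2, 0) (by decide) (by decide),
        ← hR χ (1, 1) (1, 2) (by decide) (by decide), ← hR χ (1, 1) (2, 1) (by decide) (by decide),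
        ← hR χ (1, 1) (2, 2) (by decide) (by decide)]
      ring
    have := h9 χ
    rw [e, hx, hy] at this
    simp only [z] at this ⊢
    omega
  -- second moments
  have oxx : ∑ χ, c χ (1, 0) * c χ (1, 0) = 18 := by rw [horth _ _ (by decide) (by decide), if_pos (by decide)]; rfl
  have oyy : ∑ χ, c χ (0, 1) * c χ (0, 1) = 18 := by rw [horth _ _ (by decide) (by decide), if_pos (by decide)]; rfl
  have ozz : ∑ χ, z χ * z χ = 9 := by rw [horth _ _ (by decide) (by decide), if_pos (by decide)]; rfl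
  have oxy : ∑ χ, c χ (1, 0) * c χ (0, 1) = 0 := by rw [horth _ _ (by decide) (by decide), if_neg (by decide)]
  have oxz : ∑ χ, c χ (1, 0) * z χ = 0 := by rw [horth _ _ (by decide) (by decide), if_neg (by decide)]
  have oyz : ∑ χ, c χ (0, 1) * z χ = 0 := by rw [horth _ _ (by decide) (by decide), if_neg (by decide)]
  simp only [hx, hy] at oxx oyy oxy oxz oyz
  simp only [add_mul, mul_add, Finset.sum_add_distrib] at oxx oyy oxy oxz oyz
  have eaz : ∑ χ, a χ * z χ = -3 := by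
    have : ∑ χ, 3 * a χ * z χ = 3 * ∑ χ, a χ * z χ := by simp only [Finset.mul_sum, mul_assoc]
    linarith
  have ebz : ∑ χ, b χ * z χ = -3 := by
    have : ∑ χ, 3 * b χ * z χ = 3 * ∑ χ, b χ * z χ := by simp only [Finset.mul_sum, mul_assoc]
    linarith
  have eaa : ∑ χ, a χ * a χ = 3 := by
    have h1 : ∑ χ, 3 * a χ * (3 * a χ) = 9 * ∑ χ, a χ * a χ := by
      rw [Finset.mul_sum]; exact Finset.sum_congr rfl fun χ _ => by ring
    have h2 : ∑ χ, 3 * a χ * z χ = 3 * ∑ χ, a χ * z χ := by simp only [Finset.mul_sum, mul_assoc]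
    have h4 : ∑ χ, z χ * (3 * a χ) = 3 * ∑ χ, a χ * z χ := by
      rw [Finset.mul_sum]; exact Finset.sum_congr rfl fun χ _ => by ring
    linarith
  have ebb : ∑ χ, b χ * b χ = 3 := by
    have h1 : ∑ χ, 3 * b χ * (3 * b χ) = 9 * ∑ χ, b χ * b χ := by
      rw [Finset.mul_sum]; exact Finset.sum_congr rfl fun χ _ => by ring
    have h2 : ∑ χ, 3 * b χ * z χ = 3 * ∑ χ, b χ * z χ := by simp only [Finset.mul_sum, mul_assoc]
    have h4 : ∑ χ, z χ * (3 * b χ) = 3 * ∑ χ, b χ * z χ := by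
      rw [Finset.mul_sum]; exact Finset.sum_congr rfl fun χ _ => by ring
    linarith
  have eab : ∑ χ, a χ * b χ = 1 := by
    have h1 : ∑ χ, 3 * a χ * (3 * b χ) = 9 * ∑ χ, a χ * b χ := by
      rw [Finset.mul_sum]; exact Finset.sum_congr rfl fun χ _ => by ring
    have h2 : ∑ χ, 3 * a χ * z χ = 3 * ∑ χ, a χ * z χ := by simp only [Finset.mul_sum, mul_assoc]
    have h4 : ∑ χ, z χ * (3 * b χ) = 3 * ∑ χ, b χ * z χ := by
      rw [Finset.mul_sum]; exact Finset.sum_congr rfl fun χ _ => by ring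
    linarith
  have dz : ∑ χ, c χ 0 * z χ = 0 := hdeg _ (by decide)
  have dx : ∑ χ, c χ 0 * c χ (1, 0) = 0 := hdeg _ (by decide)
  have dy : ∑ χ, c χ 0 * c χ (0, 1) = 0 := hdeg _ (by decide)
  simp only [hx, hy, mul_add, Finset.sum_add_distrib] at dx dy
  have eda : ∑ χ, a χ * c χ 0 = 0 := by
    have : ∑ χ, c χ 0 * (3 * a χ) = 3 * ∑ χ, a χ * c χ 0 := by
      rw [Finset.mul_sum]; exact Finset.sum_congr rfl fun χ _ => by ring
    linarith
  have edb : ∑ χ, b χ * c χ 0 = 0 := by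
    have : ∑ χ, c χ 0 * (3 * b χ) = 3 * ∑ χ, b χ * c χ 0 := by
      rw [Finset.mul_sum]; exact Finset.sum_congr rfl fun χ _ => by ring
    linarith
  -- the supports
  have hunit : ∀ (f : Cfsg.IrrCharacter G → ℤ), ∑ χ, f χ * f χ = 3 →
      ∃ p q r, p ≠ q ∧ p ≠ r ∧ q ≠ r ∧ (Finset.univ.filter fun χ => f χ ≠ 0) = {p, q, r} ∧
        ∀ χ, f χ ≠ 0 → f χ = 1 ∨ f χ = -1 := by
    intro f hf
    have h1 : ∀ χ, f χ ≠ 0 → f χ = 1 ∨ f χ = -1 := fun χ hχ => by
      have := (Finset.single_le_sum (fun ψ _ => mul_self_nonneg (f ψ)) (Finset.mem_univ χ)).trans_eq hf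
      have : -2 < f χ ∧ f χ < 2 := ⟨by nlinarith, by nlinarith⟩
      omega
    have hcard : (Finset.univ.filter fun χ => f χ ≠ 0).card = 3 := by
      have e : ∑ χ, f χ * f χ = ∑ χ ∈ Finset.univ.filter (fun χ => f χ ≠ 0), (1 : ℤ) := by
        rw [Finset.sum_filter]
        refine Finset.sum_congr rfl fun χ _ => ?_
        by_cases hχ : f χ = 0
        · simp [hχ]
        · rcases h1 χ hχ with e | e <;> simp [e]
      rw [hf, Finset.sum_const, nsmul_eq_mul, mul_one] at e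
      exact_mod_cast e.symm
    obtain ⟨p, q, r, h2, h3, h4, h5⟩ := Finset.card_eq_three.1 hcard
    exact ⟨p, q, r, h2, h3, h4, h5, h1⟩
  obtain ⟨a1, a2, a3, a12, a13, a23, hAset, ha1⟩ := hunit a eaa
  obtain ⟨b1, b2, b3, b12, b13, b23, hBset, hb1⟩ := hunit b ebb
  have hAsum : ∀ {M : Type} [AddCommMonoid M] (f : Cfsg.IrrCharacter G → M), (∀ χ, a χ = 0 → f χ = 0) →
      ∑ χ, f χ = f a1 + (f a2 + f a3) := by
    intro M _ f hf
    rw [← Finset.sum_subset (Finset.subset_univ (Finset.univ.filter fun χ => a χ ≠ 0)) (fun χ _ hχ => hf χ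
      (by simpa using hχ)), hAset, Finset.sum_insert (by simp [a12, a13]), Finset.sum_pair a23]
  have hBsum : ∀ {M : Type} [AddCommMonoid M] (f : Cfsg.IrrCharacter G → M), (∀ χ, b χ = 0 → f χ = 0) →
      ∑ χ, f χ = f b1 + (f b2 + f b3) := by
    intro M _ f hf
    rw [← Finset.sum_subset (Finset.subset_univ (Finset.univ.filter fun χ => b χ ≠ 0)) (fun χ _ hχ => hf χ
      (by simpa using hχ)), hBset, Finset.sum_insert (by simp [b12, b13]), Finset.sum_pair b23]
  have hAne : ∀ χ, a χ ≠ 0 ↔ χ = a1 ∨ χ = a2 ∨ χ = a3 := fun χ => by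
    have := Finset.ext_iff.1 hAset χ
    simpa using this
  have hBne : ∀ χ, b χ ≠ 0 ↔ χ = b1 ∨ χ = b2 ∨ χ = b3 := fun χ => by
    have := Finset.ext_iff.1 hBset χ
    simpa using this
  -- exactly one common constituent
  obtain ⟨p, hpa, hpb, hponly⟩ : ∃ p, a p ≠ 0 ∧ b p ≠ 0 ∧ ∀ χ, a χ ≠ 0 → b χ ≠ 0 → χ = p := by
    by_contra hcon
    push Not at hcon
    have hab := eab
    rw [hAsum (fun χ => a χ * b χ) fun χ e => by simp [e]] at hab
    have n1 := (hAne a1).2 (Or.inl rfl)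
    have n2 := (hAne a2).2 (Or.inr (Or.inl rfl))
    have n3 := (hAne a3).2 (Or.inr (Or.inr rfl))
    have v1 := ha1 _ n1
    have v2 := ha1 _ n2
    have v3 := ha1 _ n3
    have htwo : ∀ χ, a χ ≠ 0 → b χ ≠ 0 → ∃ ψ, a ψ ≠ 0 ∧ b ψ ≠ 0 ∧ ψ ≠ χ := fun χ h1 h2 => hcon χ h1 h2
    have hall : b a1 ≠ 0 ∧ b a2 ≠ 0 ∧ b a3 ≠ 0 := by
      by_contra hh
      have hone : (b a1 ≠ 0 ∧ b a2 = 0 ∧ b a3 = 0) ∨ (b a1 = 0 ∧ b a2 ≠ 0 ∧ b a3 = 0) ∨
          (b a1 = 0 ∧ b a2 = 0 ∧ b a3 ≠ 0) := by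
        have w1 : b a1 = 0 ∨ b a1 = 1 ∨ b a1 = -1 := (Classical.em _).imp id (hb1 a1)
        have w2 : b a2 = 0 ∨ b a2 = 1 ∨ b a2 = -1 := (Classical.em _).imp id (hb1 a2)
        have w3 : b a3 = 0 ∨ b a3 = 1 ∨ b a3 = -1 := (Classical.em _).imp id (hb1 a3)
        rcases v1 with e1 | e1 <;> rcases v2 with e2 | e2 <;> rcases v3 with e3 | e3 <;>
          rw [e1, e2, e3] at hab <;> omega
      rcases hone with ⟨k1, k2, k3⟩ | ⟨k1, k2, k3⟩ | ⟨k1, k2, k3⟩
      · obtain ⟨ψ, h1, h2, h3⟩ := htwo a1 n1 k1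
        rcases (hAne ψ).1 h1 with rfl | rfl | rfl <;> contradiction
      · obtain ⟨ψ, h1, h2, h3⟩ := htwo a2 n2 k2
        rcases (hAne ψ).1 h1 with rfl | rfl | rfl <;> contradiction
      · obtain ⟨ψ, h1, h2, h3⟩ := htwo a3 n3 k3
        rcases (hAne ψ).1 h1 with rfl | rfl | rfl <;> contradiction
    obtain ⟨k1, k2, k3⟩ := hall
    have hBA : ∀ χ, b χ ≠ 0 → a χ ≠ 0 := by
      intro χ hχ
      have hsub : ({a1, a2, a3} : Finset (Cfsg.IrrCharacter G)) ⊆ Finset.univ.filter fun χ => b χ ≠ 0 := by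
        intro x hx
        simp only [Finset.mem_insert, Finset.mem_singleton] at hx
        rcases hx with rfl | rfl | rfl <;> simp [k1, k2, k3]
      have heq := Finset.eq_of_subset_of_card_le hsub (by
        rw [hBset, Finset.card_eq_three.2 ⟨b1, b2, b3, b12, b13, b23, rfl⟩,
          Finset.card_eq_three.2 ⟨a1, a2, a3, a12, a13, a23, rfl⟩])
      have : χ ∈ ({a1, a2, a3} : Finset (Cfsg.IrrCharacter G)) := by rw [heq]; simp [hχ]
      exact (hAne χ).2 (by simpa using this)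
    have hdA := eda
    have hdB := edb
    rw [hAsum (fun χ => a χ * c χ 0) fun χ e => by simp [e]] at hdA
    rw [hAsum (fun χ => b χ * c χ 0) fun χ e => by simp [not_not.1 (fun hh => hBA χ hh e)]] at hdB
    have d1 := hd a1
    have d2 := hd a2
    have d3 := hd a3
    rcases v1 with e1 | e1 <;> rcases v2 with e2 | e2 <;> rcases v3 with e3 | e3 <;>
      rcases hb1 _ k1 with f1 | f1 <;> rcases hb1 _ k2 with f2 | f2 <;> rcases hb1 _ k3 with f3 | f3 <;>
      rw [e1, e2, e3] at hdA hab <;> rw [f1, f2, f3] at hdB hab <;> omega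
  have hea := ha1 p hpa
  have hab1 : a p * b p = 1 := by
    rw [← eab, Finset.sum_eq_single p]
    · intro χ _ hne
      by_contra hh
      exact hne (hponly χ (left_ne_zero_of_mul hh) (right_ne_zero_of_mul hh))
    · simp
  have hbp : b p = a p := by rcases hea with e | e <;> rw [e] at hab1 ⊢ <;> omega
  -- name the other constituents
  have hsplit : ∀ (f : Cfsg.IrrCharacter G → ℤ) (u1 u2 u3 : Cfsg.IrrCharacter G), u1 ≠ u2 → u1 ≠ u3 → u2 ≠ u3 →
      (Finset.univ.filter fun χ => f χ ≠ 0) = {u1, u2, u3} → f p ≠ 0 →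
      ∃ q r, q ≠ r ∧ q ≠ p ∧ r ≠ p ∧ (Finset.univ.filter fun χ => f χ ≠ 0) = {p, q, r} := by
    intro f u1 u2 u3 h12 h13 h23 hset hp
    have : p = u1 ∨ p = u2 ∨ p = u3 := by simpa using (Finset.ext_iff.1 hset p).1 (by simp [hp])
    rcases this with rfl | rfl | rfl
    · exact ⟨u2, u3, h23, h12.symm, h13.symm, hset⟩
    · exact ⟨u1, u3, h13, h12, h23.symm, by rw [hset, Finset.insert_comm]⟩
    · exact ⟨u1, u2, h12, h13, h23, by rw [hset, Finset.pair_comm u2, Finset.insert_comm]⟩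
  obtain ⟨q, r, hqr, hqp, hrp, hA⟩ := hsplit a a1 a2 a3 a12 a13 a23 hAset hpa
  obtain ⟨s, t, hst, hsp, htp, hB⟩ := hsplit b b1 b2 b3 b12 b13 b23 hBset hpb
  have hmemA : ∀ χ, a χ ≠ 0 ↔ χ = p ∨ χ = q ∨ χ = r := fun χ => by simpa using Finset.ext_iff.1 hA χ
  have hmemB : ∀ χ, b χ ≠ 0 ↔ χ = p ∨ χ = s ∨ χ = t := fun χ => by simpa using Finset.ext_iff.1 hB χ
  have hqb : b q = 0 := by_contra fun hh => hqp (hponly q ((hmemA q).2 (by simp)) hh)
  have hrb : b r = 0 := by_contra fun hh => hrp (hponly r ((hmemA r).2 (by simp)) hh)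
  have hsa : a s = 0 := by_contra fun hh => hsp (hponly s hh ((hmemB s).2 (by simp)))
  have hta : a t = 0 := by_contra fun hh => htp (hponly t hh ((hmemB t).2 (by simp)))
  have vq := ha1 q ((hmemA q).2 (by simp))
  have vr := ha1 r ((hmemA r).2 (by simp))
  have vs := hb1 s ((hmemB s).2 (by simp))
  have vt := hb1 t ((hmemB t).2 (by simp))
  have hA3 : ∀ {M : Type} [AddCommMonoid M] (f : Cfsg.IrrCharacter G → M), (∀ χ, a χ = 0 → f χ = 0) →
      ∑ χ, f χ = f p + (f q + f r) := by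
    intro M _ f hf
    rw [← Finset.sum_subset (Finset.subset_univ (Finset.univ.filter fun χ => a χ ≠ 0)) (fun χ _ hχ => hf χ
      (by simpa using hχ)), hA, Finset.sum_insert (by simp [hqp.symm, hrp.symm]), Finset.sum_pair hqr]
  have hB3 : ∀ {M : Type} [AddCommMonoid M] (f : Cfsg.IrrCharacter G → M), (∀ χ, b χ = 0 → f χ = 0) →
      ∑ χ, f χ = f p + (f s + f t) := by
    intro M _ f hf
    rw [← Finset.sum_subset (Finset.subset_univ (Finset.univ.filter fun χ => b χ ≠ 0)) (fun χ _ hχ => hf χ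
      (by simpa using hχ)), hB, Finset.sum_insert (by simp [hsp.symm, htp.symm]), Finset.sum_pair hst]
  have za := eaz
  rw [hA3 (fun χ => a χ * z χ) fun χ e => by simp [e]] at za
  have zb := ebz
  rw [hB3 (fun χ => b χ * z χ) fun χ e => by simp [e], hbp] at zb
  have da := eda
  rw [hA3 (fun χ => a χ * c χ 0) fun χ e => by simp [e]] at da
  have db := edb
  rw [hB3 (fun χ => b χ * c χ 0) fun χ e => by simp [e], hbp] at db
  -- the squares
  have hne : ∀ χ, a χ ≠ 0 ∨ b χ ≠ 0 → χ ≠ o := by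
    rintro χ (e | e) rfl
    · exact e ha0
    · exact e hb0
  have hpo := hne p (Or.inl hpa)
  have hqo := hne q (Or.inl (by omega))
  have hro := hne r (Or.inl (by omega))
  have hso := hne s (Or.inr (by omega))
  have hto := hne t (Or.inr (by omega))
  have hqs : q ≠ s := fun e => by rw [e] at hqb; omega
  have hqt : q ≠ t := fun e => by rw [e] at hqb; omega
  have hrs : r ≠ s := fun e => by rw [e] at hrb; omega
  have hrt : r ≠ t := fun e => by rw [e] at hrb; omega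
  have hsq : z p * z p + (z q * z q + (z r * z r + (z s * z s + z t * z t))) ≤ 8 := by
    have h1 : ∑ χ ∈ ({o, p, q, r, s, t} : Finset (Cfsg.IrrCharacter G)), z χ * z χ ≤ 9 :=
      (Finset.sum_le_sum_of_subset_of_nonneg (Finset.subset_univ _) fun x _ _ => mul_self_nonneg _).trans_eq ozz
    rw [Finset.sum_insert (by simp [hpo.symm, hqo.symm, hro.symm, hso.symm, hto.symm]),
      Finset.sum_insert (by simp [hqp.symm, hrp.symm, hsp.symm, htp.symm]),
      Finset.sum_insert (by simp [hqr, hqs, hqt]), Finset.sum_insert (by simp [hrs, hrt]),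
      Finset.sum_pair hst, show z o = 1 from hc1 _] at h1
    linarith
  -- the cubic identities
  set g := Nat.card G with hg
  have hgq : (g : ℚ) ≠ 0 := Nat.cast_ne_zero.2 Nat.card_pos.ne'
  obtain ⟨k1, k2, k3, k4, k5, k6, k7⟩ := counts
  have f1 := hform (1, 0) (1, 0) (1, 1) (by decide) (by decide) (by decide) (by decide)
  have f2 := hform (1, 0) (1, 0) (0, 1) (by decide) (by decide) (by decide) (by decide)
  have f3 := hform (0, 1) (0, 1) (1, 1) (by decide) (by decide) (by decide) (by decide)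
  have f4 := hform (0, 1) (0, 1) (1, 0) (by decide) (by decide) (by decide) (by decide)
  have f5 := hform (1, 0) (0, 1) (1, 1) (by decide) (by decide) (by decide) (by decide)
  have f6 := hform (1, 0) (1, 1) (1, 1) (by decide) (by decide) (by decide) (by decide)
  have f7 := hform (0, 1) (1, 1) (1, 1) (by decide) (by decide) (by decide) (by decide)
  rw [k1] at f1; rw [k2] at f2; rw [k3] at f3; rw [k4] at f4; rw [k5] at f5; rw [k6] at f6; rw [k7] at f7
  rw [show wgt3 (1, 0) = 18 by decide, show wgt3 (0, 1) = 18 by decide] at f5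
  rw [show wgt3 (1, 0) = 18 by decide, show wgt3 (1, 1) = 9 by decide] at f6
  rw [show wgt3 (0, 1) = 18 by decide, show wgt3 (1, 1) = 9 by decide] at f7
  simp only [hx, hy, ← hg, show ∀ χ, c χ (1, 1) = z χ from fun _ => rfl] at f1 f2 f3 f4 f5 f6 f7
  norm_num [-Nat.card_eq_fintype_card] at f1 f2 f3 f4 f5 f6 f7
  have z1 := f1.resolve_left Nat.card_pos.ne'
  have z2 := f2.resolve_left Nat.card_pos.ne'
  have z3 := f3.resolve_left Nat.card_pos.ne'
  have z4 := f4.resolve_left Nat.card_pos.ne'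
  let D : Cfsg.IrrCharacter G → ℚ := fun χ => (c χ 0 : ℚ)
  let A := fun χ => (a χ : ℚ)
  let B := fun χ => (b χ : ℚ)
  let Z := fun χ => (z χ : ℚ)
  have eA : ∑ χ, A χ * ((Z χ + 3 * B χ) * (Z χ + 3 * B χ)) / D χ = 0 := by
    have e : ∀ χ, A χ * ((Z χ + 3 * B χ) * (Z χ + 3 * B χ)) / D χ =
        (1 / 3 : ℚ) * ((Z χ + 3 * B χ) * (Z χ + 3 * B χ) * (Z χ + 3 * A χ) / D χ) -
        (1 / 3 : ℚ) * ((Z χ + 3 * B χ) * (Z χ + 3 * B χ) * Z χ / D χ) := fun χ => by ring
    rw [Finset.sum_congr rfl (fun χ _ => e χ), Finset.sum_sub_distrib, ← Finset.mul_sum, ← Finset.mul_sum]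
    simp only [A, B, Z, D]
    rw [z4, z3]; ring
  have eB : ∑ χ, B χ * ((Z χ + 3 * A χ) * (Z χ + 3 * A χ)) / D χ = 0 := by
    have e : ∀ χ, B χ * ((Z χ + 3 * A χ) * (Z χ + 3 * A χ)) / D χ =
        (1 / 3 : ℚ) * ((Z χ + 3 * A χ) * (Z χ + 3 * A χ) * (Z χ + 3 * B χ) / D χ) -
        (1 / 3 : ℚ) * ((Z χ + 3 * A χ) * (Z χ + 3 * A χ) * Z χ / D χ) := fun χ => by ring
    rw [Finset.sum_congr rfl (fun χ _ => e χ), Finset.sum_sub_distrib, ← Finset.mul_sum, ← Finset.mul_sum]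
    simp only [A, B, Z, D]
    rw [z2, z1]; ring
  rw [hA3 (fun χ => A χ * ((Z χ + 3 * B χ) * (Z χ + 3 * B χ)) / D χ) fun χ e => by simp [A, e]] at eA
  rw [hB3 (fun χ => B χ * ((Z χ + 3 * A χ) * (Z χ + 3 * A χ)) / D χ) fun χ e => by simp [B, e]] at eB
  have sA : ∑ χ, A χ * (Z χ * Z χ) / D χ =
      A p * (Z p * Z p) / D p + (A q * (Z q * Z q) / D q + A r * (Z r * Z r) / D r) :=
    hA3 (fun χ => A χ * (Z χ * Z χ) / D χ) fun χ e => by simp [A, e]
  have sB : ∑ χ, B χ * (Z χ * Z χ) / D χ =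
      B p * (Z p * Z p) / D p + (B s * (Z s * Z s) / D s + B t * (Z t * Z t) / D t) :=
    hB3 (fun χ => B χ * (Z χ * Z χ) / D χ) fun χ e => by simp [B, e]
  have sAB : ∑ χ, A χ * B χ * Z χ / D χ = A p * B p * Z p / D p := by
    rw [hA3 (fun χ => A χ * B χ * Z χ / D χ) fun χ e => by simp [A, e]]
    simp [B, hqb, hrb]
  have g5 : (g : ℚ) * (∑ χ, Z χ * Z χ * Z χ / D χ + 3 * ∑ χ, A χ * (Z χ * Z χ) / D χ +
      3 * ∑ χ, B χ * (Z χ * Z χ) / D χ + 9 * ∑ χ, A χ * B χ * Z χ / D χ) = 324 := by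
    simp only [Finset.mul_sum, ← Finset.sum_add_distrib]
    rw [f5]
    simp only [Finset.mul_sum, A, B, Z, D]
    exact Finset.sum_congr rfl fun χ _ => by ring
  have g6 : (g : ℚ) * (∑ χ, Z χ * Z χ * Z χ / D χ + 3 * ∑ χ, A χ * (Z χ * Z χ) / D χ) = 162 := by
    simp only [Finset.mul_sum, ← Finset.sum_add_distrib]
    rw [f6]
    simp only [Finset.mul_sum, A, Z, D]
    exact Finset.sum_congr rfl fun χ _ => by ring
  have g7 : (g : ℚ) * (∑ χ, Z χ * Z χ * Z χ / D χ + 3 * ∑ χ, B χ * (Z χ * Z χ) / D χ) = 162 := by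
    simp only [Finset.mul_sum, ← Finset.sum_add_distrib]
    rw [f7]
    simp only [Finset.mul_sum, B, Z, D]
    exact Finset.sum_congr rfl fun χ _ => by ring
  rw [sA, sB, sAB] at g5
  rw [sA] at g6
  rw [sB] at g7
  generalize ∑ χ, Z χ * Z χ * Z χ / D χ = E at g5 g6 g7
  have hdp := hd p
  have hdq := hd q
  have hdr := hd r
  have hds := hd s
  have hdt := hd t
  have resr := hres r
  have hbp2 := hbd p
  simp only [A, B, Z, D, hqb, hrb, hsa, hta, hbp] at eA eB g5 g6 g7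
  simp only [Int.cast_zero, mul_zero, add_zero, unit_sq hea, unit_sq vq, unit_sq vr, unit_sq vs, unit_sq vt, unit_shift hea,
    unit_lin hea] at eA eB g5 g6 g7
  refine arith (zp := a p * z p) (zq := a q * z q) (zr := a r * z r) (zs := b s * z s) (zt := b t * z t)
    (P := a p * c p 0) (Q := a q * c q 0) (R := a r * c r 0) (S := b s * c s 0) (T := b t * c t 0) (E := E)
    (by linarith) (by linarith) (by linarith) (by linarith) (mul_ne_zero (by omega) (by omega))
    (mul_ne_zero (by omega) (by omega)) (mul_ne_zero (by omega) (by omega)) (mul_ne_zero (by omega) (by omega))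
    (mul_ne_zero (by omega) (by omega)) ?_ ?_ ?_ ?_ ?_ ?_ ?_ ?_
  · simp only [mul_mul_mul_comm _ (z _), unit_cast_sq hea, unit_cast_sq vq, unit_cast_sq vr, unit_cast_sq vs,
      unit_cast_sq vt, one_mul]
    linarith
  · rcases vr with e | e <;> rw [e] at resr ⊢ <;> rw [hrb] at resr <;> omega
  · rw [mul_mul_mul_comm, unit_cast_sq hea, one_mul]; exact hbp2
  all_goals push_cast
  · linarith
  · linarith
  · linarith
  · linarith
  · linarith

end Cfsg.Agent.H29.DihNineVFour
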