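import Mathlib

/-!
No table of integral rows on the three classes of a four-group automizer of an elementary abelian group of
order 9 fits a group of order at least 360.
-/

namespace Cfsg.Agent.H29.NineKleinRows

variable {ι : Type*} [DecidableEq ι]

/-- No entry on a class with centraliser of order 18 is as large as 4 in absolute value. -/
theorem bound_three {S : Finset ι} {a m : ι → ℤ} (haa : ∑ i ∈ S, a i * a i = 17) (hmm : ∑ i ∈ S, m i * m i = 8)
    (ham : ∑ i ∈ S, a i * m i = -1) (h3 : ∀ i ∈ S, (3 : ℤ) ∣ a i - m i) {i : ι} (hi : i ∈ S) :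
    -3 ≤ a i ∧ a i ≤ 3 := by
  have hle : a i * a i ≤ 17 := (Finset.single_le_sum (fun j _ => mul_self_nonneg (a j)) hi).trans_eq haa
  by_contra hne
  have h4 : a i = 4 ∨ a i = -4 := by
    have h1 : -4 ≤ a i := by nlinarith
    have h2 : a i ≤ 4 := by nlinarith
    omega
  have hrest : ∑ j ∈ S.erase i, a j * a j = 1 := by
    rw [Finset.sum_erase_eq_sub hi, haa]
    rcases h4 with h | h <;> rw [h] <;> norm_num
  obtain ⟨j, hj, hj0⟩ := Finset.exists_ne_zero_of_sum_ne_zero (by rw [hrest]; norm_num)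
  have hj1 : a j * a j = 1 := by
    have h1 := (Finset.single_le_sum (fun k _ => mul_self_nonneg (a k)) hj).trans_eq hrest
    have h2 := mul_self_nonneg (a j)
    omega
  have hother : ∀ k ∈ (S.erase i).erase j, a k = 0 ∧ m k = 0 := by
    intro k hk
    have hz : ∑ l ∈ (S.erase i).erase j, a l * a l = 0 := by
      rw [Finset.sum_erase_eq_sub hj, hrest, hj1]; norm_num
    have hak : a k = 0 :=
      mul_self_eq_zero.1 ((Finset.sum_eq_zero_iff_of_nonneg fun l _ => mul_self_nonneg (a l)).1 hz k hk)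
    refine ⟨hak, ?_⟩
    have hkS := Finset.mem_of_mem_erase (Finset.mem_of_mem_erase hk)
    have h2 := (Finset.single_le_sum (fun l _ => mul_self_nonneg (m l)) hkS).trans_eq hmm
    have hd := h3 k hkS
    rw [hak] at hd
    have : -2 ≤ m k ∧ m k ≤ 2 := ⟨by nlinarith, by nlinarith⟩
    omega
  have hjS := Finset.mem_of_mem_erase hj
  have em : ∀ f : ι → ℤ, (∀ k ∈ (S.erase i).erase j, f k = 0) → ∑ l ∈ S, f l = f i + f j := fun f hf => by
    rw [← Finset.add_sum_erase _ _ hi, ← Finset.add_sum_erase _ _ hj, Finset.sum_eq_zero hf, add_zero]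
  rw [em _ fun k hk => by rw [(hother k hk).2, mul_zero]] at hmm
  rw [em _ fun k hk => by rw [(hother k hk).1, zero_mul]] at ham
  have haj : a j = 1 ∨ a j = -1 := by
    rcases mul_self_eq_one_iff.1 hj1 with h | h <;> simp [h]
  have hb1 : -2 ≤ m i ∧ m i ≤ 2 := ⟨by nlinarith, by nlinarith⟩
  have hb2 : -2 ≤ m j ∧ m j ≤ 2 := ⟨by nlinarith, by nlinarith⟩
  obtain ⟨p1, p2⟩ := hb1
  obtain ⟨q1, q2⟩ := hb2
  rcases h4 with h | h <;> rcases haj with h' | h' <;> rw [h, h'] at ham <;>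
    interval_cases (m i) <;> interval_cases (m j) <;> omega

/-- The two normalised non-zero residues. -/
def val (x : Bool) : ℤ := if x then -2 else 1

/-- The sign normalising a row. -/
def sgn (a : ℤ) : ℤ := if a % 3 = 1 then 1 else -1

theorem eq_val {a x : ℤ} (ha : -3 ≤ a ∧ a ≤ 3) (hx : -3 ≤ x ∧ x ≤ 3) (h : ¬ (3 : ℤ) ∣ a) (hax : (3 : ℤ) ∣ a - x) :
    x = sgn a * val (decide (sgn a * x = -2)) := by
  obtain ⟨ha1, ha2⟩ := ha
  obtain ⟨hx1, hx2⟩ := hx
  interval_cases a <;> interval_cases x <;> first | omega | rfl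

/-- The numbers of rows of each shape. -/
theorem counts {n0 n1 n2 n3 n4 n5 n6 n7 za zb zab : ℤ} (h0 : 0 ≤ n0) (h1 : 0 ≤ n1) (h2 : 0 ≤ n2) (h3 : 0 ≤ n3)
    (h4 : 0 ≤ n4) (h5 : 0 ≤ n5) (h6 : 0 ≤ n6) (h7 : 0 ≤ n7) (hza : za = 0 ∨ za = 9) (hzb : zb = 0 ∨ zb = 9)
    (hzab : zab = 0 ∨ (za = 9 ∧ zb = 9 ∧ (zab = 9 ∨ zab = -9)))
    (mm : 8 = n0 + n1 + n2 + n3 + 4*n4 + 4*n5 + 4*n6 + 4*n7)
    (am : -1 = n0 - 2*n1 + n2 - 2*n3 - 2*n4 + 4*n5 - 2*n6 + 4*n7)
    (bm : -1 = n0 + n1 - 2*n2 - 2*n3 - 2*n4 - 2*n5 + 4*n6 + 4*n7)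
    (aa : 17 = za + n0 + 4*n1 + n2 + 4*n3 + n4 + 4*n5 + n6 + 4*n7)
    (bb : 17 = zb + n0 + n1 + 4*n2 + 4*n3 + n4 + n5 + 4*n6 + 4*n7)
    (ab : -1 = zab + n0 - 2*n1 - 2*n2 + 4*n3 + n4 - 2*n5 - 2*n6 + 4*n7) :
    (zab ≠ 0 ∧ n1 = 0 ∧ n2 = 0 ∧ n5 = 0 ∧ n6 = 0 ∧ zab = -9) ∨
    (zab = 0 ∧ ((n0 = 3 ∧ n1 = 2 ∧ n2 = 2 ∧ n3 = 1 ∧ n4 = 0 ∧ n5 = 0 ∧ n6 = 0 ∧ n7 = 0) ∨
      (n0 = 2 ∧ n1 = 1 ∧ n2 = 1 ∧ n3 = 0 ∧ n4 = 1 ∧ n5 = 0 ∧ n6 = 0 ∧ n7 = 0) ∨
      (n0 = 1 ∧ n1 = 0 ∧ n2 = 2 ∧ n3 = 1 ∧ n4 = 0 ∧ n5 = 0 ∧ n6 = 1 ∧ n7 = 0) ∨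
      (n0 = 1 ∧ n1 = 2 ∧ n2 = 0 ∧ n3 = 1 ∧ n4 = 0 ∧ n5 = 1 ∧ n6 = 0 ∧ n7 = 0))) := by
  have b4 : n4 ≤ 2 := by omega
  have b5 : n5 ≤ 2 - n4 := by omega
  have b6 : n6 ≤ 2 - n4 - n5 := by omega
  have b7 : n7 ≤ 2 - n4 - n5 - n6 := by omega
  rcases hzab with rfl | ⟨rfl, rfl, rfl | rfl⟩
  · right
    refine ⟨rfl, ?_⟩
    rcases hza with rfl | rfl <;> rcases hzb with rfl | rfl <;> interval_cases n4 <;> interval_cases n5 <;>
      interval_cases n6 <;> interval_cases n7 <;>
      first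
      | (exfalso; omega)
      | (left; omega)
      | (right; left; omega)
      | (right; right; left; omega)
      | (right; right; right; omega)
  · exfalso; omega
  · left; omega

theorem false_of_rows (S : Finset ι) (a b m d : ι → ℤ) (g : ℕ) (hg : 360 ≤ g)
    (haa : ∑ i ∈ S, a i * a i = 17) (hbb : ∑ i ∈ S, b i * b i = 17) (hmm : ∑ i ∈ S, m i * m i = 8)
    (hab : ∑ i ∈ S, a i * b i = -1) (ham : ∑ i ∈ S, a i * m i = -1) (hbm : ∑ i ∈ S, b i * m i = -1)
    (h3b : ∀ i ∈ S, (3 : ℤ) ∣ a i - b i) (h3m : ∀ i ∈ S, (3 : ℤ) ∣ a i - m i)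
    (h9 : ∀ i ∈ S, (9 : ℤ) ∣ d i + 2 * a i + 2 * b i + 4 * m i) (hd : ∀ i ∈ S, 0 < d i)
    (hd2 : ∀ i ∈ S, d i * d i ≤ g) (hdab : ∑ i ∈ S, d i * (a i - b i) = 0)
    (haab : 1 + ∑ i ∈ S, (a i * a i * b i : ℚ) / d i = 0)
    (hbba : 1 + ∑ i ∈ S, (b i * b i * a i : ℚ) / d i = 0)
    (haam : 1 + ∑ i ∈ S, (a i * a i * m i : ℚ) / d i = 0)
    (hbbm : 1 + ∑ i ∈ S, (b i * b i * m i : ℚ) / d i = 0)
    (habm : (g : ℚ) * (1 + ∑ i ∈ S, (a i * b i * m i : ℚ) / d i) = 324) : False := by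
  classical
  have hbA := fun i (hi : i ∈ S) => bound_three haa hmm ham h3m hi
  have hbB := fun i (hi : i ∈ S) => bound_three hbb hmm hbm
    (fun j hj => by have := h3b j hj; have := h3m j hj; omega) hi
  have hbM : ∀ i ∈ S, -2 ≤ m i ∧ m i ≤ 2 := fun i hi => by
    have h := (Finset.single_le_sum (fun j _ => mul_self_nonneg (m j)) hi).trans_eq hmm
    exact ⟨by nlinarith, by nlinarith⟩
  set Z := S.filter fun i => (3 : ℤ) ∣ a i with hZ
  set U := S.filter fun i => ¬ (3 : ℤ) ∣ a i with hU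
  let τ : ι → Bool × Bool × Bool := fun i =>
    (decide (sgn (a i) * a i = -2), decide (sgn (a i) * b i = -2), decide (sgn (a i) * m i = -2))
  let W : Bool × Bool × Bool → Finset ι := fun t => U.filter fun i => τ i = t
  have hrow : ∀ t, ∀ i ∈ W t, i ∈ S ∧ a i = sgn (a i) * val t.1 ∧ b i = sgn (a i) * val t.2.1 ∧
      m i = sgn (a i) * val t.2.2 := by
    intro t i hi
    obtain ⟨hiU, rfl⟩ := Finset.mem_filter.1 hi
    obtain ⟨hiS, h3⟩ := Finset.mem_filter.1 hiU
    have hm' := hbM i hiS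
    exact ⟨hiS, eq_val (hbA i hiS) (hbA i hiS) h3 (by simp),
      eq_val (hbA i hiS) (hbB i hiS) h3 (h3b i hiS),
      eq_val (hbA i hiS) ⟨by omega, by omega⟩ h3 (h3m i hiS)⟩
  have hzero : ∀ i ∈ Z, m i = 0 ∧ (a i = 0 ∨ a i = 3 ∨ a i = -3) ∧ (b i = 0 ∨ b i = 3 ∨ b i = -3) := by
    intro i hi
    obtain ⟨hiS, h3⟩ := Finset.mem_filter.1 hi
    have := hbA i hiS; have := hbB i hiS; have := hbM i hiS; have := h3b i hiS; have := h3m i hiS
    omega
  have hsgn : ∀ x : ℤ, sgn x * sgn x = 1 := fun x => by simp only [sgn]; split_ifs <;> norm_num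
  have hsgnq : ∀ x : ℤ, (sgn x : ℚ) * sgn x = 1 := fun x => by exact_mod_cast hsgn x
  have hsumI : ∀ f : ι → ℤ, ∑ i ∈ S, f i = ∑ i ∈ Z, f i + ∑ t, ∑ i ∈ W t, f i := fun f => by
    rw [← Finset.sum_filter_add_sum_filter_not S (fun i => (3 : ℤ) ∣ a i), ← Finset.sum_fiberwise U τ]
  have hsumQ : ∀ f : ι → ℚ, ∑ i ∈ S, f i = ∑ i ∈ Z, f i + ∑ t, ∑ i ∈ W t, f i := fun f => by
    rw [← Finset.sum_filter_add_sum_filter_not S (fun i => (3 : ℤ) ∣ a i), ← Finset.sum_fiberwise U τ]
  set n : Bool × Bool × Bool → ℤ := fun t => ((W t).card : ℤ) with hn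
  have hn0 : ∀ t, 0 ≤ n t := fun t => Int.natCast_nonneg _
  -- the quadratic equations
  have hquad : ∀ (p q : ι → ℤ) (k : Bool × Bool × Bool → ℤ),
      (∀ t, ∀ i ∈ W t, p i * q i = k t) → ∑ i ∈ S, p i * q i = ∑ i ∈ Z, p i * q i + ∑ t, n t * k t := by
    intro p q k hk
    rw [hsumI]
    congr 1
    refine Finset.sum_congr rfl fun t _ => ?_
    rw [Finset.sum_congr rfl (hk t), Finset.sum_const, nsmul_eq_mul]
  have qmm := hquad m m (fun t => val t.2.2 * val t.2.2) fun t i hi => by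
    rw [(hrow t i hi).2.2.2]; linear_combination val t.2.2 * val t.2.2 * hsgn (a i)
  have qam := hquad a m (fun t => val t.1 * val t.2.2) fun t i hi => by
    rw [(hrow t i hi).2.2.2]
    linear_combination sgn (a i) * val t.2.2 * (hrow t i hi).2.1 + val t.1 * val t.2.2 * hsgn (a i)
  have qbm := hquad b m (fun t => val t.2.1 * val t.2.2) fun t i hi => by
    rw [(hrow t i hi).2.2.1, (hrow t i hi).2.2.2]; linear_combination val t.2.1 * val t.2.2 * hsgn (a i)
  have qaa := hquad a a (fun t => val t.1 * val t.1) fun t i hi => by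
    linear_combination (a i + sgn (a i) * val t.1) * (hrow t i hi).2.1 + val t.1 * val t.1 * hsgn (a i)
  have qbb := hquad b b (fun t => val t.2.1 * val t.2.1) fun t i hi => by
    rw [(hrow t i hi).2.2.1]; linear_combination val t.2.1 * val t.2.1 * hsgn (a i)
  have qab := hquad a b (fun t => val t.1 * val t.2.1) fun t i hi => by
    rw [(hrow t i hi).2.2.1]
    linear_combination sgn (a i) * val t.2.1 * (hrow t i hi).2.1 + val t.1 * val t.2.1 * hsgn (a i)
  rw [Finset.sum_eq_zero (s := Z) (fun i hi => by rw [(hzero i hi).1, mul_zero]), hmm] at qmm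
  rw [Finset.sum_eq_zero (s := Z) (fun i hi => by rw [(hzero i hi).1, mul_zero]), ham] at qam
  rw [Finset.sum_eq_zero (s := Z) (fun i hi => by rw [(hzero i hi).1, mul_zero]), hbm] at qbm
  rw [haa] at qaa; rw [hbb] at qbb; rw [hab] at qab
  simp only [Fintype.sum_prod_type, Fintype.sum_bool, val, if_true, if_false, Bool.false_eq_true,
    mul_one, one_mul] at qmm qam qbm qaa qbb qab
  have t0 := hn0 (false, false, false); have t1 := hn0 (true, false, false); have t2 := hn0 (false, true, false)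
  have t3 := hn0 (true, true, false); have t4 := hn0 (false, false, true); have t5 := hn0 (true, false, true)
  have t6 := hn0 (false, true, true); have t7 := hn0 (true, true, true)
  by_cases hdiag : ∃ i ∈ Z, a i ≠ 0 ∧ b i ≠ 0
  · obtain ⟨i, hi, hai, hbi⟩ := hdiag
    obtain ⟨hmi, hA, hB⟩ := hzero i hi
    have hAA : a i * a i = 9 := by rcases hA with h | h | h <;> first | exact absurd h hai | rw [h]; norm_num
    have hBB : b i * b i = 9 := by rcases hB with h | h | h <;> first | exact absurd h hbi | rw [h]; norm_num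
    have honly : ∀ p : ι → ℤ, (∀ j ∈ Z, p j = 0 ∨ p j = 3 ∨ p j = -3) → p i * p i = 9 →
        ∑ j ∈ Z, p j * p j ≤ 17 → ∀ j ∈ Z, j ≠ i → p j = 0 := by
      intro p hp hpi hle j hj hji
      have h2 := Finset.sum_le_sum_of_subset_of_nonneg (s := {i, j}) (t := Z)
        (by simp [Finset.insert_subset_iff, hi, hj]) (fun k _ _ => mul_self_nonneg (p k))
      rw [Finset.sum_pair (Ne.symm hji)] at h2
      rcases hp j hj with h | h | h
      · exact h
      all_goals rw [h] at h2; omega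
    have hle : ∀ p : ι → ℤ, ∑ j ∈ S, p j * p j = 17 → ∑ j ∈ Z, p j * p j ≤ 17 := fun p hp =>
      hp ▸ Finset.sum_le_sum_of_subset_of_nonneg (Finset.filter_subset _ _) (fun k _ _ => mul_self_nonneg (p k))
    have za := honly a (fun j hj => (hzero j hj).2.1) hAA (hle a haa)
    have zb := honly b (fun j hj => (hzero j hj).2.2) hBB (hle b hbb)
    rw [Finset.sum_eq_single i (fun j hj hji => by rw [za j hj hji, mul_zero]) (fun h => absurd hi h), hAA] at qaa
    rw [Finset.sum_eq_single i (fun j hj hji => by rw [zb j hj hji, mul_zero]) (fun h => absurd hi h), hBB] at qbb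
    rw [Finset.sum_eq_single i (fun j hj hji => by rw [za j hj hji, zero_mul]) (fun h => absurd hi h)] at qab
    have hABv : a i * b i = 9 ∨ a i * b i = -9 := by
      rcases hA with h | h | h <;> rcases hB with h' | h' | h' <;>
        first | exact absurd h hai | exact absurd h' hbi | (rw [h, h']; norm_num)
    -- no row outside `Z` distinguishes the two axis classes
    have hmix : ∀ t : Bool × Bool × Bool, t.1 ≠ t.2.1 → W t = ∅ := by
      have hz : n (true, false, false) = 0 ∧ n (false, true, false) = 0 ∧ n (true, false, true) = 0 ∧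
          n (false, true, true) = 0 ∧ a i * b i = -9 := by
        rcases counts (zab := a i * b i) t0 t1 t2 t3 t4 t5 t6 t7 (Or.inr rfl) (Or.inr rfl)
          (Or.inr ⟨rfl, rfl, hABv⟩) (by linear_combination qmm) (by linear_combination qam)
          (by linear_combination qbm) (by linear_combination qaa) (by linear_combination qbb)
          (by linear_combination qab) with ⟨-, f1, f2, f5, f6, f⟩ | ⟨f, -⟩
        · exact ⟨f1, f2, f5, f6, f⟩
        · omega
      rintro ⟨x, y, z⟩ hxy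
      refine Finset.card_eq_zero.1 (Int.ofNat_eq_zero.1 (show n (x, y, z) = 0 from ?_))
      revert hxy
      cases x <;> cases y <;> cases z <;> simp [hz]
    have hne : a i ≠ b i := by
      intro e
      rw [← e, hAA] at hABv qab
      rcases counts (zab := (9 : ℤ)) t0 t1 t2 t3 t4 t5 t6 t7 (Or.inr rfl) (Or.inr rfl)
          (Or.inr ⟨rfl, rfl, Or.inl rfl⟩) (by linear_combination qmm) (by linear_combination qam)
          (by linear_combination qbm) (by linear_combination qaa) (by linear_combination qbb)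
          (by linear_combination qab) with ⟨-, -, -, -, -, f⟩ | ⟨f, -⟩ <;> norm_num at f
    rw [hsumI, Finset.sum_eq_single i (fun j hj hji => by rw [za j hj hji, zb j hj hji]; ring)
      (fun h => absurd hi h)] at hdab
    rw [Finset.sum_eq_zero (s := Finset.univ) (fun t _ => Finset.sum_eq_zero fun j hj => ?_), add_zero,
      mul_eq_zero] at hdab
    · rcases hdab with h | h
      · have := hd i (Finset.mem_filter.1 hi).1; omega
      · omega
    · by_cases ht : t.1 = t.2.1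
      · obtain ⟨-, e1, e2, -⟩ := hrow t j hj
        rw [← ht, ← e1] at e2
        rw [e2, sub_self, mul_zero]
      · rw [hmix t ht] at hj; simp at hj
  push Not at hdiag
  have hZab : ∑ i ∈ Z, a i * b i = 0 := Finset.sum_eq_zero fun i hi => by
    by_cases h : a i = 0
    · rw [h, zero_mul]
    · rw [hdiag i hi h, mul_zero]
  have h9dvd : ∀ p : ι → ℤ, (∀ i ∈ Z, p i = 0 ∨ p i = 3 ∨ p i = -3) → (9 : ℤ) ∣ ∑ i ∈ Z, p i * p i :=
    fun p hp => Finset.dvd_sum fun i hi => by rcases hp i hi with h | h | h <;> rw [h] <;> norm_num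
  have za9 := h9dvd a fun i hi => (hzero i hi).2.1
  have zb9 := h9dvd b fun i hi => (hzero i hi).2.2
  have za0 : 0 ≤ ∑ i ∈ Z, a i * a i := Finset.sum_nonneg fun i _ => mul_self_nonneg _
  have zb0 : 0 ≤ ∑ i ∈ Z, b i * b i := Finset.sum_nonneg fun i _ => mul_self_nonneg _
  rw [hZab] at qab
  generalize ∑ i ∈ Z, a i * a i = za at *
  generalize ∑ i ∈ Z, b i * b i = zb at *
  have hcases :
      (n (false,false,false) = 3 ∧ n (true,false,false) = 2 ∧ n (false,true,false) = 2 ∧ n (true,true,false) = 1 ∧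
        n (false,false,true) = 0 ∧ n (true,false,true) = 0 ∧ n (false,true,true) = 0 ∧ n (true,true,true) = 0) ∨
      (n (false,false,false) = 2 ∧ n (true,false,false) = 1 ∧ n (false,true,false) = 1 ∧ n (true,true,false) = 0 ∧
        n (false,false,true) = 1 ∧ n (true,false,true) = 0 ∧ n (false,true,true) = 0 ∧ n (true,true,true) = 0) ∨
      (n (false,false,false) = 1 ∧ n (true,false,false) = 0 ∧ n (false,true,false) = 2 ∧ n (true,true,false) = 1 ∧
        n (false,false,true) = 0 ∧ n (true,false,true) = 0 ∧ n (false,true,true) = 1 ∧ n (true,true,true) = 0) ∨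
      (n (false,false,false) = 1 ∧ n (true,false,false) = 2 ∧ n (false,true,false) = 0 ∧ n (true,true,false) = 1 ∧
        n (false,false,true) = 0 ∧ n (true,false,true) = 1 ∧ n (false,true,true) = 0 ∧ n (true,true,true) = 0) := by
    have hza : za = 0 ∨ za = 9 := by omega
    have hzb : zb = 0 ∨ zb = 9 := by omega
    rcases counts (zab := (0 : ℤ)) t0 t1 t2 t3 t4 t5 t6 t7 hza hzb (Or.inl rfl) (by linear_combination qmm)
      (by linear_combination qam) (by linear_combination qbm) (by linear_combination qaa)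
      (by linear_combination qbb) (by linear_combination qab) with ⟨f, -⟩ | ⟨-, f⟩
    · exact absurd rfl f
    · exact f
  -- the cubic equations
  set u : Bool × Bool × Bool → ℚ := fun t => ∑ i ∈ W t, (sgn (a i) : ℚ) / d i with hu
  have hcub : ∀ (p q r : ι → ℤ) (k : Bool × Bool × Bool → ℤ), (∀ i ∈ Z, p i * q i * r i = 0) →
      (∀ t, ∀ i ∈ W t, p i * q i * r i = sgn (a i) * k t) →
      ∑ i ∈ S, (p i * q i * r i : ℚ) / d i = ∑ t, (k t : ℚ) * u t := by
    intro p q r k hz hk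
    rw [hsumQ, Finset.sum_eq_zero (fun i hi => by
      rw [← Int.cast_mul, ← Int.cast_mul, hz i hi, Int.cast_zero, zero_div]), zero_add]
    refine Finset.sum_congr rfl fun t _ => ?_
    rw [hu, Finset.mul_sum]
    refine Finset.sum_congr rfl fun i hi => ?_
    rw [← Int.cast_mul, ← Int.cast_mul, hk t i hi, Int.cast_mul]
    ring
  have c1 := hcub a a b (fun t => val t.1 * val t.1 * val t.2.1)
    (fun i hi => by
      by_cases h : a i = 0
      · rw [h]; ring
      · rw [hdiag i hi h]; ring)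
    (fun t i hi => by
      obtain ⟨-, e1, e2, -⟩ := hrow t i hi
      rw [e2]
      have := hsgn (a i)
      linear_combination (sgn (a i) * val t.2.1) * (a i + sgn (a i) * val t.1) * e1 +
        sgn (a i) * val t.2.1 * val t.1 * val t.1 * this)
  have c2 := hcub b b a (fun t => val t.2.1 * val t.2.1 * val t.1)
    (fun i hi => by
      by_cases h : a i = 0
      · rw [h]; ring
      · rw [hdiag i hi h]; ring)
    (fun t i hi => by
      obtain ⟨-, e1, e2, -⟩ := hrow t i hi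
      have := hsgn (a i)
      rw [e2]
      linear_combination (sgn (a i) * val t.2.1) ^ 2 * e1 +
        sgn (a i) * val t.2.1 * val t.2.1 * val t.1 * this)
  have c3 := hcub a a m (fun t => val t.1 * val t.1 * val t.2.2)
    (fun i hi => by rw [(hzero i hi).1]; ring)
    (fun t i hi => by
      obtain ⟨-, e1, -, e3⟩ := hrow t i hi
      have := hsgn (a i)
      rw [e3]
      linear_combination (sgn (a i) * val t.2.2) * (a i + sgn (a i) * val t.1) * e1 +
        sgn (a i) * val t.2.2 * val t.1 * val t.1 * this)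
  have c4 := hcub b b m (fun t => val t.2.1 * val t.2.1 * val t.2.2)
    (fun i hi => by rw [(hzero i hi).1]; ring)
    (fun t i hi => by
      obtain ⟨-, -, e2, e3⟩ := hrow t i hi
      have := hsgn (a i)
      rw [e2, e3]
      linear_combination sgn (a i) * val t.2.1 * val t.2.1 * val t.2.2 * this)
  have c5 := hcub a b m (fun t => val t.1 * val t.2.1 * val t.2.2)
    (fun i hi => by rw [(hzero i hi).1]; ring)
    (fun t i hi => by
      obtain ⟨-, e1, e2, e3⟩ := hrow t i hi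
      have := hsgn (a i)
      rw [e2, e3]
      linear_combination (sgn (a i) * val t.2.1) * (sgn (a i) * val t.2.2) * e1 +
        sgn (a i) * val t.1 * val t.2.1 * val t.2.2 * this)
  rw [c1] at haab; rw [c2] at hbba; rw [c3] at haam; rw [c4] at hbbm; rw [c5] at habm
  simp only [Fintype.sum_prod_type, Fintype.sum_bool, val, if_true, if_false, Bool.false_eq_true,
    mul_one, one_mul, Int.cast_mul, Int.cast_neg, Int.cast_ofNat, Int.cast_one] at haab hbba haam hbbm habm
  have hu0 : ∀ t, n t = 0 → u t = 0 := fun t h => by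
    have : W t = ∅ := Finset.card_eq_zero.1 (Int.ofNat_eq_zero.1 h)
    simp [hu, this]
  have hu1 : ∀ t, n t = 1 → ∃ i ∈ W t, u t = (sgn (a i) : ℚ) / d i ∧ u t ≠ 0 := fun t h => by
    obtain ⟨i, hi⟩ := Finset.card_eq_one.1 (show (W t).card = 1 by
      have h' : ((W t).card : ℤ) = 1 := h
      exact_mod_cast h')
    have hmem : i ∈ W t := by rw [hi]; exact Finset.mem_singleton_self _
    have e : u t = (sgn (a i) : ℚ) / d i := by simp [hu, hi]
    refine ⟨i, hmem, e, ?_⟩
    rw [e]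
    have hd0 : (0 : ℚ) < d i := by exact_mod_cast hd i (hrow t i hmem).1
    exact div_ne_zero (fun h0 => by have := hsgnq (a i); rw [h0, zero_mul] at this; norm_num at this) hd0.ne'
  rcases hcases with ⟨-, -, -, e3, e4, e5, e6, e7⟩ | ⟨-, e1, e2, e3, e4, e5, e6, e7⟩ |
    ⟨-, e1, -, -, e4, e5, e6, e7⟩ | ⟨-, -, e2, -, e4, e5, e6, e7⟩
  · obtain ⟨i, hi, ei, hne⟩ := hu1 _ e3
    rw [hu0 _ e4, hu0 _ e5, hu0 _ e6, hu0 _ e7] at haab hbba haam hbbm habm
    have key : (g : ℚ) * u (true, true, false) = 9 := by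
      linear_combination (1 / 36 : ℚ) * habm - (g : ℚ) / 24 * haab - (g : ℚ) / 24 * hbba +
        (g : ℚ) / 36 * haam + (g : ℚ) / 36 * hbbm
    have hdi : (0 : ℚ) < d i := by exact_mod_cast hd i (hrow _ i hi).1
    have hsq : (d i : ℚ) * d i ≤ g := by exact_mod_cast hd2 i (hrow _ i hi).1
    rw [ei, mul_div_assoc', div_eq_iff hdi.ne'] at key
    have hg' : (360 : ℚ) ≤ g := by exact_mod_cast hg
    have e2 : (g : ℚ) * g = 81 * ((d i : ℚ) * d i) := by
      calc (g : ℚ) * g = ((g : ℚ) * g) * ((sgn (a i) : ℚ) * sgn (a i)) := by rw [hsgnq]; ring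
        _ = ((g : ℚ) * sgn (a i)) * ((g : ℚ) * sgn (a i)) := by ring
        _ = _ := by rw [key]; ring
    nlinarith
  · obtain ⟨i, hi, ei, hne⟩ := hu1 _ e2
    obtain ⟨j, hj, ej, -⟩ := hu1 _ e4
    rw [hu0 _ e3, hu0 _ e5, hu0 _ e6, hu0 _ e7] at haab hbba haam hbbm habm
    have key : u (false, true, false) = u (false, false, true) := by
      linear_combination (1 / 3 : ℚ) * haam + (-1 / 3 : ℚ) * haab
    rw [ei, ej] at key
    obtain ⟨hiS, f1, f2, f3⟩ := hrow _ i hi
    obtain ⟨hjS, k1, k2, k3⟩ := hrow _ j hj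
    have hdi : (0 : ℚ) < d i := by exact_mod_cast hd i hiS
    have hdj : (0 : ℚ) < d j := by exact_mod_cast hd j hjS
    rw [div_eq_div_iff hdi.ne' hdj.ne'] at key
    have key' : sgn (a i) * d j = sgn (a j) * d i := by exact_mod_cast key
    have c9 := h9 i hiS
    have c9' := h9 j hjS
    have hi' : sgn (a i) = 1 ∨ sgn (a i) = -1 := by simp only [sgn]; split_ifs <;> simp
    have hj' : sgn (a j) = 1 ∨ sgn (a j) = -1 := by simp only [sgn]; split_ifs <;> simp
    have := hd i hiS; have := hd j hjS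
    simp only [val, if_true, if_false, Bool.false_eq_true] at f1 f2 f3 k1 k2 k3
    rcases hi' with s | s <;> rcases hj' with s' | s' <;> rw [s] at f1 f2 f3 key' <;>
      rw [s'] at k1 k2 k3 key' <;> omega
  · obtain ⟨i, -, -, hne⟩ := hu1 _ e6
    rw [hu0 _ e1, hu0 _ e4, hu0 _ e5, hu0 _ e7] at haab hbba haam hbbm habm
    exact hne (by linear_combination (1 / 18 : ℚ) * hbba - (1 / 18 : ℚ) * haab - (1 / 9 : ℚ) * hbbm +
      (1 / 9 : ℚ) * haam)
  · obtain ⟨i, -, -, hne⟩ := hu1 _ e5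
    rw [hu0 _ e2, hu0 _ e4, hu0 _ e6, hu0 _ e7] at haab hbba haam hbbm habm
    exact hne (by linear_combination (1 / 18 : ℚ) * haab - (1 / 18 : ℚ) * hbba - (1 / 9 : ℚ) * haam +
      (1 / 9 : ℚ) * hbbm)

end Cfsg.Agent.H29.NineKleinRows
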