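import Cfsg.Agent.H29.NineAutomizer
import Cfsg.Agent.H29.NineKleinRows
import Mathlib.GroupTheory.SpecificGroups.KleinFour

/-!
A self-centralising Sylow 3-subgroup of order 9 with four-group automizer and centralisers inside its normaliser
is normal.
-/

namespace Cfsg.Agent.H29.NineKlein

open NineCharBound

/-- Three classes: the same coordinates vanish. -/
def RThree (u u' : V2) : Prop := u ≠ 0 ∧ u' ≠ 0 ∧ (u.1 = 0 ↔ u'.1 = 0) ∧ (u.2 = 0 ↔ u'.2 = 0)

instance : DecidableRel RThree := fun u u' => by unfold RThree; infer_instance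

/-- The centraliser orders. -/
def weight (u : V2) : ℕ := if u.1 = 0 ∨ u.2 = 0 then 18 else 9

theorem card_class : ∀ u : V2, u ≠ 0 → Fintype.card {u' : V2 // RThree u u'} * weight u = 36 := by
  decide +kernel

theorem signs : ∀ u u' : V2, RThree u u' →
    u' = u ∨ u' = (-u.1, u.2) ∨ u' = (u.1, -u.2) ∨ u' = -u := by decide +kernel

variable {G : Type*} [Group G] [Finite G]

/-- The conjugates in `T` are counted by the normaliser and the centraliser. -/
theorem card_conjugates_mul {T : Subgroup G} (hTI : H56.IsTIThree T) {t : G} (ht : t ∈ T) (ht1 : t ≠ 1) :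
    Nat.card {x : G // x ∈ T ∧ IsConj t x} * Nat.card (Subgroup.centralizer ({t} : Set G)) =
      Nat.card (Subgroup.normalizer (T : Set G)) := by
  set N := Subgroup.normalizer (T : Set G) with hN
  letI : MulAction N G := MulAction.compHom G (MulAut.conj.comp N.subtype)
  have hsmul : ∀ (y : N) (x : G), y • x = (y : G) * x * (y : G)⁻¹ := fun y x => rfl
  have horb : MulAction.orbit N t = {x : G | x ∈ T ∧ IsConj t x} := by
    ext x
    constructor
    · rintro ⟨y, rfl⟩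
      rw [Set.mem_setOf_eq]
      exact ⟨(Subgroup.mem_normalizer_iff.1 y.2 t).1 ht, isConj_iff.2 ⟨y, rfl⟩⟩
    · rintro ⟨hx, hc⟩
      obtain ⟨y, hy⟩ := isConj_iff.1 hc
      exact ⟨⟨y, hTI.ti ht ht1 (hy ▸ hx)⟩, hy⟩
  have hstab : MulAction.stabilizer N t = (Subgroup.centralizer ({t} : Set G)).subgroupOf N := by
    ext y
    rw [MulAction.mem_stabilizer_iff, hsmul, Subgroup.mem_subgroupOf,
      Subgroup.mem_centralizer_singleton_iff, mul_inv_eq_iff_eq_mul]
  have h1 := MulAction.index_stabilizer N t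
  rw [horb, hstab] at h1
  rw [← Subgroup.card_mul_index ((Subgroup.centralizer ({t} : Set G)).subgroupOf N),
    Nat.card_congr (Subgroup.subgroupOfEquivOfLe (hTI.cent t ht ht1)).toEquiv, h1, ← Nat.card_coe_set_eq,
    mul_comm]
  rfl

theorem normal_of_klein (T : Subgroup G) (hTI : H56.IsTIThree T) (hcard : Nat.card T = 9)
    (hC : Subgroup.centralizer (T : Set G) = T)
    [hn : (T.subgroupOf (Subgroup.normalizer (T : Set G))).Normal]
    (hK : IsKleinFour (↥(Subgroup.normalizer (T : Set G)) ⧸ T.subgroupOf (Subgroup.normalizer (T : Set G)))) :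
    Subgroup.normalizer (T : Set G) = ⊤ := by
  classical
  haveI := Fintype.ofFinite G
  set N := Subgroup.normalizer (T : Set G) with hN
  haveI := hK
  have hcardN : Nat.card N = 36 := by
    rw [← Subgroup.card_mul_index (T.subgroupOf N),
      Nat.card_congr (Subgroup.subgroupOfEquivOfLe (show T ≤ N from Subgroup.le_normalizer)).toEquiv, hcard,
      Subgroup.index_eq_card, hK.card_four]
  have hq : ∀ {m n : N}, (m : N ⧸ T.subgroupOf N) = (n : N ⧸ T.subgroupOf N) ↔ (m : G)⁻¹ * (n : G) ∈ T := by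
    intro m n
    rw [QuotientGroup.eq, Subgroup.mem_subgroupOf]
    simp
  have hsq : ∀ {n : G}, n ∈ N → n * n ∈ T := by
    intro n hn'
    have h := IsKleinFour.mul_self ((⟨n, hn'⟩ : N) : N ⧸ T.subgroupOf N)
    rw [← QuotientGroup.mk_mul, QuotientGroup.eq_one_iff, Subgroup.mem_subgroupOf] at h
    simpa using h
  have hCmem : ∀ {c t : G}, c ∈ T → t ∈ T → c * t * c⁻¹ = t := fun hc ht => by
    rw [hTI.comm _ hc _ ht, mul_inv_cancel_right]
  have hTmem : ∀ {x t : G}, x ∈ N → t ∈ T → x * t * x⁻¹ ∈ T := fun hx ht =>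
    (Subgroup.mem_normalizer_iff.1 hx _).1 ht
  have htwo : ∀ {n t : G}, n ∈ N → t ∈ T → n * (n * t * n⁻¹) * n⁻¹ = t := fun {n t} hn' ht => by
    rw [show n * (n * t * n⁻¹) * n⁻¹ = (n * n) * t * (n * n)⁻¹ by group, hCmem (hsq hn') ht]
  have hcommute : ∀ {m n t : G}, m ∈ N → n ∈ N → t ∈ T →
      m * (n * t * n⁻¹) * m⁻¹ = n * (m * t * m⁻¹) * n⁻¹ := by
    intro m n t hm hn' ht
    have h1 := htwo (N.mul_mem hm hn') ht
    have h2 := htwo hn' (hTmem hm (hTmem hn' ht))
    have h3 := htwo hm ht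
    calc m * (n * t * n⁻¹) * m⁻¹ = n * (n * (m * (n * t * n⁻¹) * m⁻¹) * n⁻¹) * n⁻¹ := h2.symm
      _ = n * (m * (m * n * (m * n * t * (m * n)⁻¹) * (m * n)⁻¹) * m⁻¹) * n⁻¹ := by
          congr 2
          conv_lhs => rw [← htwo hm (hTmem hn' (hTmem hm (hTmem hn' ht)))]
          group
      _ = _ := by rw [h1]
  -- two distinct cosets
  obtain ⟨p, q, hp, hq', hpq, hpC, hqC⟩ : ∃ p q : G, p ∈ N ∧ q ∈ N ∧ p⁻¹ * q ∉ T ∧ p ∉ T ∧ q ∉ T := by
    haveI := Fintype.ofFinite (N ⧸ T.subgroupOf N)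
    have h4 : (Finset.univ.erase (1 : N ⧸ T.subgroupOf N)).card = 3 := by
      rw [Finset.card_erase_of_mem (Finset.mem_univ _), Finset.card_univ, ← Nat.card_eq_fintype_card, hK.card_four]
    obtain ⟨P, hP, Q, hQ, hPQ⟩ := Finset.one_lt_card.1 (show 1 < (Finset.univ.erase
      (1 : N ⧸ T.subgroupOf N)).card by rw [h4]; norm_num)
    obtain ⟨p, rfl⟩ := QuotientGroup.mk_surjective P
    obtain ⟨q, rfl⟩ := QuotientGroup.mk_surjective Q
    simp only [Finset.mem_erase, Finset.mem_univ, and_true, ne_eq, QuotientGroup.eq_one_iff,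
      Subgroup.mem_subgroupOf] at hP hQ
    exact ⟨p, q, p.2, q.2, fun h => hPQ (hq.2 h), hP, hQ⟩
  have hsame : ∀ {m n : G}, (∀ t ∈ T, m * t * m⁻¹ = n * t * n⁻¹) → m⁻¹ * n ∈ T := by
    intro m n h
    rw [← hC, Subgroup.mem_centralizer_iff]
    intro t ht
    have h' := h t ht
    calc t * (m⁻¹ * n) = m⁻¹ * (m * t * m⁻¹) * n := by group
      _ = m⁻¹ * (n * t * n⁻¹) * n := by rw [h']
      _ = m⁻¹ * n * t := by group
  obtain ⟨y, hy, hyT, s, hs, hys⟩ : ∃ y : G, y ∈ N ∧ y ∉ T ∧ ∃ s ∈ T, y * s * y⁻¹ ≠ s⁻¹ := by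
    by_contra hno
    push Not at hno
    exact hpq (hsame fun t ht => (hno p hp hpC t ht).trans (hno q hq' hqC t ht).symm)
  -- the fixed and the inverted generator
  set a := s * (y * s * y⁻¹) with ha_def
  have ha : a ∈ T := T.mul_mem hs (hTmem hy hs)
  have ha1 : a ≠ 1 := fun h => hys (eq_inv_of_mul_eq_one_right h)
  have hya : y * a * y⁻¹ = a := by
    rw [ha_def, show y * (s * (y * s * y⁻¹)) * y⁻¹ = y * s * y⁻¹ * (y * (y * s * y⁻¹) * y⁻¹) by group,
      htwo hy hs, hTI.comm _ (hTmem hy hs) _ hs]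
  obtain ⟨r, hr, hyr⟩ : ∃ r ∈ T, y * r * y⁻¹ ≠ r := by
    by_contra hno
    push Not at hno
    exact hyT (by simpa using T.inv_mem (hsame (m := y) (n := 1) fun t ht => by simp [hno t ht]))
  set b := r⁻¹ * (y * r * y⁻¹) with hb_def
  have hb : b ∈ T := T.mul_mem (T.inv_mem hr) (hTmem hy hr)
  have hb1 : b ≠ 1 := fun h => hyr (inv_mul_eq_one.1 h).symm
  have hyb : y * b * y⁻¹ = b⁻¹ := by
    rw [hb_def, show y * (r⁻¹ * (y * r * y⁻¹)) * y⁻¹ = (y * r * y⁻¹)⁻¹ * (y * (y * r * y⁻¹) * y⁻¹) by group,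
      htwo hy hr]
    group
  have hne_inv : ∀ {x : G}, x ∈ T → x = x⁻¹ → x = 1 := fun {x} hx h => by
    have h3 := hTI.exp x hx
    rw [pow_succ, pow_two, show x * x = 1 by nth_rw 2 [h]; exact mul_inv_cancel x, one_mul] at h3
    exact h3
  have hba : b ≠ a := fun h => hb1 (hne_inv hb (by rw [← hyb, h, hya]))
  have hba' : b ≠ a * a := fun h => hb1 (hne_inv hb (by
    rw [← hyb, h, show y * (a * a) * y⁻¹ = y * a * y⁻¹ * (y * a * y⁻¹) by group, hya]))
  obtain ⟨v, hinj, hadd, hmem, hsurj, hva, hvb⟩ := NineAutomizer.exists_coords hTI hcard ha hb ha1 hb1 hba hba'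
  have hv0 : v 0 = 1 := by
    have := hadd 0 0
    rw [add_zero] at this
    exact mul_left_cancel (a := v 0) (by rw [← this, mul_one])
  have hv1 : ∀ u, u ≠ 0 → v u ≠ 1 := fun u hu e => hu (hinj (e.trans hv0.symm))
  have hvneg : ∀ u, v (-u) = (v u)⁻¹ := fun u =>
    eq_inv_of_mul_eq_one_right (by rw [← hadd, add_neg_cancel, hv0])
  -- actions by signs
  have hact : ∀ {g : G} {i j : ZMod 3}, g * v (1, 0) * g⁻¹ = v (i, 0) → g * v (0, 1) * g⁻¹ = v (0, j) →
      ∀ u, g * v u * g⁻¹ = v (u.1 * i, u.2 * j) := by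
    intro g i j h1 h2
    have hsplit : ∀ i : ZMod 3, i = 0 ∨ i = 1 ∨ i = 2 := by decide
    have h10 : ∀ k : ZMod 3, g * v (k, 0) * g⁻¹ = v (k * i, 0) := by
      intro k
      rcases hsplit k with rfl | rfl | rfl
      · rw [zero_mul, show ((0 : ZMod 3), (0 : ZMod 3)) = (0 : V2) from rfl, hv0]; group
      · rw [one_mul, h1]
      · rw [show ((2 : ZMod 3), (0 : ZMod 3)) = (1, 0) + (1, 0) from rfl, hadd,
          show g * (v (1, 0) * v (1, 0)) * g⁻¹ = g * v (1, 0) * g⁻¹ * (g * v (1, 0) * g⁻¹) by group, h1, ← hadd]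
        exact congrArg v (Prod.ext (two_mul i).symm (add_zero _))
    have h01 : ∀ k : ZMod 3, g * v (0, k) * g⁻¹ = v (0, k * j) := by
      intro k
      rcases hsplit k with rfl | rfl | rfl
      · rw [zero_mul, show ((0 : ZMod 3), (0 : ZMod 3)) = (0 : V2) from rfl, hv0]; group
      · rw [one_mul, h2]
      · rw [show ((0 : ZMod 3), (2 : ZMod 3)) = (0, 1) + (0, 1) from rfl, hadd,
          show g * (v (0, 1) * v (0, 1)) * g⁻¹ = g * v (0, 1) * g⁻¹ * (g * v (0, 1) * g⁻¹) by group, h2, ← hadd]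
        exact congrArg v (Prod.ext (add_zero _) (two_mul j).symm)
    rintro ⟨k, l⟩
    rw [show ((k, l) : V2) = (k, 0) + (0, l) from Prod.ext (add_zero k).symm (zero_add l).symm, hadd,
      show g * (v (k, 0) * v (0, l)) * g⁻¹ = g * v (k, 0) * g⁻¹ * (g * v (0, l) * g⁻¹) by group, h10, h01, ← hadd]
    simp
  have hfix_ne : ∀ u : V2, u ≠ 0 → (u.1, -u.2) = u → u = (1, 0) ∨ u = (-1, 0) := by decide +kernel
  have hinv_ne : ∀ u : V2, u ≠ 0 → (u.1, -u.2) = -u → u = (0, 1) ∨ u = (0, -1) := by decide +kernel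
  have hyv : ∀ u, y * v u * y⁻¹ = v (u.1, -u.2) := fun u => by
    rw [hact (i := 1) (j := -1) (by rw [hva, hya]) (by
      rw [hvb, hyb, ← hvb, ← hvneg]; exact congrArg v (Prod.ext neg_zero rfl)) u]
    simp
  have hdiag : ∀ {g : G}, g ∈ N → ∃ i j : ZMod 3, (i = 1 ∨ i = -1) ∧ (j = 1 ∨ j = -1) ∧
      ∀ u, g * v u * g⁻¹ = v (u.1 * i, u.2 * j) := by
    intro g hg
    obtain ⟨w, hw⟩ := hsurj _ (hTmem hg ha)
    obtain ⟨w', hw'⟩ := hsurj _ (hTmem hg hb)
    have hw0 : w ≠ 0 := fun e => by rw [e, hv0] at hw; exact ha1 (by simpa using hw.symm)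
    have hw0' : w' ≠ 0 := fun e => by rw [e, hv0] at hw'; exact hb1 (by simpa using hw'.symm)
    have f1 : (w.1, -w.2) = w := hinj (by rw [← hyv, hw, hcommute hy hg ha, hya])
    have f2 : (w'.1, -w'.2) = -w' := hinj (by
      rw [← hyv, hvneg, hw', hcommute hy hg hb, hyb]; group)
    obtain ⟨i, hi, rfl⟩ : ∃ i : ZMod 3, (i = 1 ∨ i = -1) ∧ w = (i, 0) := by
      rcases hfix_ne w hw0 f1 with rfl | rfl
      · exact ⟨1, Or.inl rfl, rfl⟩
      · exact ⟨-1, Or.inr rfl, rfl⟩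
    obtain ⟨j, hj, rfl⟩ : ∃ j : ZMod 3, (j = 1 ∨ j = -1) ∧ w' = (0, j) := by
      rcases hinv_ne w' hw0' f2 with rfl | rfl
      · exact ⟨1, Or.inl rfl, rfl⟩
      · exact ⟨-1, Or.inr rfl, rfl⟩
    exact ⟨i, j, hi, hj, hact (by rw [hva, hw]) (by rw [hvb, hw'])⟩
  obtain ⟨z, hz, hzv⟩ : ∃ z : G, z ∈ N ∧ ∀ u, z * v u * z⁻¹ = v (-u.1, u.2) := by
    have hone : ∃ g ∈ N, ∃ j : ZMod 3, (j = 1 ∨ j = -1) ∧ ∀ u, g * v u * g⁻¹ = v (-u.1, u.2 * j) := by
      by_contra hno
      push Not at hno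
      have hsame' : ∀ {g : G}, g ∈ N → g ∉ T → ∀ t ∈ T, g * t * g⁻¹ = y * t * y⁻¹ := by
        intro g hg hgT t ht
        obtain ⟨i, j, hi, hj, hgv⟩ := hdiag hg
        obtain ⟨u, rfl⟩ := hsurj t ht
        rcases hi with rfl | rfl
        · rcases hj with rfl | rfl
          · refine absurd (hsame (m := g) (n := 1) fun t ht => ?_) (by simpa using hgT)
            obtain ⟨u, rfl⟩ := hsurj t ht
            rw [hgv]; simp
          · rw [hgv, hyv]; simp
        · obtain ⟨u', hu'⟩ := hno g hg j hj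
          exact absurd (by rw [hgv]; simp) hu'
      exact hpq (hsame fun t ht => (hsame' hp hpC t ht).trans (hsame' hq' hqC t ht).symm)
    obtain ⟨g, hg, j, hj, hgv⟩ := hone
    rcases hj with rfl | rfl
    · exact ⟨g, hg, fun u => by rw [hgv]; simp⟩
    · exact ⟨y * g, N.mul_mem hy hg, fun u => by
        rw [show y * g * v u * (y * g)⁻¹ = y * (g * v u * g⁻¹) * y⁻¹ by group, hgv, hyv]; simp⟩
  have hconj : ∀ u u', u ≠ 0 → (IsConj (v u) (v u') ↔ RThree u u') := by
    intro u u' hu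
    constructor
    · intro hc
      obtain ⟨g, hg⟩ := isConj_iff.1 hc
      obtain ⟨i, j, hi, hj, hgv⟩ := hdiag (hTI.ti (hmem u) (hv1 u hu) (hg ▸ hmem u'))
      rw [hgv] at hg
      obtain rfl := hinj hg
      have : ∀ (u : V2) (i j : ZMod 3), u ≠ 0 → (i = 1 ∨ i = -1) → (j = 1 ∨ j = -1) →
          RThree u (u.1 * i, u.2 * j) := by decide +kernel
      exact this u i j hu hi hj
    · intro hR
      rcases signs u u' hR with rfl | rfl | rfl | rfl
      · exact IsConj.refl _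
      · exact isConj_iff.2 ⟨z, hzv u⟩
      · exact isConj_iff.2 ⟨y, hyv u⟩
      · exact isConj_iff.2 ⟨y * z, by
          rw [show y * z * v u * (y * z)⁻¹ = y * (z * v u * z⁻¹) * y⁻¹ by group, hzv, hyv]; rfl⟩
  have hR : Coords T v RThree := by
    refine ⟨hTI, hinj, hadd, hmem, hsurj, hconj, fun u hu => ⟨hu, neg_ne_zero.2 hu, ?_, ?_⟩⟩ <;> simp
  have hw : ∀ u, u ≠ 0 → Nat.card (Subgroup.centralizer ({v u} : Set G)) = weight u := by
    intro u hu
    have h1 := card_conjugates_mul hTI (hmem u) (hv1 u hu)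
    have h2 : Nat.card {x : G // x ∈ T ∧ IsConj (v u) x} = Fintype.card {u' : V2 // RThree u u'} := by
      rw [← Nat.card_eq_fintype_card]
      refine (Nat.card_congr (Equiv.ofBijective (fun w => ⟨v w.1, hmem _, (hconj u w.1 hu).2 w.2⟩)
        ⟨fun w w' e => Subtype.ext (hinj (congrArg (fun x => (x.1 : G)) e)), ?_⟩)).symm
      rintro ⟨x, hx, hc⟩
      obtain ⟨w, rfl⟩ := hsurj x hx
      exact ⟨⟨w, (hconj u w hu).1 hc⟩, rfl⟩
    rw [h2, ← hN, hcardN, ← card_class u hu] at h1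
    exact Nat.eq_of_mul_eq_mul_left (Fintype.card_pos_iff.2
      ⟨⟨u, hu, hu, Iff.rfl, Iff.rfl⟩⟩) h1
  obtain ⟨c, hc1, hd, hRc, h3, h9, horth, hdeg, hsq2, hform⟩ := hR.exists_rows weight hw
  -- the index
  by_contra hne
  have hidx := hTI.index_modEq
  rw [hcard, ← hN] at hidx
  have hidx1 : N.index ≠ 1 := fun e => hne (Subgroup.index_eq_one.1 e)
  have hidx9 : N.index % 9 = 1 := hidx
  have hG := Subgroup.card_mul_index N
  rw [hcardN] at hG
  set one := H26.oneIrr G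
  have hin : ∀ u u', u ≠ 0 → u' ≠ 0 → ∑ χ ∈ Finset.univ.erase one, c χ u * c χ u' =
      (if RThree u u' then (weight u' : ℤ) else 0) - 1 := fun u u' hu hu' => by
    rw [Finset.sum_erase_eq_sub (Finset.mem_univ _), horth u u' hu hu']; simp [one, hc1]
  have hzero : ∀ u u' u'', u ≠ 0 → u' ≠ 0 → u'' ≠ 0 → ¬ (RThree u u' ∧ RThree u'' (u + u)) →
      Fintype.card {z : V2 // RThree u z ∧ RThree u' (u'' - z)} = 0 →
      1 + ∑ χ ∈ Finset.univ.erase one, ((c χ u : ℚ) * c χ u' * c χ u'') / (c χ 0 : ℚ) = 0 := by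
    intro u u' u'' hu hu' hu'' he hk
    have h := hform u u' u'' hu hu' hu'' he
    rw [hk, Nat.cast_zero, zero_mul, ← Finset.add_sum_erase _ _ (Finset.mem_univ one)] at h
    rcases mul_eq_zero.1 h.symm with h | h
    · exact absurd h (Nat.cast_ne_zero.2 Nat.card_pos.ne')
    · simp only [Int.cast_mul, one, hc1, Int.cast_one, mul_one, div_one] at h
      exact h
  refine NineKleinRows.false_of_rows (Finset.univ.erase one) (fun χ => c χ (1, 0)) (fun χ => c χ (0, 1))
    (fun χ => c χ (1, 1)) (fun χ => c χ 0) (Nat.card G) (by omega) ?_ ?_ ?_ ?_ ?_ ?_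
    (fun χ _ => by have := h3 χ (1, 0); have := h3 χ (0, 1); omega)
    (fun χ _ => by have := h3 χ (1, 0); have := h3 χ (1, 1); omega) ?_ (fun χ _ => hd χ) (fun χ _ => hsq2 χ)
    ?_ (hzero _ _ _ (by decide) (by decide) (by decide) (by decide) (by decide))
    (hzero _ _ _ (by decide) (by decide) (by decide) (by decide) (by decide))
    (hzero _ _ _ (by decide) (by decide) (by decide) (by decide) (by decide))
    (hzero _ _ _ (by decide) (by decide) (by decide) (by decide) (by decide)) ?_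
  any_goals (rw [hin _ _ (by decide) (by decide)]; decide)
  · intro χ _
    have h := h9 χ
    rw [sum_V2, show ((0 : ZMod 3), (0 : ZMod 3)) = (0 : V2) from rfl,
      ← hRc χ (1, 0) (2, 0) (by decide) (by decide), ← hRc χ (0, 1) (0, 2) (by decide) (by decide),
      ← hRc χ (1, 1) (1, 2) (by decide) (by decide), ← hRc χ (1, 1) (2, 1) (by decide) (by decide),
      ← hRc χ (1, 1) (2, 2) (by decide) (by decide)] at h
    omega
  · rw [Finset.sum_congr rfl (fun χ _ => mul_sub (c χ 0) (c χ (1, 0)) (c χ (0, 1))), Finset.sum_sub_distrib,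
      Finset.sum_erase_eq_sub (Finset.mem_univ _), Finset.sum_erase_eq_sub (Finset.mem_univ _),
      hdeg _ (by decide), hdeg _ (by decide)]
    simp [one, hc1]
  · have h := hform (1, 0) (0, 1) (1, 1) (by decide) (by decide) (by decide) (by decide)
    rw [show Fintype.card {z : V2 // RThree (1, 0) z ∧ RThree (0, 1) ((1, 1) - z)} = 1 by decide,
      ← Finset.add_sum_erase _ _ (Finset.mem_univ one)] at h
    simp only [Int.cast_mul, one, hc1, Int.cast_one, mul_one, div_one] at h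
    rw [← h]
    norm_num [weight]

end Cfsg.Agent.H29.NineKlein
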