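import Cfsg.Prelude.Def_PLocal
import Cfsg.Agent.H24.PGroupBasic

/-!
# Two normal non-abelian subgroups with different centres of order two, sectional rank four

Two such subgroups commute, meet trivially and their product contains its centralizer; each then has
sectional rank two.
-/

set_option autoImplicit false

namespace Cfsg.Agent.H29.RankFour

open Cfsg Subgroup
open scoped commutatorElement

variable {S : Type*} [Group S]

/-- An elementary quotient of a group mapping to `S` (kernel inside) has bounded order. -/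
theorem index_le_of_section {k : ℕ} (hr : SectionalPRankLE 2 k S) {X : Type*} [Group X] (μ : X →* S)
    (F : Subgroup X) [F.Normal] (hker : μ.ker ≤ F) (hcomm : ∀ x y : X, ⁅x, y⁆ ∈ F)
    (hsq : ∀ x : X, x ^ 2 ∈ F) : F.index ≤ 2 ^ k := by
  set N := F.map μ.rangeRestrict with hN
  have hn : N.Normal := Subgroup.Normal.map inferInstance _ μ.rangeRestrict_surjective
  have hmem : ∀ x, x ∈ F → μ.rangeRestrict x ∈ N := fun x hx => mem_map_of_mem _ hx
  have h := hr μ.range N (⊤ : Subgroup (μ.range ⧸ N))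
    ⟨⟨fun a b => by
      obtain ⟨a, -⟩ := a
      obtain ⟨b, -⟩ := b
      obtain ⟨a, rfl⟩ := QuotientGroup.mk'_surjective _ a
      obtain ⟨b, rfl⟩ := QuotientGroup.mk'_surjective _ b
      obtain ⟨x, rfl⟩ := μ.rangeRestrict_surjective a
      obtain ⟨y, rfl⟩ := μ.rangeRestrict_surjective b
      refine Subtype.ext ?_
      rw [Subgroup.coe_mul, Subgroup.coe_mul, ← commutatorElement_eq_one_iff_mul_comm]
      change ⁅QuotientGroup.mk' N (μ.rangeRestrict x), QuotientGroup.mk' N (μ.rangeRestrict y)⁆ = 1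
      rw [← map_commutatorElement, ← map_commutatorElement]
      exact (QuotientGroup.eq_one_iff _).2 (hmem _ (hcomm x y))⟩⟩
    (fun a _ => by
      obtain ⟨a, rfl⟩ := QuotientGroup.mk'_surjective _ a
      obtain ⟨x, rfl⟩ := μ.rangeRestrict_surjective a
      rw [← map_pow, ← map_pow]
      exact (QuotientGroup.eq_one_iff _).2 (hmem _ (hsq x)))
  rw [Subgroup.card_top, ← Subgroup.index_eq_card, hN, Subgroup.index_map, μ.ker_rangeRestrict,
    sup_eq_left.2 hker, MonoidHom.range_eq_top.2 μ.rangeRestrict_surjective, Subgroup.index_top, mul_one] at h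
  exact h

variable [Finite S]

theorem four_le_index_frattini (h2 : IsPGroup 2 S) (P : Subgroup S) (hP : ¬ IsMulCommutative P) :
    4 ≤ (frattini P).index := by
  have : Fact (Nat.Prime 2) := ⟨Nat.prime_two⟩
  obtain ⟨k, hk⟩ := (h2.to_subgroup P).index (frattini P)
  rcases Nat.lt_or_ge k 2 with h | h
  · exfalso
    have : IsCyclic (P ⧸ frattini P) := by
      rcases (show k = 0 ∨ k = 1 by omega) with rfl | rfl
      · have : Subsingleton (P ⧸ frattini P) := by
          rw [← Finite.card_le_one_iff_subsingleton, ← Subgroup.index_eq_card, hk, pow_zero]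
        infer_instance
      · exact isCyclic_of_prime_card (p := 2) (by rw [← Subgroup.index_eq_card, hk, pow_one])
    have := Agent.H24.isCyclic_of_quotient (frattini P) le_rfl
    exact hP IsCyclic.isMulCommutative
  · rw [hk]
    exact le_trans (by norm_num) (Nat.pow_le_pow_right (by norm_num) h)

theorem center_le_commutator (h2 : IsPGroup 2 S) (P : Subgroup S) (hP : ¬ IsMulCommutative P)
    (hZ : Nat.card (center P) = 2) : center P ≤ commutator P := by
  have : Fact (Nat.Prime 2) := ⟨Nat.prime_two⟩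
  have hne : commutator P ≠ ⊥ := fun h => hP ((commutator_eq_bot_iff P).1 h)
  have h := Agent.H24.inf_center_ne_bot (h2.to_subgroup P) hne
  rcases (Nat.dvd_prime Nat.prime_two).1 (hZ ▸ Subgroup.card_dvd_of_le
    (inf_le_right : commutator P ⊓ center P ≤ center P)) with h1 | h1
  · exact absurd (Subgroup.card_eq_one.1 h1) h
  · exact (Subgroup.eq_of_le_of_card_ge inf_le_right (hZ.trans h1.symm).le).symm.trans_le inf_le_left

theorem center_le_frattini (h2 : IsPGroup 2 S) (P : Subgroup S) (hP : ¬ IsMulCommutative P)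
    (hZ : Nat.card (center P) = 2) : center P ≤ frattini P := by
  have : Fact (Nat.Prime 2) := ⟨Nat.prime_two⟩
  exact (center_le_commutator h2 P hP hZ).trans (Agent.H24.commutator_le_frattini (h2.to_subgroup P))

/-- The data of two commuting-to-be subgroups. -/
structure Pair (P Q : Subgroup S) : Prop where
  h2 : IsPGroup 2 S
  hr : SectionalPRankLE 2 4 S
  naP : ¬ IsMulCommutative P
  naQ : ¬ IsMulCommutative Q
  cP : Nat.card (center P) = 2
  cQ : Nat.card (center Q) = 2
  nP : ∀ y ∈ Q, ∀ x ∈ P, y * x * y⁻¹ ∈ P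
  nQ : ∀ x ∈ P, ∀ y ∈ Q, x * y * x⁻¹ ∈ Q
  ne : (center P).map P.subtype ≠ (center Q).map Q.subtype

namespace Pair

variable {P Q : Subgroup S}

theorem symm (h : Pair P Q) : Pair Q P :=
  ⟨h.h2, h.hr, h.naQ, h.naP, h.cQ, h.cP, h.nQ, h.nP, h.ne.symm⟩

theorem inf_eq_bot (h : Pair P Q) : P ⊓ Q = ⊥ := by
  have : Fact (Nat.Prime 2) := ⟨Nat.prime_two⟩
  by_contra hne
  set M := P ⊔ Q with hM
  have hnorm : ∀ m ∈ M, ∀ x, x ∈ P ⊓ Q ↔ m * x * m⁻¹ ∈ P ⊓ Q := by
    intro m hm
    have hle : M ≤ normalizer ((P ⊓ Q : Subgroup S) : Set S) := by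
      refine sup_le (fun g hg => ?_) (fun g hg => ?_) <;> rw [Subgroup.mem_normalizer_iff] <;>
        intro x <;> constructor <;> intro hx
      · obtain ⟨h1, h2⟩ := Subgroup.mem_inf.1 hx
        exact Subgroup.mem_inf.2 ⟨mul_mem (mul_mem hg h1) (inv_mem hg), h.nQ g hg x h2⟩
      · have e : x = g⁻¹ * (g * x * g⁻¹) * g⁻¹⁻¹ := by group
        obtain ⟨h1, h2⟩ := Subgroup.mem_inf.1 hx
        rw [e]
        exact Subgroup.mem_inf.2 ⟨mul_mem (mul_mem (inv_mem hg) h1) (inv_mem (inv_mem hg)),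
          h.nQ _ (inv_mem hg) _ h2⟩
      · obtain ⟨h1, h2⟩ := Subgroup.mem_inf.1 hx
        exact Subgroup.mem_inf.2 ⟨h.nP g hg x h1, mul_mem (mul_mem hg h2) (inv_mem hg)⟩
      · have e : x = g⁻¹ * (g * x * g⁻¹) * g⁻¹⁻¹ := by group
        obtain ⟨h1, h2⟩ := Subgroup.mem_inf.1 hx
        rw [e]
        exact Subgroup.mem_inf.2 ⟨h.nP _ (inv_mem hg) _ h1,
          mul_mem (mul_mem (inv_mem hg) h2) (inv_mem (inv_mem hg))⟩
    exact Subgroup.mem_normalizer_iff.1 (hle hm)
  set W := (P ⊓ Q).subgroupOf M with hW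
  have : W.Normal := ⟨fun x hx g => by
    rw [hW, Subgroup.mem_subgroupOf] at hx ⊢
    rw [Subgroup.coe_mul, Subgroup.coe_mul, Subgroup.coe_inv]
    exact (hnorm g g.2 _).1 hx⟩
  have hWne : W ≠ ⊥ := by
    rw [hW, ne_eq, Subgroup.subgroupOf_eq_bot, disjoint_iff, inf_eq_left.2 (inf_le_left.trans le_sup_left)]
    exact hne
  obtain ⟨z, hzWc, hz1⟩ : ∃ z ∈ W ⊓ center M, z ≠ 1 := by
    by_contra hcon
    push Not at hcon
    exact Agent.H24.inf_center_ne_bot (h.h2.to_subgroup M) hWne
      (eq_bot_iff.2 fun x hx => Subgroup.mem_bot.2 (hcon x hx))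
  obtain ⟨hzW, hzc⟩ := Subgroup.mem_inf.1 hzWc
  have key : ∀ R : Subgroup S, R ≤ M → (z : S) ∈ R → Nat.card (center R) = 2 →
      Subgroup.zpowers (z : S) = (center R).map R.subtype := by
    intro R hR hzR hc
    have hzc' : (⟨z, hzR⟩ : R) ∈ center R := Subgroup.mem_center_iff.2 fun y => Subtype.ext
      (congrArg (fun w : M => (w : S)) (Subgroup.mem_center_iff.1 hzc ⟨y, hR y.2⟩))
    refine Subgroup.eq_of_le_of_card_ge (Subgroup.zpowers_le.2 ⟨_, hzc', rfl⟩) ?_
    rw [Subgroup.card_map_of_injective R.subtype_injective, hc, Nat.card_zpowers]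
    have hpos := orderOf_pos (z : S)
    have hne1 : orderOf (z : S) ≠ 1 := fun h1 => hz1 (Subtype.ext (orderOf_eq_one_iff.1 h1))
    omega
  rw [hW, Subgroup.mem_subgroupOf, Subgroup.mem_inf] at hzW
  exact h.ne ((key P le_sup_left hzW.1 h.cP).symm.trans (key Q le_sup_right hzW.2 h.cQ))

theorem commute (h : Pair P Q) {x y : S} (hx : x ∈ P) (hy : y ∈ Q) : x * y = y * x := by
  rw [← commutatorElement_eq_one_iff_mul_comm]
  have hmem : ⁅x, y⁆ ∈ P ⊓ Q := by
    refine Subgroup.mem_inf.2 ⟨?_, ?_⟩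
    · have e : ⁅x, y⁆ = x * (y * x⁻¹ * y⁻¹) := by rw [commutatorElement_def]; group
      rw [e]
      exact mul_mem hx (h.nP y hy _ (inv_mem hx))
    · rw [commutatorElement_def]
      exact mul_mem (h.nQ x hx y hy) (inv_mem hy)
  rw [h.inf_eq_bot] at hmem
  exact Subgroup.mem_bot.1 hmem

theorem disjoint_eq (h : Pair P Q) {x y : S} (hx : x ∈ P) (hy : y ∈ Q) (he : x * y = 1) : x = 1 ∧ y = 1 := by
  have hxQ : x ∈ Q := by rw [eq_inv_of_mul_eq_one_left he]; exact inv_mem hy
  have hx1 : x = 1 := Subgroup.mem_bot.1 (h.inf_eq_bot ▸ Subgroup.mem_inf.2 ⟨hx, hxQ⟩)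
  exact ⟨hx1, by rwa [hx1, one_mul] at he⟩

theorem exists_prod (h : Pair P Q) {m : S} (hm : m ∈ P ⊔ Q) : ∃ x ∈ P, ∃ y ∈ Q, x * y = m := by
  rw [Subgroup.sup_eq_closure] at hm
  induction hm using Subgroup.closure_induction with
  | mem z hz =>
    rcases hz with hz | hz
    · exact ⟨z, hz, 1, one_mem _, mul_one _⟩
    · exact ⟨1, one_mem _, z, hz, one_mul _⟩
  | inv z _ hz =>
    obtain ⟨x, hx, y, hy, rfl⟩ := hz
    exact ⟨x⁻¹, inv_mem hx, y⁻¹, inv_mem hy, by rw [h.commute hx hy, mul_inv_rev]⟩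
  | one => exact ⟨1, one_mem _, 1, one_mem _, one_mul _⟩
  | mul a b _ _ ha hb =>
    obtain ⟨x, hx, y, hy, rfl⟩ := ha
    obtain ⟨x', hx', y', hy', rfl⟩ := hb
    refine ⟨x * x', mul_mem hx hx', y * y', mul_mem hy hy', ?_⟩
    rw [mul_assoc x x', ← mul_assoc x' y, h.commute hx' hy]
    simp only [mul_assoc]

theorem center_coords (h : Pair P Q) {x y : S} (hx : x ∈ P) (hy : y ∈ Q)
    (hc : ∀ m ∈ P ⊔ Q, m * (x * y) = x * y * m) :
    (⟨x, hx⟩ : P) ∈ center P ∧ (⟨y, hy⟩ : Q) ∈ center Q := by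
  constructor
  · refine Subgroup.mem_center_iff.2 fun m => Subtype.ext ?_
    show (m : S) * x = x * m
    have h1 := hc m (mem_sup_left m.2)
    rw [mul_assoc x, ← h.commute m.2 hy, ← mul_assoc, ← mul_assoc] at h1
    exact mul_right_cancel h1
  · refine Subgroup.mem_center_iff.2 fun m => Subtype.ext ?_
    show (m : S) * y = y * m
    have h1 := hc m (mem_sup_right m.2)
    rw [← mul_assoc, ← h.commute hx m.2, mul_assoc, mul_assoc] at h1
    exact mul_left_cancel h1

theorem centralizer_le (h : Pair P Q) : centralizer ((P ⊔ Q : Subgroup S) : Set S) ≤ P ⊔ Q := by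
  have : Fact (Nat.Prime 2) := ⟨Nat.prime_two⟩
  intro c₀ hc₀
  by_contra hout
  have hex : ∃ c ∈ centralizer ((P ⊔ Q : Subgroup S) : Set S), c ∉ P ⊔ Q ∧ c ^ 2 ∈ P ⊔ Q := by
    obtain ⟨n, hn⟩ := h.h2 c₀
    classical
    have hexn : ∃ i, c₀ ^ 2 ^ i ∈ P ⊔ Q := ⟨n, hn ▸ one_mem _⟩
    have hspec := Nat.find_spec hexn
    have hne : Nat.find hexn ≠ 0 := fun h0 => hout (by simpa [h0] using hspec)
    refine ⟨c₀ ^ 2 ^ (Nat.find hexn - 1), pow_mem hc₀ _, Nat.find_min hexn (by omega), ?_⟩
    rw [← pow_mul, ← pow_succ, Nat.sub_add_cancel (by omega)]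
    exact hspec
  obtain ⟨c, hc, hcn, hc2⟩ := hex
  have hcomm : ∀ m ∈ P ⊔ Q, m * c = c * m := fun m hm => Subgroup.mem_centralizer_iff.1 hc m hm
  have hcz : ∀ (m : S) (t : zpowers c), m ∈ P ⊔ Q → Commute m (t : S) := fun m t hm => by
    obtain ⟨i, hi⟩ := t.2
    rw [← hi]
    exact (show Commute m c from hcomm m hm).zpow_right i
  let α : P × Q →* S := MonoidHom.noncommCoprod P.subtype Q.subtype fun x y => h.commute x.2 y.2
  let μ : (P × Q) × zpowers c →* S := MonoidHom.noncommCoprod α (zpowers c).subtype fun xy t => by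
    show Commute ((xy.1 : S) * xy.2) (t : S)
    exact hcz _ t (mul_mem (mem_sup_left xy.1.2) (mem_sup_right xy.2.2))
  let F : Subgroup ((P × Q) × zpowers c) :=
    ((frattini P).prod (frattini Q)).prod ((zpowers (c ^ 2)).subgroupOf (zpowers c))
  have : ((zpowers (c ^ 2)).subgroupOf (zpowers c)).Normal := ⟨fun x hx g => by
    have : g * x * g⁻¹ = x := by
      rw [(IsCyclic.isMulCommutative (α := zpowers c)).is_comm.comm g x, mul_inv_cancel_right]
    rwa [this]⟩
  have hFn : F.Normal := inferInstance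
  have heven : ∀ t : zpowers c, (t : S) ∈ P ⊔ Q → (t : S) ∈ zpowers (c ^ 2) := by
    rintro ⟨_, i, rfl⟩ ht
    show c ^ i ∈ zpowers (c ^ 2)
    change c ^ i ∈ P ⊔ Q at ht
    rcases Int.even_or_odd i with ⟨j, rfl⟩ | ⟨j, rfl⟩
    · exact ⟨j, by show (c ^ 2) ^ j = c ^ (j + j); rw [← zpow_natCast, ← zpow_mul]; congr 1; push_cast; ring⟩
    · exfalso
      apply hcn
      have h1 : c ^ (2 * j) ∈ P ⊔ Q := by rw [zpow_mul, zpow_ofNat]; exact zpow_mem hc2 j
      have := mul_mem (inv_mem h1) ht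
      rwa [zpow_add, zpow_one, inv_mul_cancel_left] at this
  have hker : μ.ker ≤ F := by
    rintro ⟨⟨x, y⟩, t⟩ hk
    have he : (x : S) * y * t = 1 := hk
    have hxy : (x : S) * y ∈ P ⊔ Q := mul_mem (mem_sup_left x.2) (mem_sup_right y.2)
    have htm : (t : S) ∈ P ⊔ Q := by
      rw [eq_inv_of_mul_eq_one_right he]
      exact inv_mem hxy
    have hcen := h.center_coords x.2 y.2 fun m hm => by
      have hti : (x : S) * y = (t : S)⁻¹ := eq_inv_of_mul_eq_one_left he
      rw [hti]
      exact (hcz m t hm).inv_right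
    exact ⟨⟨center_le_frattini h.h2 P h.naP h.cP hcen.1, center_le_frattini h.h2 Q h.naQ h.cQ hcen.2⟩,
      Subgroup.mem_subgroupOf.2 (heven t htm)⟩
  have hle := index_le_of_section h.hr μ F hker
    (fun u v => ⟨⟨Agent.H24.commutator_le_frattini (h.h2.to_subgroup P)
        (commutator_mem_commutator (mem_top u.1.1) (mem_top v.1.1)),
      Agent.H24.commutator_le_frattini (h.h2.to_subgroup Q)
        (commutator_mem_commutator (mem_top u.1.2) (mem_top v.1.2))⟩, by
      show ⁅u.2, v.2⁆ ∈ _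
      rw [commutatorElement_eq_one_iff_mul_comm.2
        ((IsCyclic.isMulCommutative (α := zpowers c)).is_comm.comm u.2 v.2)]
      exact one_mem _⟩)
    (fun u => ⟨⟨Agent.H24.pow_mem_frattini (h.h2.to_subgroup P) _,
      Agent.H24.pow_mem_frattini (h.h2.to_subgroup Q) _⟩, by
      obtain ⟨i, hi⟩ := u.2.2
      refine Subgroup.mem_subgroupOf.2 ⟨i, ?_⟩
      show (c ^ 2) ^ i = ((u.2 ^ 2 : zpowers c) : S)
      rw [Subgroup.coe_pow, ← show c ^ i = (u.2 : S) from hi, ← zpow_natCast, ← zpow_natCast, ← zpow_mul,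
        ← zpow_mul, mul_comm]⟩)
  have hc2idx : 2 ≤ ((zpowers (c ^ 2)).subgroupOf (zpowers c)).index := by
    refine Subgroup.one_lt_index_of_ne_top fun htop => ?_
    rw [Subgroup.subgroupOf_eq_top] at htop
    exact hcn ((Subgroup.zpowers_le.2 hc2) (htop (mem_zpowers c)))
  rw [Subgroup.index_prod, Subgroup.index_prod] at hle
  have := Nat.mul_le_mul (Nat.mul_le_mul (four_le_index_frattini h.h2 P h.naP)
    (four_le_index_frattini h.h2 Q h.naQ)) hc2idx
  omega

theorem rank_two (h : Pair P Q) : SectionalPRankLE 2 2 P := by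
  have : Fact (Nat.Prime 2) := ⟨Nat.prime_two⟩
  intro H N _ A hA hA2
  let H' : Subgroup H := A.comap (QuotientGroup.mk' N)
  let α : H' →* P := H.subtype.comp H'.subtype
  let μ : H' × Q →* S := MonoidHom.noncommCoprod (P.subtype.comp α) Q.subtype fun x y =>
    h.commute (α x).2 y.2
  let F : Subgroup (H' × Q) := (N.subgroupOf H').prod (frattini Q)
  have : (N.subgroupOf H').Normal := inferInstance
  have hker : μ.ker ≤ F := by
    rintro ⟨x, y⟩ hk
    have he : ((α x : P) : S) * y = 1 := hk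
    obtain ⟨h1, h2⟩ := h.disjoint_eq (α x).2 y.2 he
    have hx : x = 1 := Subtype.ext (Subtype.ext (Subtype.ext h1))
    have hy : y = 1 := Subtype.ext h2
    subst hx hy
    exact one_mem _
  have hle := index_le_of_section h.hr μ F hker
    (fun u v => ⟨by
      show ⁅u.1, v.1⁆ ∈ N.subgroupOf H'
      rw [Subgroup.mem_subgroupOf, ← QuotientGroup.eq_one_iff, ← QuotientGroup.mk'_apply]
      change QuotientGroup.mk' N ⁅(u.1 : H), (v.1 : H)⁆ = 1
      rw [map_commutatorElement, commutatorElement_eq_one_iff_mul_comm]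
      exact congrArg Subtype.val (hA.is_comm.comm ⟨_, u.1.2⟩ ⟨_, v.1.2⟩),
      Agent.H24.commutator_le_frattini (h.h2.to_subgroup Q)
        (commutator_mem_commutator (mem_top u.2) (mem_top v.2))⟩)
    (fun u => ⟨by
      show u.1 ^ 2 ∈ N.subgroupOf H'
      rw [Subgroup.mem_subgroupOf, Subgroup.coe_pow, ← QuotientGroup.eq_one_iff, ← QuotientGroup.mk'_apply,
        map_pow]
      exact hA2 _ u.1.2,
      Agent.H24.pow_mem_frattini (h.h2.to_subgroup Q) _⟩)
  have hidx : (N.subgroupOf H').index = Nat.card A := by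
    have hr := Subgroup.relIndex_ker (K := H') (QuotientGroup.mk' N)
    rw [QuotientGroup.ker_mk', Subgroup.map_comap_eq_self_of_surjective (QuotientGroup.mk'_surjective N)] at hr
    exact hr
  rw [Subgroup.index_prod, hidx] at hle
  have := Nat.mul_le_mul_left (Nat.card A) (four_le_index_frattini h.h2 Q h.naQ)
  omega

end Pair

/-- Conjugates of a subgroup with its centre. -/
theorem conj_data (g : S) (P : Subgroup S) (hP : ¬ IsMulCommutative P) (hZ : Nat.card (center P) = 2) :
    ¬ IsMulCommutative (P.map (MulAut.conj g).toMonoidHom) ∧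
      Nat.card (center (P.map (MulAut.conj g).toMonoidHom)) = 2 ∧
      (center (P.map (MulAut.conj g).toMonoidHom)).map (P.map (MulAut.conj g).toMonoidHom).subtype
        = ((center P).map P.subtype).map (MulAut.conj g).toMonoidHom := by
  let e : P ≃* P.map (MulAut.conj g).toMonoidHom :=
    P.equivMapOfInjective _ (MulAut.conj g).injective
  have hec : center (P.map (MulAut.conj g).toMonoidHom) = (center P).map e.toMonoidHom := by
    ext w
    obtain ⟨w, rfl⟩ := e.surjective w
    rw [show e w = e.toMonoidHom w from rfl, Subgroup.mem_map_iff_mem e.injective]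
    constructor <;> intro hw <;> refine Subgroup.mem_center_iff.2 fun v => ?_
    · exact e.injective (by rw [map_mul, map_mul]; exact Subgroup.mem_center_iff.1 hw (e v))
    · obtain ⟨v, rfl⟩ := e.surjective v
      show e v * e w = e w * e v
      rw [← map_mul, ← map_mul, Subgroup.mem_center_iff.1 hw v]
  refine ⟨fun h => hP ⟨⟨fun a b => e.injective (by rw [map_mul, map_mul]; exact h.is_comm.comm _ _)⟩⟩, ?_, ?_⟩
  · rw [hec, Subgroup.card_map_of_injective (f := e.toMonoidHom) e.injective, hZ]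
  · rw [hec, Subgroup.map_map, Subgroup.map_map]
    rfl

end Cfsg.Agent.H29.RankFour
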